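import Mathlib

/-! Artin–Zorn: a finite alternative ring without zero divisors is a field. -/

set_option autoImplicit false

namespace Cfsg.Agent.PG

section
variable {R : Type*} [NonAssocRing R]

/-- associator -/
def asc (x y z : R) : R := x * y * z - x * (y * z)

/-- alternative laws -/
def Alt (R : Type*) [NonAssocRing R] : Prop :=
  (∀ x y : R, x * x * y = x * (x * y)) ∧ (∀ x y : R, y * x * x = y * (x * x))

theorem Alt.sw12 (h : Alt R) (x y z : R) : asc x y z = - asc y x z := by
  have h1 := h.1 (x + y) z
  have h2 := h.1 x z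
  have h3 := h.1 y z
  simp only [add_mul, mul_add, asc] at *
  linear_combination (norm := abel1) h1 - h2 - h3

theorem Alt.sw23 (h : Alt R) (x y z : R) : asc x y z = - asc x z y := by
  have h1 := h.2 (y + z) x
  have h2 := h.2 y x
  have h3 := h.2 z x
  simp only [add_mul, mul_add, asc] at *
  linear_combination (norm := abel1) h1 - h2 - h3

theorem Alt.flex (h : Alt R) (x y : R) : x * y * x = x * (y * x) := by
  have h1 := h.sw23 x y x
  have h2 := h.1 x y
  simp only [asc] at *
  linear_combination (norm := abel1) h1 - h2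

/-- right Moufang identity -/
theorem Alt.moufang (h : Alt R) (y x a : R) : y * (x * a * x) = y * x * a * x := by
  have e1 := h.sw23 y x (a * x)
  have e2 := h.sw12 (y * x) a x
  have e3 := congrArg (y * ·) (h.2 x a)
  have e4 := congrArg (a * ·) (h.2 x y)
  have e5 := h.sw12 y a (x * x)
  have e6 := h.2 x (y * a)
  have e7 := h.2 x (a * y)
  have e8 := congrArg (· * x) (h.sw12 y a x)
  have e9 := congrArg (y * ·) (h.flex x a)
  simp only [asc, sub_mul, neg_mul] at *
  linear_combination (norm := abel1) e9 - e1 - e2 - e3 - e4 + e5 + e6 + e7 - e8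

theorem Alt.key (h : Alt R) (y x a z : R) :
    asc y (x * a) z + asc y (z * a) x + asc y x a * z + asc y z a * x = 0 := by
  have e1 := h.moufang y (x + z) a
  have e2 := h.moufang y x a
  have e3 := h.moufang y z a
  simp only [asc, sub_mul, add_mul, mul_add] at *
  linear_combination (norm := abel1) e2 + e3 - e1

theorem Alt.key' (h : Alt R) (y x a : R) : asc y (x * a) x + asc y x a * x = 0 := by
  have e2 := h.moufang y x a
  simp only [asc, sub_mul, add_mul, mul_add] at *
  linear_combination (norm := abel1) - e2

/-- right-normed words -/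
def wd (f : Bool → R) : List Bool → R
  | [] => 1
  | i :: l => f i * wd f l

theorem asc_one1 (y z : R) : asc 1 y z = 0 := by simp [asc]
theorem asc_one2 (y z : R) : asc y 1 z = 0 := by simp [asc]
theorem asc_one3 (y z : R) : asc y z 1 = 0 := by simp [asc]

theorem wd_append (f : Bool → R) (n : ℕ)
    (ih : ∀ l1 l2 l3 : List Bool, l1.length + l2.length + l3.length ≤ n →
      asc (wd f l1) (wd f l2) (wd f l3) = 0) (l1 l2 : List Bool) (hl : l1.length + l2.length ≤ n) :
    wd f (l1 ++ l2) = wd f l1 * wd f l2 := by
  induction l1 with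
  | nil => simp [wd]
  | cons i l ihl =>
    simp only [List.cons_append, wd, List.length_cons] at *
    rw [ihl (by omega)]
    have := ih [i] l l2 (by simp; omega)
    simp only [asc, wd, mul_one] at this
    exact (sub_eq_zero.1 this).symm

theorem Alt.wd_asc (h : Alt R) (f : Bool → R) (n : ℕ) :
    ∀ l1 l2 l3 : List Bool, l1.length + l2.length + l3.length ≤ n →
      asc (wd f l1) (wd f l2) (wd f l3) = 0 := by
  induction n with
  | zero =>
    intro l1 l2 l3 hl
    have : l1 = [] := List.length_eq_zero_iff.1 (by omega)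
    subst this; exact asc_one1 _ _
  | succ n ih =>
    have main : ∀ (i : Bool) (p q r : List Bool),
        p.length + (i :: q).length + (i :: r).length ≤ n + 1 →
        asc (wd f p) (wd f (i :: q)) (wd f (i :: r)) = 0 := by
      intro i p q r hl
      simp only [List.length_cons] at hl
      rcases p with _ | ⟨j, p⟩
      · exact asc_one1 _ _
      simp only [List.length_cons] at hl
      have k1 := h.key (wd f (j :: p)) (f i) (wd f q) (wd f (i :: r))
      have a1 := ih (j :: p) [i] q (by simp; omega)
      have a2 := ih (j :: p) (i :: r) q (by simp; omega)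
      have a3 := wd_append f n ih (i :: r) q (by simp; omega)
      have k2 := h.key' (wd f (j :: p)) (f i) (wd f (r ++ q))
      have a4 := ih (j :: p) [i] (r ++ q) (by simp; omega)
      have hi : wd f [i] = f i := by simp [wd]
      rw [hi] at a1 a4
      rw [a4, zero_mul, add_zero] at k2
      rw [a1, a2, ← a3, zero_mul, zero_mul, add_zero, add_zero] at k1
      have : wd f (i :: r ++ q) = f i * wd f (r ++ q) := rfl
      rw [this, k2, add_zero] at k1
      exact k1
    intro l1 l2 l3 hl
    rcases l1 with _ | ⟨i1, l1⟩
    · exact asc_one1 _ _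
    rcases l2 with _ | ⟨i2, l2⟩
    · exact asc_one2 _ _
    rcases l3 with _ | ⟨i3, l3⟩
    · exact asc_one3 _ _
    by_cases h23 : i2 = i3
    · subst h23; exact main _ _ _ _ hl
    by_cases h13 : i1 = i3
    · subst h13
      rw [h.sw12, main _ _ _ _ (by omega), neg_zero]
    have h12 : i1 = i2 := by revert h23 h13; cases i1 <;> cases i2 <;> cases i3 <;> simp
    subst h12
    rw [h.sw23, h.sw12, main _ _ _ _ (by omega)]; simp

/-- a subring is associative -/
def Ass (S : Subring R) : Prop := ∀ x ∈ S, ∀ y ∈ S, ∀ z ∈ S, asc x y z = 0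

theorem Alt.exists_ass (h : Alt R) (x y : R) : ∃ S : Subring R, Ass S ∧ x ∈ S ∧ y ∈ S := by
  let f : Bool → R := fun b => if b then x else y
  have hw := fun l1 l2 l3 => h.wd_asc f _ l1 l2 l3 le_rfl
  have ha := fun l1 l2 => wd_append f _ (h.wd_asc f _) l1 l2 le_rfl
  let A := AddSubgroup.closure (Set.range (wd f))
  have hmul : ∀ a ∈ A, ∀ b ∈ A, a * b ∈ A := by
    intro a ha' b hb
    induction ha', hb using AddSubgroup.closure_induction₂ with
    | mem a b ha' hb =>
      obtain ⟨l1, rfl⟩ := ha'
      obtain ⟨l2, rfl⟩ := hb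
      exact AddSubgroup.subset_closure ⟨l1 ++ l2, ha l1 l2⟩
    | zero_left => simp
    | zero_right => simp
    | add_left a b c _ _ _ h1 h2 => rw [add_mul]; exact A.add_mem h1 h2
    | add_right a b c _ _ _ h1 h2 => rw [mul_add]; exact A.add_mem h1 h2
    | neg_left a b _ _ h1 => rw [neg_mul]; exact A.neg_mem h1
    | neg_right a b _ _ h1 => rw [mul_neg]; exact A.neg_mem h1
  let S : Subring R :=
    { A with
      mul_mem' := fun {a b} ha hb => hmul a ha b hb
      one_mem' := AddSubgroup.subset_closure ⟨[], rfl⟩ }
  refine ⟨S, ?_, AddSubgroup.subset_closure ⟨[true], by simp [wd, f]⟩,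
    AddSubgroup.subset_closure ⟨[false], by simp [wd, f]⟩⟩
  intro a ha' b hb c hc
  change a ∈ A at ha'
  change b ∈ A at hb
  change c ∈ A at hc
  induction ha' using AddSubgroup.closure_induction with
  | mem a ha' =>
    induction hb using AddSubgroup.closure_induction with
    | mem b hb =>
      induction hc using AddSubgroup.closure_induction with
      | mem c hc =>
        obtain ⟨l1, rfl⟩ := ha'
        obtain ⟨l2, rfl⟩ := hb
        obtain ⟨l3, rfl⟩ := hc
        exact hw _ _ _
      | zero => simp [asc]
      | add c d _ _ h1 h2 =>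
        simp only [asc, mul_add] at *
        linear_combination (norm := abel1) h1 + h2
      | neg c _ h1 =>
        simp only [asc, mul_neg] at *
        linear_combination (norm := abel1) - h1
    | zero => simp [asc]
    | add c d _ _ h1 h2 =>
      simp only [asc, mul_add, add_mul] at *
      linear_combination (norm := abel1) h1 + h2
    | neg c _ h1 =>
      simp only [asc, mul_neg, neg_mul] at *
      linear_combination (norm := abel1) - h1
  | zero => simp [asc]
  | add c d _ _ h1 h2 =>
    simp only [asc, mul_add, add_mul] at *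
    linear_combination (norm := abel1) h1 + h2
  | neg c _ h1 =>
    simp only [asc, mul_neg, neg_mul] at *
    linear_combination (norm := abel1) - h1

/-- an associative subring of a finite ring without zero divisors is generated by one element -/
theorem Ass.gen [Finite R] [NoZeroDivisors R] [Nontrivial R] {S : Subring R} (hS : Ass S) :
    (∀ x ∈ S, ∀ y ∈ S, x * y = y * x) ∧
    ∃ g ∈ S, ∀ S' : Subring R, g ∈ S' → S ≤ S' := by
  classical
  letI : Ring S :=
    { (inferInstance : NonAssocRing S) with
      mul_assoc := fun a b c => Subtype.ext (sub_eq_zero.1 (hS a a.2 b b.2 c c.2)) }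
  haveI : Nontrivial S := ⟨⟨0, 1, fun h => zero_ne_one (congrArg Subtype.val h)⟩⟩
  haveI : NoZeroDivisors S := ⟨fun {a b} hab => by
    rcases mul_eq_zero.1 (show (a : R) * b = 0 from congrArg Subtype.val hab) with h | h
    · exact Or.inl (Subtype.ext h)
    · exact Or.inr (Subtype.ext h)⟩
  haveI : IsDomain S := NoZeroDivisors.to_isDomain S
  have hF := Finite.isDomain_to_isField S
  refine ⟨fun x hx y hy => congrArg Subtype.val (hF.mul_comm ⟨x, hx⟩ ⟨y, hy⟩), ?_⟩
  letI := hF.toField
  obtain ⟨g, hg⟩ := IsCyclic.exists_monoid_generator (α := Sˣ)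
  refine ⟨(g : S), (g : S).2, fun S' hg' x hx => ?_⟩
  by_cases h0 : (⟨x, hx⟩ : S) = 0
  · have : x = 0 := congrArg Subtype.val h0
    rw [this]; exact S'.zero_mem
  obtain ⟨k, hk⟩ := hg (Units.mk0 ⟨x, hx⟩ h0)
  have hk' : (g : S) ^ k = ⟨x, hx⟩ := by
    have := congrArg Units.val hk
    simpa using this
  have : ∀ k : ℕ, (((g : S) ^ k : S) : R) ∈ S' := by
    intro k
    induction k with
    | zero => rw [pow_zero]; exact S'.one_mem
    | succ k ih => rw [pow_succ]; exact S'.mul_mem ih hg'
  have h2 := this k
  rw [hk'] at h2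
  exact h2

/-- Artin–Zorn -/
theorem Alt.field [Finite R] [NoZeroDivisors R] [Nontrivial R] (h : Alt R) :
    (∀ x y z : R, x * y * z = x * (y * z)) ∧ ∀ x y : R, x * y = y * x := by
  classical
  obtain ⟨S0, hS0, -⟩ := h.exists_ass 0 0
  haveI : Finite (Subring R) := Finite.of_injective (fun S : Subring R => (S : Set R))
    SetLike.coe_injective
  obtain ⟨S, -, hS⟩ := Finite.exists_le_maximal (p := fun S : Subring R => Ass S) hS0
  obtain ⟨hc, g, hg, hgen⟩ := Ass.gen hS.prop
  have hall : ∀ y : R, y ∈ S := by
    intro y
    obtain ⟨S', hS', hg', hy⟩ := h.exists_ass g y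
    exact hS.le_of_ge hS' (hgen S' hg') hy
  exact ⟨fun x y z => sub_eq_zero.1 (hS.prop x (hall x) y (hall y) z (hall z)),
    fun x y => hc x (hall x) y (hall y)⟩

/-- the inverse properties give the alternative laws -/
theorem alt_of_ip
    (hr : ∀ a : R, a ≠ 0 → ∃ b : R, ∀ x, x * a * b = x)
    (hl : ∀ a : R, a ≠ 0 → ∃ b : R, ∀ x, b * (a * x) = x) : Alt R := by
  constructor
  · intro x y
    by_cases h0 : x = 0
    · simp [h0]
    by_cases h1 : 1 - x = 0
    · have : x = 1 := (sub_eq_zero.1 h1).symm
      simp [this]
    obtain ⟨b, hb⟩ := hl x h0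
    obtain ⟨c, hc⟩ := hl (1 - x) h1
    have key : ∀ y, (b + c) * (x * y - x * (x * y)) = y := by
      intro y
      have e1 := hb (y - x * y)
      have e2 := hc (x * y)
      rw [mul_sub] at e1
      rw [sub_mul, one_mul] at e2
      rw [add_mul, e1, e2]; abel
    by_cases h2 : b + c = 0
    · have := key y
      rw [h2, zero_mul] at this
      simp [← this]
    obtain ⟨d, hd⟩ := hl _ h2
    have k2 : ∀ y, d * y = x * y - x * (x * y) := by
      intro y
      have := hd (x * y - x * (x * y))
      rwa [key] at this
    have k3 := k2 1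
    simp only [mul_one] at k3
    have k4 := k2 y
    rw [k3, sub_mul] at k4
    exact sub_right_injective k4
  · intro x y
    by_cases h0 : x = 0
    · simp [h0]
    by_cases h1 : 1 - x = 0
    · have : x = 1 := (sub_eq_zero.1 h1).symm
      simp [this]
    obtain ⟨b, hb⟩ := hr x h0
    obtain ⟨c, hc⟩ := hr (1 - x) h1
    have key : ∀ y, (y * x - y * x * x) * (b + c) = y := by
      intro y
      have e1 := hb (y - y * x)
      have e2 := hc (y * x)
      rw [sub_mul] at e1
      rw [mul_sub, mul_one] at e2
      rw [mul_add, e1, e2]; abel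
    by_cases h2 : b + c = 0
    · have := key y
      rw [h2, mul_zero] at this
      simp [← this]
    obtain ⟨d, hd⟩ := hr _ h2
    have k2 : ∀ y, y * d = y * x - y * x * x := by
      intro y
      have := hd (y * x - y * x * x)
      rwa [key] at this
    have k3 := k2 1
    simp only [one_mul] at k3
    have k4 := k2 y
    rw [k3, mul_sub] at k4
    exact sub_right_injective k4.symm

end

end Cfsg.Agent.PG
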