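import Mathlib
import Cfsg.Agent.PG.Ito
import Cfsg.Agent.PG.Tr

/-! Finite projective planes and their perspectivities. -/

set_option autoImplicit false

open scoped Classical

namespace Cfsg.Agent.PG

open MulAction Finset

/-- a projective plane of order `k` -/
structure Pl {P L : Type*} [Fintype P] [Fintype L] (I : P → L → Prop) (k : ℕ) : Prop where
  sd : SD I (k + 1) 1
  two : 2 ≤ k
  ne : Nonempty P

/-- a nondegenerate configuration inside the given sets of points and lines -/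
def Cfg {P L : Type*} (I : P → L → Prop) (S : P → Prop) (T : L → Prop) : Prop :=
  ∃ (p₁ p₂ p₃ : P) (l₁ l₂ l₃ : L), (S p₁ ∧ S p₂ ∧ S p₃) ∧ (T l₁ ∧ T l₂ ∧ T l₃) ∧
    ¬ I p₁ l₂ ∧ ¬ I p₁ l₃ ∧ ¬ I p₂ l₁ ∧ I p₂ l₂ ∧ I p₂ l₃ ∧ ¬ I p₃ l₁ ∧ I p₃ l₂ ∧ ¬ I p₃ l₃

theorem Cfg.dual {P L : Type*} {I : P → L → Prop} {S : P → Prop} {T : L → Prop} (h : Cfg I S T) :
    Cfg (fun l p => I p l) T S := by
  obtain ⟨p₁, p₂, p₃, l₁, l₂, l₃, hS, hT, h₁₂, h₁₃, h₂₁, h₂₂, h₂₃, h₃₁, h₃₂, h₃₃⟩ := h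
  exact ⟨l₁, l₂, l₃, p₁, p₂, p₃, hT, hS, h₂₁, h₃₁, h₁₂, h₂₂, h₃₂, h₁₃, h₂₃, h₃₃⟩

theorem pl_of_config {P L : Type*} [Membership P L] [Fintype P] [Fintype L]
    [Configuration.ProjectivePlane P L] :
    Pl (fun (p : P) (l : L) => p ∈ l) (Configuration.ProjectivePlane.order P L) := by
  refine ⟨⟨Configuration.ProjectivePlane.card_points_eq_card_lines P L, fun p => ?_, fun l => ?_,
    fun p q h => ?_, ?_⟩, Configuration.ProjectivePlane.one_lt_order P L,
    ⟨(Configuration.ProjectivePlane.exists_config (P := P) (L := L)).choose⟩⟩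
  · rw [← Configuration.ProjectivePlane.lineCount_eq L p, Configuration.lineCount,
      Nat.card_eq_fintype_card, Fintype.card_subtype]
  · rw [← Configuration.ProjectivePlane.pointCount_eq P l, Configuration.pointCount,
      Nat.card_eq_fintype_card, Fintype.card_subtype]
  · obtain ⟨l, hl, hu⟩ := Configuration.HasLines.existsUnique_line P L p q h
    refine Finset.card_eq_one.2 ⟨l, ?_⟩
    ext m
    simp only [mem_filter, mem_univ, true_and, mem_singleton]
    exact ⟨hu m, fun e => e ▸ hl⟩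
  · have := Configuration.ProjectivePlane.one_lt_order P L
    omega

theorem pl_of_cfg {P L : Type*} [Fintype P] [Fintype L] {I : P → L → Prop}
    (join : ∀ A B, A ≠ B → ∃ l, I A l ∧ I B l) (meet : ∀ a b, a ≠ b → ∃ X, I X a ∧ I X b)
    (uniq : ∀ {A B a b}, I A a → I B a → I A b → I B b → A = B ∨ a = b)
    (cfg : Cfg I (fun _ => True) (fun _ => True)) : ∃ k, Pl I k := by
  obtain ⟨p₁, p₂, p₃, l₁, l₂, l₃, -, -, h₁₂, h₁₃, h₂₁, h₂₂, h₂₃, h₃₁, h₃₂, h₃₃⟩ := cfg
  letI : Membership P L := ⟨fun l p => I p l⟩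
  letI : Configuration.ProjectivePlane P L :=
    { exists_point := fun l => by
        by_contra h
        push Not at h
        rcases uniq (h p₂) (h p₃) h₂₂ h₃₂ with e | e
        · exact h₃₃ (e ▸ h₂₃)
        · exact h₁₂ (e ▸ h p₁)
      exists_line := fun p => by
        by_contra h
        push Not at h
        rcases uniq (h l₂) h₂₂ (h l₃) h₂₃ with e | e
        · exact h₂₁ (e ▸ h l₁)
        · exact h₃₃ (e ▸ h₃₂)
      eq_or_eq := uniq
      mkPoint := fun h => (meet _ _ h).choose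
      mkPoint_ax := fun h => (meet _ _ h).choose_spec
      mkLine := fun h => (join _ _ h).choose
      mkLine_ax := fun h => (join _ _ h).choose_spec
      exists_config := ⟨p₁, p₂, p₃, l₁, l₂, l₃, h₁₂, h₁₃, h₂₁, h₂₂, h₂₃, h₃₁, h₃₂, h₃₃⟩ }
  exact ⟨_, pl_of_config⟩

section
variable {P L : Type*} {G : Type*} [Group G] [MulAction G P] [MulAction G L]

/-- the elements fixing every line through `A` -/
abbrev Ce (G : Type*) [Group G] [MulAction G L] (I : P → L → Prop) (A : P) : Subgroup G :=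
  Ax G (fun l p => I p l) A

/-- an involutory homology with centre `C` and axis `c` -/
structure Hom (I : P → L → Prop) (h : G) (C : P) (c : L) : Prop where
  ce : h ∈ Ce G I C
  ax : h ∈ Ax G I c
  off : ¬ I C c
  sq : h * h = 1
  ne : h ≠ 1

/-- a nontrivial elation with centre `C` and axis `c` -/
structure El (I : P → L → Prop) (t : G) (C : P) (c : L) : Prop where
  ce : t ∈ Ce G I C
  ax : t ∈ Ax G I c
  on : I C c
  ne : t ≠ 1

variable {I : P → L → Prop}

theorem Hom.dual {h : G} {C : P} {c : L} (H : Hom I h C c) : Hom (fun l p => I p l) h c C :=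
  ⟨H.ax, H.ce, H.off, H.sq, H.ne⟩

theorem El.dual {h : G} {C : P} {c : L} (H : El I h C c) : El (fun l p => I p l) h c C :=
  ⟨H.ax, H.ce, H.on, H.ne⟩

theorem Hom.inv {h : G} {C : P} {c : L} (H : Hom I h C c) : h⁻¹ = h :=
  inv_eq_of_mul_eq_one_right H.sq

theorem Hom.conj (hI : ∀ (g : G) p b, I (g • p) (g • b) ↔ I p b) {h : G} {C : P} {c : L}
    (H : Hom I h C c) (g : G) : Hom I (g * h * g⁻¹) (g • C) (g • c) :=
  ⟨Ax_conj (I := fun l p => I p l) (fun g p b => hI g b p) H.ce g, Ax_conj hI H.ax g,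
    fun e => H.off ((hI g _ _).1 e), by
      calc g * h * g⁻¹ * (g * h * g⁻¹) = g * (h * h) * g⁻¹ := by group
        _ = 1 := by rw [H.sq]; group,
    fun e => H.ne (by simpa using e)⟩

theorem El.conj (hI : ∀ (g : G) p b, I (g • p) (g • b) ↔ I p b) {h : G} {C : P} {c : L}
    (H : El I h C c) (g : G) : El I (g * h * g⁻¹) (g • C) (g • c) :=
  ⟨Ax_conj (I := fun l p => I p l) (fun g p b => hI g b p) H.ce g, Ax_conj hI H.ax g,
    (hI g _ _).2 H.on, fun e => H.ne (by simpa using e)⟩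

end

namespace Pl

variable {P L : Type*} [Fintype P] [Fintype L] {I : P → L → Prop} {k : ℕ} (Z : Pl I k)
include Z

theorem dual : Pl (fun l p => I p l) k :=
  ⟨Z.sd.dual, Z.two, Fintype.card_pos_iff.1 (Z.sd.card ▸ Fintype.card_pos_iff.2 Z.ne)⟩

theorem join {A B : P} (h : A ≠ B) : ∃ l, I A l ∧ I B l := by
  obtain ⟨l, hl⟩ := Finset.card_pos.1 (show 0 < (univ.filter fun b => I A b ∧ I B b).card by
    rw [Z.sd.pair A B h]; exact one_pos)
  exact ⟨l, by simpa using hl⟩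

theorem meet {a b : L} (h : a ≠ b) : ∃ X, I X a ∧ I X b := Z.dual.join h

theorem leq {A B : P} {a b : L} (h : A ≠ B) (h1 : I A a) (h2 : I B a) (h3 : I A b) (h4 : I B b) :
    a = b :=
  Finset.card_le_one.1 (Z.sd.pair A B h).le a (by simp [h1, h2]) b (by simp [h3, h4])

theorem peq {A B : P} {a b : L} (h : a ≠ b) (h1 : I A a) (h2 : I B a) (h3 : I A b) (h4 : I B b) :
    A = B := Z.dual.leq h h1 h3 h2 h4

theorem card : Fintype.card P = k ^ 2 + k + 1 := by
  haveI := Z.ne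
  have := Z.sd.eqn
  have h : (Fintype.card P : ℚ) = (k ^ 2 + k + 1 : ℕ) := by push_cast at this ⊢; linarith
  exact_mod_cast h

theorem hl : 1 + 2 ≤ k + 1 := by have := Z.two; omega

theorem ncard_on (a : L) : {X | I X a}.ncard = k + 1 := by
  rw [← Z.sd.col a, ← Set.ncard_coe_finset]; congr 1; ext; simp

theorem ncard_on' {a : L} {A : P} (h : I A a) : {X | I X a ∧ X ≠ A}.ncard = k := by
  have h1 := Set.ncard_diff_singleton_add_one (show A ∈ {X | I X a} from h)
  rw [Z.ncard_on] at h1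
  have : {X | I X a ∧ X ≠ A} = {X | I X a} \ {A} := by ext; simp
  rw [this]; omega

theorem ncard_off (a : L) : {X | ¬ I X a}.ncard = k ^ 2 := by
  have h1 := Set.ncard_add_ncard_compl {X | I X a}
  rw [Z.ncard_on, Nat.card_eq_fintype_card, Z.card] at h1
  have : {X | ¬ I X a} = {X | I X a}ᶜ := by ext; simp
  rw [this]; omega

theorem third (a : L) (A B : P) : ∃ X, I X a ∧ X ≠ A ∧ X ≠ B := by
  by_contra h
  push Not at h
  have h1 : {X | I X a} ⊆ {A, B} := fun X hX => by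
    by_cases e : X = A
    · exact Or.inl e
    · exact Or.inr (h X hX e)
  have h2 := (Set.ncard_le_ncard h1).trans (Set.ncard_insert_le A {B})
  rw [Z.ncard_on, Set.ncard_singleton] at h2
  have := Z.two
  omega

theorem exists_off (a : L) : ∃ X, ¬ I X a := by
  have h := Z.ncard_off a
  have := Z.two
  exact Set.nonempty_of_ncard_ne_zero (s := {X | ¬ I X a}) (by rw [h]; positivity)

variable {G : Type*} [Group G] [MulAction G P] [MulAction G L]
  (hI : ∀ (g : G) p b, I (g • p) (g • b) ↔ I p b)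
include hI

theorem fix_join {g : G} {A B : P} {a : L} (h : A ≠ B) (h1 : I A a) (h2 : I B a) (h3 : g • A = A)
    (h4 : g • B = B) : g • a = a :=
  Z.leq h (by rw [← h3, hI]; exact h1) (by rw [← h4, hI]; exact h2) h1 h2

theorem fix_meet {g : G} {A : P} {a b : L} (h : a ≠ b) (h1 : I A a) (h2 : I A b) (h3 : g • a = a)
    (h4 : g • b = b) : g • A = A :=
  Z.dual.fix_join (fun g p b => hI g b p) h h1 h2 h3 h4

theorem ax_fix {g : G} {a : L} (h : g ∈ Ax G I a) : g • a = a := Z.sd.ax_fix hI h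

theorem ce_fix {g : G} {A : P} (h : g ∈ Ce G I A) : g • A = A :=
  Z.sd.dual.ax_fix (fun g p b => hI g b p) h

theorem exists_ce {g : G} {a : L} (h : g ∈ Ax G I a) : ∃ C, g ∈ Ce G I C := by
  by_cases hs : ∀ p, ¬ I p a → g • p ≠ p
  · obtain ⟨D, h1, h2⟩ := Z.sd.exists_fixed hI (by have := Z.two; omega) h
    obtain ⟨C, h3, h4⟩ := Z.meet h1
    refine ⟨C, fun E hE => ?_⟩
    by_cases e : E = a
    · rw [e]; exact Z.ax_fix hI h
    · exact Z.sd.fix_dep hI h hs h1 e
        (fun p hp => ⟨fun h5 => Z.peq h1 h3 h5 h4 hp ▸ hE, fun h5 => Z.peq e hE h5 h4 hp ▸ h3⟩) h2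
  · push Not at hs
    obtain ⟨p, h1, h2⟩ := hs
    exact ⟨p, fun E hE => Z.sd.fix_of_fix hI h hE h1 h2⟩

theorem exists_ax {g : G} {A : P} (h : g ∈ Ce G I A) : ∃ c, g ∈ Ax G I c :=
  Z.dual.exists_ce (fun g p b => hI g b p) h

variable [FaithfulSMul G P] [FaithfulSMul G L]

omit [FaithfulSMul G L] in
theorem ax_eq {g : G} {a b : L} (h1 : g ∈ Ax G I a) (h2 : g ∈ Ax G I b) (h : g ≠ 1) : a = b := by
  by_contra e
  exact h (Z.sd.ax_inter hI Z.hl e h1 h2)

omit [FaithfulSMul G P] in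
theorem ce_eq {g : G} {A B : P} (h1 : g ∈ Ce G I A) (h2 : g ∈ Ce G I B) (h : g ≠ 1) : A = B :=
  Z.dual.ax_eq (fun g p b => hI g b p) h1 h2 h

omit [FaithfulSMul G P] in
theorem fixP {g : G} {C X : P} {c : L} (h1 : g ∈ Ce G I C) (h2 : g ∈ Ax G I c) (h : g ≠ 1)
    (h3 : g • X = X) : I X c ∨ X = C := by
  by_cases e : I X c
  · exact Or.inl e
  · exact Or.inr (Z.ce_eq hI (fun E hE => Z.sd.fix_of_fix hI h2 hE e h3) h1 h)

omit [FaithfulSMul G L] in
theorem fixL {g : G} {C : P} {c x : L} (h1 : g ∈ Ce G I C) (h2 : g ∈ Ax G I c) (h : g ≠ 1)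
    (h3 : g • x = x) : I C x ∨ x = c :=
  Z.dual.fixP (fun g p b => hI g b p) h2 h1 h h3

omit [FaithfulSMul G L] in
theorem el_fixL {g : G} {C : P} {c x : L} (h : El I g C c) (h3 : g • x = x) : I C x := by
  rcases Z.fixL hI h.ce h.ax h.ne h3 with e | e
  · exact e
  · exact e ▸ h.on

omit [FaithfulSMul G P] in
theorem el_fixP {g : G} {C X : P} {c : L} (h : El I g C c) (h3 : g • X = X) : I X c :=
  Z.dual.el_fixL (fun g p b => hI g b p) h.dual h3

omit [FaithfulSMul G L] in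
/-- two involutory homologies with the same centre and different axes -/
theorem hom_mul {h h' : G} {C : P} {c c' : L} (H : Hom I h C c) (H' : Hom I h' C c') (hc : c ≠ c') :
    ∃ d, El I (h * h') C d := by
  have h1 : h * h' ∈ Ce G I C := Subgroup.mul_mem _ H.ce H'.ce
  have h2 : h * h' ≠ 1 := fun e => by
    have : h = h' := by rw [← H'.inv]; exact eq_inv_of_mul_eq_one_left e
    exact hc (Z.ax_eq hI H.ax (this ▸ H'.ax) H.ne)
  obtain ⟨d, hd⟩ := Z.exists_ax hI h1
  refine ⟨d, h1, hd, ?_, h2⟩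
  by_contra hn
  have h3 : ∀ {s : G} {e : L}, Hom I s C e → s * (h * h') * s⁻¹ = (h * h')⁻¹ → d = e := by
    intro s e S hs
    have h4 := Ax_conj hI hd s
    rw [hs] at h4
    have h5 := Z.ax_eq hI h4 (Subgroup.inv_mem _ hd) (inv_ne_one.2 h2)
    exact (Z.fixL hI S.ce S.ax S.ne h5).resolve_left hn
  refine hc ((h3 H ?_).symm.trans (h3 H' ?_))
  · rw [← mul_assoc, H.sq, one_mul, mul_inv_rev, H'.inv]
  · rw [mul_inv_rev, H'.inv, H.inv, mul_assoc, mul_assoc, H'.sq, mul_one]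

omit [FaithfulSMul G P] in
theorem el_comm {s t : G} {A B : P} {a : L} (h1 : El I s A a) (h2 : El I t B a) (h : A ≠ B) :
    s * t = t * s := by
  have h3 : s * t * s⁻¹ * t⁻¹ = 1 := by
    by_contra e
    refine h (Z.ce_eq hI ?_ ?_ e)
    · have := (h1.conj hI t).ce
      rw [h2.ax A h1.on] at this
      have := Subgroup.mul_mem _ h1.ce (Subgroup.inv_mem _ this)
      simpa [mul_assoc] using this
    · have := (h2.conj hI s).ce
      rw [h1.ax B h2.on] at this
      exact Subgroup.mul_mem _ this (Subgroup.inv_mem _ h2.ce)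
  rw [mul_inv_eq_one, mul_inv_eq_iff_eq_mul] at h3
  exact h3

omit [FaithfulSMul G P] in
theorem el_pow {s t : G} {A B : P} {a : L} (h1 : El I s A a) (h2 : El I t B a) (h : A ≠ B)
    {p : ℕ} (hp : s ^ p = 1) : t ^ p = 1 := by
  obtain ⟨C, hC⟩ := Z.exists_ce hI (Subgroup.mul_mem _ h1.ax h2.ax)
  have h3 : (s * t) ^ p = t ^ p := by
    rw [(show Commute s t from Z.el_comm hI h1 h2 h).mul_pow, hp, one_mul]
  by_contra e
  have h4 := Z.ce_eq hI (h3 ▸ Subgroup.pow_mem _ hC p) (Subgroup.pow_mem _ h2.ce p) e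
  subst h4
  have h5 := Subgroup.mul_mem _ hC (Subgroup.inv_mem _ h2.ce)
  rw [mul_inv_cancel_right] at h5
  exact h (Z.ce_eq hI h1.ce h5 h1.ne)

omit [FaithfulSMul G P] in
/-- an axis with two different centres of elations -/
theorem el_prime [Finite G] {s t : G} {A B : P} {a : L} (h1 : El I s A a) (h2 : El I t B a)
    (h : A ≠ B) : ∃ p : ℕ, p.Prime ∧ ∀ (u : G) (C : P), El I u C a → u ^ p = 1 := by
  have h3 : orderOf s ≠ 1 := fun e => h1.ne (orderOf_eq_one_iff.1 e)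
  obtain ⟨p, hp, m, hm⟩ := Nat.exists_prime_and_dvd h3
  have h4 : El I (s ^ m) A a := ⟨Subgroup.pow_mem _ h1.ce m, Subgroup.pow_mem _ h1.ax m, h1.on,
    fun e => by
      have h5 := Nat.le_of_dvd (Nat.pos_of_mul_pos_left (hm ▸ orderOf_pos s))
        (orderOf_dvd_of_pow_eq_one e)
      have h6 := hp.two_le
      have h7 : 0 < m := Nat.pos_of_mul_pos_left (hm ▸ orderOf_pos s)
      nlinarith⟩
  have h5 : (s ^ m) ^ p = 1 := by rw [← pow_mul, mul_comm, ← hm, pow_orderOf_eq_one]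
  refine ⟨p, hp, fun u C hu => ?_⟩
  by_cases e : A = C
  · exact Z.el_pow hI h2 hu (e ▸ h.symm) (Z.el_pow hI h4 h2 h h5)
  · exact Z.el_pow hI h4 hu e h5

end Pl

end Cfsg.Agent.PG
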