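import Mathlib
import Cfsg.Agent.PG.Pl

/-! Planes with many involutory homologies have prime power order. -/

set_option autoImplicit false

open scoped Classical

namespace Cfsg.Agent.PG

open MulAction Finset

theorem inv_tr {G X : Type*} [Group G] [MulAction G X] [Finite X] {T : Subgroup G} {Y : Set X}
    (R : G → X → Prop) (h0 : ∀ y ∈ Y, ∃ h, R h y)
    (h1 : ∀ h y, R h y → h * h = 1 ∧ h • y = y ∧ ∀ z ∈ Y, h • z ∈ Y)
    (h2 : ∀ h h', ∀ y ∈ Y, ∀ y' ∈ Y, R h y → R h' y' → y ≠ y' →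
      h * h' ∈ T ∧ ∀ z ∈ Y, (h * h') • z ≠ z) : TrOn T Y := by
  choose! f hf using h0
  intro a ha b hb
  let φ : Y → Y := fun y => ⟨f y • a, (h1 _ _ (hf y y.2)).2.2 a ha⟩
  have hi : Function.Injective φ := by
    intro y y' e
    by_contra hn
    refine (h2 _ _ y y.2 y' y'.2 (hf y y.2) (hf y' y'.2) fun e => hn (Subtype.ext e)).2 a ha ?_
    have e' : f y • a = f y' • a := congrArg Subtype.val e
    rw [mul_smul, ← e', ← mul_smul, (h1 _ _ (hf y y.2)).1, one_smul]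
  obtain ⟨y, hy⟩ := Finite.surjective_of_injective hi ⟨b, hb⟩
  refine ⟨f y * f a, ?_, ?_⟩
  · by_cases e : (y : X) = a
    · rw [e, (h1 _ _ (hf a ha)).1]; exact T.one_mem
    · exact (h2 _ _ y y.2 a ha (hf y y.2) (hf a ha) e).1
  · rw [mul_smul, (h1 _ _ (hf a ha)).2.1]; exact congrArg Subtype.val hy

namespace Pl

variable {P L : Type*} [Fintype P] [Fintype L] {I : P → L → Prop} {k : ℕ} (Z : Pl I k)
include Z

/-- Baer: a polarity has an absolute point -/
theorem polarity (π : P → L) (hπ : Function.Bijective π) (hs : ∀ A B, I A (π B) → I B (π A)) :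
    ∃ A, I A (π A) := by
  by_contra hn
  push Not at hn
  obtain ⟨p, hp, hk⟩ := Nat.exists_prime_and_dvd (show k ≠ 1 by have := Z.two; omega)
  haveI := Fact.mk hp
  have hk0 : (k : ZMod p) = 0 := (ZMod.natCast_eq_zero_iff k p).2 hk
  let M : Matrix P P (ZMod p) := fun A B => if I A (π B) then 1 else 0
  let J : Matrix P P (ZMod p) := fun _ _ => 1
  have hc : ∀ q : L → Prop, (univ.filter fun C => q (π C)).card = (univ.filter q).card :=
    fun q => Finset.card_bijective π hπ fun x => by simp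
  have h1 : M * M = J := by
    ext A B
    have : (M * M) A B = ((univ.filter fun C => I A (π C) ∧ I B (π C)).card : ZMod p) := by
      rw [Matrix.mul_apply, Finset.card_filter]
      push_cast
      refine Finset.sum_congr rfl fun C _ => ?_
      have e : I C (π B) ↔ I B (π C) := ⟨hs _ _, hs _ _⟩
      by_cases h1 : I A (π C) <;> by_cases h2 : I B (π C) <;> simp [M, h1, h2, e]
    have h2 := hc fun l => I A l ∧ I B l
    rw [this]
    by_cases e : A = B
    · subst e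
      have h3 := hc fun l => I A l
      simp only [and_self, J]
      rw [h3, Z.sd.row]; push_cast; rw [hk0, zero_add]
    · have h3 : (univ.filter fun C => I A (π C) ∧ I B (π C)).card = 1 := by
        rw [← Z.sd.pair A B e]; convert h2
      rw [h3]; simp [J]
  have h2 : M * J = J := by
    ext A B
    have : (M * J) A B = ((univ.filter fun C => I A (π C)).card : ZMod p) := by
      rw [Matrix.mul_apply, Finset.card_filter]
      push_cast
      simp [M, J]
    rw [this, hc fun l => I A l, Z.sd.row]; push_cast; rw [hk0, zero_add]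
  have h3 : ∀ n, M ^ (n + 2) = J := by
    intro n
    induction n with
    | zero => rw [pow_two, h1]
    | succ n ih => rw [pow_succ', ih, h2]
  have h4 := ZMod.trace_pow_card M
  have h5 : M.trace = 0 := by simp [Matrix.trace, Matrix.diag, M, hn]
  have h6 : J.trace = 1 := by
    simp only [Matrix.trace, Matrix.diag, J, sum_const, card_univ, Z.card, nsmul_eq_mul]
    push_cast; rw [hk0]; simp
  obtain ⟨n, rfl⟩ : ∃ n, p = n + 2 := ⟨p - 2, by have := hp.two_le; omega⟩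
  rw [h3, h5, h6] at h4
  simp at h4

variable {G : Type*} [Group G] [MulAction G P] [MulAction G L]
  (hI : ∀ (g : G) p b, I (g • p) (g • b) ↔ I p b) [FaithfulSMul G P] [FaithfulSMul G L]
include hI

/-- all elations with axis `a` -/
def TA (a : L) : Subgroup G where
  carrier := {g | g = 1 ∨ ∃ C, El I g C a}
  one_mem' := Or.inl rfl
  inv_mem' := by
    rintro x (rfl | ⟨C, h⟩)
    · exact Or.inl inv_one
    · exact Or.inr ⟨C, Subgroup.inv_mem _ h.ce, Subgroup.inv_mem _ h.ax, h.on, inv_ne_one.2 h.ne⟩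
  mul_mem' := by
    rintro x y (rfl | ⟨A, hx⟩) hy
    · rwa [one_mul]
    rcases hy with rfl | ⟨B, hy⟩
    · rw [mul_one]; exact Or.inr ⟨A, hx⟩
    by_cases e : x * y = 1
    · exact Or.inl e
    by_cases h : A = B
    · exact Or.inr ⟨A, Subgroup.mul_mem _ hx.ce (h ▸ hy.ce), Subgroup.mul_mem _ hx.ax hy.ax,
        hx.on, e⟩
    obtain ⟨C, hC⟩ := Z.exists_ce hI (Subgroup.mul_mem _ hx.ax hy.ax)
    refine Or.inr ⟨C, hC, Subgroup.mul_mem _ hx.ax hy.ax, Z.el_fixP hI hx ?_, e⟩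
    have h2 := Ax_conj (I := fun l p => I p l) (fun g p b => hI g b p) hC x
    rw [show x * (x * y) * x⁻¹ = x * y by
      rw [mul_assoc, mul_assoc, ← Z.el_comm hI ⟨Subgroup.inv_mem _ hx.ce,
        Subgroup.inv_mem _ hx.ax, hx.on, inv_ne_one.2 hx.ne⟩ hy h, mul_inv_cancel_left]] at h2
    exact Z.ce_eq hI h2 hC e

/-- a centre with a unique elation axis -/
theorem uniq_ax {A : P} {a : L} {t : G} (ht : El I t A a)
    (hu : ∀ (s : G) b, El I s A b → b = a) {h : G} {c : L} (H : Hom I h A c) :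
    ∃ O, I O a ∧ O ≠ A ∧ (∀ (h' : G) c', Hom I h' A c' → I O c') ∧
      ∀ (h' : G) C b, Hom I h' C b → I A b → b ≠ a → C = O := by
  have hca : c ≠ a := fun e => H.off (e ▸ ht.on)
  obtain ⟨O, h1, h2⟩ := Z.meet hca
  have h3 : O ≠ A := fun e => H.off (e ▸ h1)
  have h4 : ∀ (h' : G) c', Hom I h' A c' → I O c' := by
    intro h' c' H'
    by_cases e : c = c'
    · exact e ▸ h1
    obtain ⟨d, hd⟩ := Z.hom_mul hI H H' e
    obtain rfl := hu _ _ hd
    obtain ⟨X, h5, h6⟩ := Z.meet e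
    have h7 := Z.el_fixP hI hd (X := X) (by rw [mul_smul, H'.ax X h6, H.ax X h5])
    exact Z.peq hca h5 h1 h7 h2 ▸ h6
  refine ⟨O, h2, h3, h4, fun h' C b H' h5 h6 => ?_⟩
  have h7 : h' • A = A := H'.ax A h5
  have h8 : h' • a = a := hu _ _ (h7 ▸ ht.conj hI h')
  have h9 := H.conj hI h'
  rw [h7] at h9
  have h10 : h' • O = O := Z.peq (fun e : h' • c = a => h9.off (e ▸ ht.on)) ((hI _ _ _).2 h1)
    (h4 _ _ h9) (h8 ▸ (hI _ _ _).2 h2) h2
  rcases Z.fixP hI H'.ce H'.ax H'.ne h10 with e | e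
  · exact (h3 (Z.peq h6 e h5 h2 ht.on)).elim
  · exact e.symm

omit [FaithfulSMul G P] [FaithfulSMul G L] in
theorem invOn_pts {H : Subgroup G} {a : L} {A : P} (h1 : ∀ g ∈ H, g • a = a)
    (h2 : ∀ g ∈ H, g • A = A) : InvOn H {X | I X a ∧ X ≠ A} := by
  rintro g hg y ⟨h3, h4⟩
  refine ⟨h1 g hg ▸ (hI _ _ _).2 h3, fun e => h4 ?_⟩
  rw [← h2 g hg] at e
  exact smul_left_cancel g e

variable [Finite G]

theorem pp_of_uniq {A : P} {a : L} {t : G} (ht : El I t A a)
    (hu : ∀ (s : G) b, El I s A b → b = a) {h : G} {c : L} (H : Hom I h A c)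
    (hA : ∀ b, ∃ (h : G) (C : P), Hom I h C b) : IsPrimePow k := by
  obtain ⟨O, h1, h2, -, h4⟩ := Z.uniq_ax hI ht hu H
  have key : ∀ (h h' : G) b b', I A b → I A b' → Hom I h O b → Hom I h' O b' → b ≠ b' →
      El I (h * h') O a := by
    intro h h' b b' h5 h6 H H' e
    obtain ⟨d, hd⟩ := Z.hom_mul hI H H' e
    have h7 := Z.el_fixP hI hd (X := A) (by rw [mul_smul, H'.ax A h6, H.ax A h5])
    exact Z.leq h2 hd.on h7 h1 ht.on ▸ hd
  have h0 : ∀ b ∈ {b | I A b ∧ b ≠ a}, ∃ h : G, Hom I h O b ∧ I A b := by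
    rintro b ⟨h5, h6⟩
    obtain ⟨h', C, H'⟩ := hA b
    exact ⟨h', h4 h' C b H' h5 h6 ▸ H', h5⟩
  have h5 : TrOn (Ce G I O ⊓ Ax G I a) {b | I A b ∧ b ≠ a} := by
    refine inv_tr (fun h b => Hom I h O b ∧ I A b) h0 ?_ ?_
    · rintro h b ⟨H, h5⟩
      refine ⟨H.sq, Z.ax_fix hI H.ax, ?_⟩
      rintro z ⟨h6, h7⟩
      refine ⟨H.ax A h5 ▸ (hI _ _ _).2 h6, fun e => h7 ?_⟩
      rw [← H.ce a h1] at e
      exact smul_left_cancel h e
    · rintro h h' b - b' - ⟨H, h5⟩ ⟨H', h6⟩ e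
      have h7 := key h h' b b' h5 h6 H H' e
      refine ⟨⟨h7.ce, h7.ax⟩, ?_⟩
      rintro z ⟨h8, h9⟩ e'
      exact h9 (Z.leq h2 (Z.el_fixL hI h7 e') h8 h1 ht.on)
  obtain ⟨b, hb, hb1, -⟩ := Z.dual.third A a a
  obtain ⟨b', hb', hb1', hbb⟩ := Z.dual.third A a b
  obtain ⟨g, hg⟩ := h0 b ⟨hb, hb1⟩
  obtain ⟨g', hg'⟩ := h0 b' ⟨hb', hb1'⟩
  obtain ⟨p, hp, h6⟩ := Z.el_prime hI ht (key g g' b b' hb hb' hg.1 hg'.1 hbb.symm) h2.symm
  have h7 := Z.dual.ncard_on' (a := A) (A := a) ht.on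
  have h8 := primePow_of_tr hp (fun g hg => ?_) (Z.dual.invOn_pts (fun g p b => hI g b p)
    (H := Ce G I O ⊓ Ax G I a) (fun g hg => hg.2 A ht.on) (fun g hg => hg.1 a h1)) h5 (by rw [h7]; exact Z.two)
  · rwa [h7] at h8
  · by_cases e : g = 1
    · rw [e, one_pow]
    · exact h6 g O ⟨hg.1, hg.2, h1, e⟩

theorem pp_of_all (hE : ∀ A a, I A a → ∃ t : G, El I t A a) : IsPrimePow k := by
  obtain ⟨a⟩ := Z.dual.ne
  obtain ⟨B⟩ := Z.ne
  obtain ⟨A, hA, -⟩ := Z.third a B B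
  clear B
  obtain ⟨B, hB, hBA, -⟩ := Z.third a A A
  obtain ⟨t, ht⟩ := hE A a hA
  obtain ⟨s, hs⟩ := hE B a hB
  obtain ⟨p, hp, h1⟩ := Z.el_prime hI ht hs hBA.symm
  haveI := Fact.mk hp
  cases nonempty_fintype G
  have h2 : TrOn (stabilizer G a) {X | I X a} := by
    refine gleason (p := p) (fun g hg y hy => (show g • a = a from hg) ▸ (hI _ _ _).2 hy)
      fun y hy => ?_
    obtain ⟨b, hb, hba, -⟩ := Z.dual.third y a a
    obtain ⟨u, hu⟩ := hE y a hy
    obtain ⟨w, hw⟩ := hE y b hb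
    refine ⟨w, hw.ce a hy, Z.dual.el_pow (fun g p b => hI g b p) hu.dual hw.dual hba.symm
      (h1 u y hu), fun z hz => ⟨fun e => ?_, fun e => e ▸ hw.ax y hb⟩⟩
    exact Z.peq hba (Z.el_fixP hI hw e) hb hz hy
  set e := (univ.filter fun g : G => El I g A a).card with he
  have h3 : ∀ C, I C a → (univ.filter fun g : G => El I g C a).card = e := by
    intro C hC
    obtain ⟨g, hg, rfl⟩ := h2 A hA C hC
    symm
    refine Finset.card_bijective (MulAut.conj g) (MulAut.conj g).bijective fun x => ?_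
    simp only [mem_filter, mem_univ, true_and, MulAut.conj_apply]
    constructor
    · intro h; exact (show g • a = a from hg) ▸ h.conj hI g
    · intro h
      have := h.conj hI g⁻¹
      rw [inv_smul_smul, show g⁻¹ • a = a from inv_smul_eq_iff.2 (show g • a = a from hg).symm]
        at this
      convert this using 1; group
  have h4 : Nat.card (Z.TA hI a) = (k + 1) * e + 1 := by
    have h5 : (Z.TA hI a : Set G) = (insert 1 ((univ.filter fun C => I C a).biUnion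
        fun C => univ.filter fun g : G => El I g C a) : Finset G) := by
      ext g
      simp only [coe_insert, coe_biUnion, coe_filter, mem_univ, true_and, Set.mem_setOf_eq,
        Set.mem_insert_iff, Set.mem_iUnion, exists_prop]
      exact or_congr Iff.rfl ⟨fun ⟨C, h⟩ => ⟨C, h.on, h⟩, fun ⟨C, _, h⟩ => ⟨C, h⟩⟩
    rw [← SetLike.coe_sort_coe, h5, Finset.coe_sort_coe, Nat.card_eq_finsetCard,
      Finset.card_insert_of_notMem, Finset.card_biUnion,
      Finset.sum_congr rfl (g := fun _ => e) fun C hC => h3 C (by simpa using hC), sum_const,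
      Z.sd.col, smul_eq_mul]
    · intro C _ D _ hCD
      refine Finset.disjoint_left.2 fun g h6 h7 => hCD ?_
      have h6' : El I g C a := by simpa using h6
      have h7' : El I g D a := by simpa using h7
      exact Z.ce_eq hI h6'.ce h7'.ce h6'.ne
    · simp only [mem_biUnion, mem_filter, mem_univ, true_and, not_exists, not_and]
      exact fun C _ h => h.ne rfl
  have h5 : Nat.card ↥(Ce G I A ⊓ Ax G I a) = e + 1 := by
    have h5 : ((Ce G I A ⊓ Ax G I a : Subgroup G) : Set G) =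
        (insert 1 (univ.filter fun g : G => El I g A a) : Finset G) := by
      ext g
      simp only [coe_insert, coe_filter, mem_univ, true_and, Set.mem_setOf_eq,
        Set.mem_insert_iff, SetLike.mem_coe]
      constructor
      · intro h
        by_cases e : g = 1
        · exact Or.inl e
        · exact Or.inr ⟨h.1, h.2, hA, e⟩
      · rintro (rfl | h)
        · exact Subgroup.one_mem _
        · exact ⟨h.ce, h.ax⟩
    rw [← SetLike.coe_sort_coe, h5, Finset.coe_sort_coe, Nat.card_eq_finsetCard,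
      Finset.card_insert_of_notMem]
    simp only [mem_filter, mem_univ, true_and]
    exact fun h => h.ne rfl
  have hle : Ce G I A ⊓ Ax G I a ≤ Z.TA hI a := fun g h => by
    by_cases e : g = 1
    · exact Or.inl e
    · exact Or.inr ⟨A, h.1, h.2, hA, e⟩
  set m := (Ce G I A ⊓ Ax G I a).relIndex (Z.TA hI a) with hm
  have h6 : (e + 1) * m = (k + 1) * e + 1 := by
    rw [← h4, ← h5, ← Nat.card_congr (Subgroup.subgroupOfEquivOfLe hle).toEquiv]
    exact Subgroup.card_mul_index _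
  have hax : ∀ g ∈ Z.TA hI a, g ∈ Ax G I a := by
    rintro g (rfl | ⟨C, h⟩)
    · exact Subgroup.one_mem _
    · exact h.ax
  have h7 : m ∣ k := by
    rw [← Z.dual.ncard_on' (a := A) (A := a) hA]
    refine dvd_ncard (A := Z.TA hI a) (Z.dual.invOn_pts (fun g p b => hI g b p)
      (fun g hg => hax g hg A hA) (fun g hg => Z.ax_fix hI (hax g hg))) ?_
    rintro b ⟨hb, hba⟩
    rw [hm, ← Subgroup.inf_relIndex_right (stabilizer G b)]
    refine Subgroup.relIndex_dvd_of_le_left _ ?_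
    rintro g ⟨h8, rfl | ⟨C, h9⟩⟩
    · exact Subgroup.one_mem _
    · exact ⟨Z.peq hba (Z.el_fixL hI h9 h8) hb h9.on hA ▸ h9.ce, h9.ax⟩
  have h8 : 0 < e := Finset.card_pos.2 ⟨t, by simpa using ht⟩
  have h9 : k = m := by
    have hk := Z.two
    obtain ⟨m', hm'⟩ : ∃ m', m = m' + 1 := ⟨m - 1, by
      rcases Nat.eq_zero_or_pos m with h | h
      · rw [h] at h6; omega
      · omega⟩
    rw [hm'] at h6 h7 ⊢
    have h10 : (e + 1) * m' = k * e := by nlinarith
    have h11 : m' + 1 ∣ e + 1 := by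
      have : k * e + (e + 1) = (e + 1) * (m' + 1) := by nlinarith
      exact (Nat.dvd_add_right (h7.mul_right e)).1 (this ▸ Dvd.intro_left _ rfl)
    have h12 : e ∣ m' := (by simp : e.Coprime (e + 1)).dvd_of_dvd_mul_left
      (h10 ▸ Dvd.intro_left _ rfl)
    have h13 : 0 < m' := Nat.pos_of_ne_zero fun h => by
      rw [h] at h10
      have : 0 < k * e := by positivity
      omega
    have h14 := Nat.le_of_dvd h13 h12
    have h15 := Nat.le_of_dvd (by omega) h11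
    obtain rfl : m' = e := by omega
    exact (Nat.eq_of_mul_eq_mul_right h13 h10).symm
  have h10 : IsPGroup p (Z.TA hI a) := by
    rintro ⟨g, rfl | ⟨C, h⟩⟩
    · exact ⟨0, Subtype.ext (by simp)⟩
    · exact ⟨1, Subtype.ext (by simpa using h1 g C h)⟩
  obtain ⟨n, hn⟩ := h10.index ((Ce G I A ⊓ Ax G I a).subgroupOf (Z.TA hI a))
  have h11 : p ^ n = k := hn.symm.trans h9.symm
  refine ⟨p, n, hp.prime, Nat.pos_of_ne_zero ?_, h11⟩
  rintro rfl
  have := Z.two
  rw [pow_zero] at h11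
  omega

/-- rigidity data at a point `A` of a line `a` which is not an axis -/
structure Rig (G : Type*) [Group G] [MulAction G P] [MulAction G L] (I : P → L → Prop) (A : P)
    (t a : L) : Prop where
  el : ∃ s : G, El I s A t
  uq : ∀ (s : G) b, El I s A b → b = t
  ne : t ≠ a
  tr : TrOn (Ce G I A ⊓ Ax G I t) {X | I X a ∧ X ≠ A}

omit [Finite G] in
theorem non_axis1 (H1 : ∀ A B : P, A ≠ B → ∃ (h : G) (C : P) (c : L), Hom I h C c ∧ h • A = A ∧
      h • B = B) {a : L} (ha : ∀ (h : G) C, ¬ Hom I h C a) {A B : P} (hA : I A a) (hB : I B a)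
    (hAB : A ≠ B) : ∃ (h : G) (c : L), Hom I h A c ∧ I B c := by
  have h1 : ∀ A B : P, I A a → I B a → A ≠ B → ∃ (h : G) (c : L),
      (Hom I h A c ∧ I B c) ∨ (Hom I h B c ∧ I A c) := by
    intro A B hA hB hAB
    obtain ⟨h, C, c, H, h2, h3⟩ := H1 A B hAB
    rcases Z.fixP hI H.ce H.ax H.ne h2 with e | e <;>
      rcases Z.fixP hI H.ce H.ax H.ne h3 with e' | e'
    · exact (ha h C (Z.leq hAB e e' hA hB ▸ H)).elim
    · exact ⟨h, c, Or.inr ⟨e' ▸ H, e⟩⟩
    · exact ⟨h, c, Or.inl ⟨e ▸ H, e'⟩⟩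
    · exact (hAB (e.trans e'.symm)).elim
  have h2 : ∀ (h : G) A B c, I A a → I B a → Hom I h A c → I B c →
      h • a = a ∧ h • A = A ∧ h • B = B ∧ ∀ z, I z a → h • z = z → z = A ∨ z = B := by
    intro h A B c hA hB H hc
    refine ⟨H.ce a hA, Z.ce_fix hI H.ce, H.ax B hc, fun z hz e => ?_⟩
    rcases Z.fixP hI H.ce H.ax H.ne e with e' | e'
    · exact Or.inr (Z.peq (fun e : c = a => H.off (e ▸ hA)) e' hc hz hB)
    · exact Or.inl e'
  have h3 : ∀ A, I A a → TrOn (stabilizer G a ⊓ stabilizer G A) {X | I X a ∧ X ≠ A} := by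
    intro A hA
    refine gleason (p := 2) (Z.invOn_pts hI (fun g hg => hg.1) (fun g hg => hg.2)) ?_
    rintro B ⟨hB, hBA⟩
    obtain ⟨h, c, ⟨H, hc⟩ | ⟨H, hc⟩⟩ := h1 A B hA hB hBA.symm
    · obtain ⟨h4, h5, h6, h7⟩ := h2 h A B c hA hB H hc
      exact ⟨h, ⟨h4, h5⟩, by rw [pow_two, H.sq],
        fun z hz => ⟨fun e => (h7 z hz.1 e).resolve_left hz.2, fun e => e ▸ h6⟩⟩
    · obtain ⟨h4, h5, h6, h7⟩ := h2 h B A c hB hA H hc
      exact ⟨h, ⟨h4, h6⟩, by rw [pow_two, H.sq],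
        fun z hz => ⟨fun e => (h7 z hz.1 e).resolve_right hz.2, fun e => e ▸ h5⟩⟩
  obtain ⟨h, c, H | ⟨H, hc⟩⟩ := h1 A B hA hB hAB
  · exact ⟨h, c, H⟩
  obtain ⟨D, hD, hDA, hDB⟩ := Z.third a A B
  obtain ⟨g1, ⟨-, h4⟩, h5⟩ := h3 B hB A ⟨hA, hAB⟩ D ⟨hD, hDB⟩
  obtain ⟨g2, ⟨-, h6⟩, h7⟩ := h3 D hD B ⟨hB, hDB.symm⟩ A ⟨hA, hDA.symm⟩
  obtain ⟨g3, ⟨-, h8⟩, h9⟩ := h3 A hA D ⟨hD, hDA⟩ B ⟨hB, hAB.symm⟩
  have h10 := H.conj hI (g3 * g2 * g1)
  rw [mul_smul, mul_smul, show g1 • B = B from h4, h7, show g3 • A = A from h8] at h10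
  refine ⟨_, _, h10, ?_⟩
  have h11 := (hI (g3 * g2 * g1) A c).2 hc
  rwa [mul_smul, mul_smul, h5, show g2 • D = D from h6, h9] at h11

theorem non_axis2 (hk : ¬ IsPrimePow k) {a : L} {A : P} (hA : I A a)
    (h1 : ∀ B, I B a → A ≠ B → ∃ (h : G) (c : L), Hom I h A c ∧ I B c) : ∃ t, Rig G I A t a := by
  have h2 : TrOn (Z.dual.TA (fun g p b => hI g b p) A) {X | I X a ∧ X ≠ A} := by
    refine inv_tr (fun h B => ∃ c, Hom I h A c ∧ I B c) (fun B hB => h1 B hB.1 hB.2.symm) ?_ ?_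
    · rintro h B ⟨c, H, hc⟩
      refine ⟨H.sq, H.ax B hc, fun z hz => ?_⟩
      exact Z.invOn_pts hI (H := stabilizer G a ⊓ stabilizer G A) (fun g hg => hg.1)
        (fun g hg => hg.2) h ⟨H.ce a hA, Z.ce_fix hI H.ce⟩ z hz
    · rintro h h' B ⟨hB, -⟩ B' ⟨hB', hBA'⟩ ⟨c, H, hc⟩ ⟨c', H', hc'⟩ e
      have h3 : c ≠ a := fun e => H.off (e ▸ hA)
      obtain ⟨d, hd⟩ := Z.hom_mul hI H H' fun e' => e (Z.peq h3 hc (e' ▸ hc') hB hB')
      refine ⟨Or.inr ⟨d, hd.dual⟩, ?_⟩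
      rintro z ⟨h4, h5⟩ e'
      obtain rfl : d = a := Z.leq h5 (Z.el_fixP hI hd e') hd.on h4 hA
      have h6 := hd.ax B' hB'
      rw [mul_smul, H'.ax B' hc'] at h6
      exact e (Z.peq h3 hc ((Z.fixP hI H.ce H.ax H.ne h6).resolve_right hBA') hB hB')
  obtain ⟨B, hB, hBA, -⟩ := Z.third a A A
  obtain ⟨B', hB', hBA', hBB⟩ := Z.third a A B
  obtain ⟨g, hg, e⟩ := h2 B ⟨hB, hBA⟩ B' ⟨hB', hBA'⟩
  obtain rfl | ⟨t, ht⟩ := hg
  · exact (hBB (e.symm.trans (one_smul _ _))).elim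
  have hu : ∀ (s : G) b, El I s A b → b = t := by
    intro s b hs
    by_contra hn
    obtain ⟨p, hp, h3⟩ := Z.dual.el_prime (fun g p b => hI g b p) hs.dual ht hn
    refine hk (Z.ncard_on' hA ▸ primePow_of_tr hp ?_ (Z.invOn_pts hI ?_ ?_) h2
      (by rw [Z.ncard_on' hA]; exact Z.two))
    · rintro g (rfl | ⟨C, h⟩)
      · exact one_pow p
      · exact h3 g C h
    · rintro g (rfl | ⟨C, h⟩)
      · exact one_smul _ _
      · exact h.ax a hA
    · rintro g (rfl | ⟨C, h⟩)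
      · exact one_smul _ _
      · exact Z.ce_fix hI h.ax
  refine ⟨t, ⟨g, ht.dual⟩, hu, ?_, fun x hx y hy => ?_⟩
  · rintro rfl
    exact hBB (e.symm.trans (ht.ce B hB))
  · obtain ⟨s, rfl | ⟨d, hs⟩, e⟩ := h2 x hx y hy
    · exact ⟨1, Subgroup.one_mem _, e⟩
    · exact ⟨s, ⟨hs.ax, hu s d hs.dual ▸ hs.ce⟩, e⟩

theorem pp_of_rig {a d : L} {B B' : P} (R : Rig G I B d a) (hB : I B a) {s : G}
    (hs : El I s B' d) (hne : B ≠ B') : IsPrimePow k := by
  obtain ⟨u, hu⟩ := R.el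
  obtain ⟨p, hp, h3⟩ := Z.el_prime hI hu hs hne
  refine Z.ncard_on' hB ▸ primePow_of_tr hp (fun g hg => ?_) (Z.invOn_pts hI
    (H := Ce G I B ⊓ Ax G I d) (fun g hg => hg.1 a hB) (fun g hg => hg.2 B hu.on)) R.tr
    (by rw [Z.ncard_on' hB]; exact Z.two)
  by_cases e : g = 1
  · rw [e, one_pow]
  · exact h3 g B ⟨hg.1, hg.2, hu.on, e⟩

theorem pp_of_non_axis (H1 : ∀ A B : P, A ≠ B → ∃ (h : G) (C : P) (c : L), Hom I h C c ∧
      h • A = A ∧ h • B = B) {a : L} (ha : ∀ (h : G) C, ¬ Hom I h C a) : IsPrimePow k := by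
  by_contra hk
  have hR : ∀ {a : L}, (∀ (h : G) C, ¬ Hom I h C a) → ∀ A, I A a → ∃ t, Rig G I A t a :=
    fun ha A hA => Z.non_axis2 hI hk hA fun B hB h => Z.non_axis1 hI H1 ha hA hB h
  obtain ⟨A⟩ := Z.ne
  obtain ⟨A, hA, -⟩ := Z.third a A A
  obtain ⟨B, hB, hBA, -⟩ := Z.third a A A
  obtain ⟨t, R⟩ := hR ha A hA
  obtain ⟨s, hs⟩ := R.el
  obtain ⟨h, c, H, hc⟩ := Z.non_axis1 hI H1 ha hA hB hBA.symm
  obtain ⟨O, h1, h2, h3, h4⟩ := Z.uniq_ax hI hs R.uq H
  have h5 : ∀ {b : L}, (∀ (h : G) C, ¬ Hom I h C b) → I A b → ∀ B d, I B b → B ≠ A →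
      Rig G I B d b → I O d := by
    intro b hb hA B d hB hBA R'
    obtain ⟨h, c, H, hc⟩ := Z.non_axis1 hI H1 hb hA hB hBA.symm
    obtain ⟨u, hu⟩ := R'.el
    have h6 := hu.conj hI h
    rw [H.ax B hc] at h6
    rcases Z.fixL hI H.ce H.ax H.ne (R'.uq _ _ h6) with e | e
    · exact (R'.ne (Z.leq hBA hu.on e hB hA)).elim
    · exact e ▸ h3 h c H
  have h6 : ∀ b, I A b → b ≠ t → ¬ I O b := fun b h6 h7 h8 => h7 (Z.leq h2 h8 h6 h1 hs.on)
  obtain ⟨b, hb, hba, hbt⟩ := Z.dual.third A a t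
  have hBb : ¬ I B b := fun e => hba (Z.leq hBA e hb hB hA)
  obtain ⟨d, R'⟩ := hR ha B hB
  have hOd := h5 ha hA B d hB hBA R'
  obtain ⟨u, hu⟩ := R'.el
  by_cases hb' : ∀ (h : G) C, ¬ Hom I h C b
  · obtain ⟨B', h7, h8⟩ := Z.meet (fun e : d = b => hBb (e ▸ hu.on))
    have h9 : B' ≠ A := fun e => R'.ne (Z.leq hBA hu.on (e ▸ h7) hB hA)
    obtain ⟨d', R''⟩ := hR hb' B' h8
    obtain ⟨u', hu'⟩ := R''.el
    have h10 : d' = d := Z.leq (fun e : O = B' => h6 b hb hbt (e ▸ h8))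
      (h5 hb' hb B' d' h8 h9 R'') hu'.on hOd h7
    exact hk (Z.pp_of_rig hI R' hB (h10 ▸ hu') fun e => hBb (e ▸ h8))
  · push Not at hb'
    obtain ⟨h', C, H'⟩ := hb'
    obtain rfl := h4 h' C b H' hb hbt
    have h7 := H'.conj hI u
    rw [hu.ax C hOd] at h7
    obtain ⟨e, he⟩ := Z.hom_mul hI H' h7 fun e => hBb (Z.el_fixL hI hu e.symm)
    have hCa := h6 a hA R.ne.symm
    obtain ⟨B', h8, h9⟩ := Z.meet (fun e' : e = a => hCa (e' ▸ he.on))
    have h10 : B' ≠ C := fun e => hCa (e ▸ h9)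
    obtain ⟨d', R''⟩ := hR ha B' h9
    obtain ⟨u', hu'⟩ := R''.el
    have h11 : I C d' := by
      by_cases e : B' = A
      · subst e; exact R.uq _ _ hu' ▸ h1
      · exact h5 ha hA B' d' h9 e R''
    obtain rfl : d' = e := Z.leq h10 hu'.on h11 h8 he.on
    exact hk (Z.pp_of_rig hI R'' h9 he h10)

omit [Finite G] in
theorem ef_all (hA : ∀ b, ∃ (h : G) (C : P), Hom I h C b)
    (h2 : ∀ (t : G) A a, El I t A a → ∃ (s : G) (b : L), El I s A b ∧ b ≠ a) {t : G} {A : P} {a : L}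
    (ht : El I t A a) {b : L} (hb : I A b) : ∃ s : G, El I s A b := by
  by_contra hn
  push Not at hn
  obtain ⟨h, C, H⟩ := hA b
  obtain ⟨s, a', hs, hne⟩ := h2 t A a ht
  obtain ⟨u, x, hu, hx⟩ : ∃ (u : G) (x : L), El I u A x ∧ ¬ I C x := by
    by_cases e : I C a
    · exact ⟨s, a', hs, fun e' => H.off (Z.peq hne hs.on e' ht.on e ▸ hb)⟩
    · exact ⟨t, a, ht, e⟩
  have h3 := H.conj hI u
  rw [hu.ce b hb] at h3
  obtain ⟨D, hD⟩ := Z.dual.hom_mul (fun g p b => hI g b p) H.dual h3.dual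
    fun e => hx (Z.el_fixP hI hu e.symm)
  have h4 : h * (u * h * u⁻¹) ∈ Ce G I A := by
    have h5 := (hu.conj hI h).ce
    rw [H.ax A hb, H.inv] at h5
    have := Subgroup.mul_mem _ h5 (Subgroup.inv_mem _ hu.ce)
    simpa [mul_assoc] using this
  exact hn _ ⟨h4, hD.ce, hb, hD.ne⟩

/-- a plane in which every pair of points and every pair of lines is fixed by an involutory
homology has prime power order -/
theorem pp_of_hom
    (H1 : ∀ A B : P, A ≠ B → ∃ (h : G) (C : P) (c : L), Hom I h C c ∧ h • A = A ∧ h • B = B)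
    (H2 : ∀ a b : L, a ≠ b → ∃ (h : G) (C : P) (c : L), Hom I h C c ∧ h • a = a ∧ h • b = b) :
    IsPrimePow k := by
  by_contra hk
  have hI' : ∀ (g : G) (l : L) (p : P), I (g • p) (g • l) ↔ I p l := fun g p b => hI g b p
  have hA : ∀ b, ∃ (h : G) (C : P), Hom I h C b := by
    intro b
    by_contra hn
    push Not at hn
    exact hk (Z.pp_of_non_axis hI H1 hn)
  have hC : ∀ C, ∃ (h : G) (b : L), Hom I h C b := by
    intro C
    by_contra hn
    push Not at hn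
    refine hk (Z.dual.pp_of_non_axis hI' (a := C) (fun a b hab => ?_) fun h c H => hn h c H.dual)
    obtain ⟨h, C, c, H, e⟩ := H2 a b hab
    exact ⟨h, c, C, H.dual, e⟩
  have hC' : ∀ C, ∃ (h : G) (b : L), Hom (fun l p => I p l) h b C := fun C => by
    obtain ⟨h, b, H⟩ := hC C; exact ⟨h, b, H.dual⟩
  by_cases hE : ∃ (t : G) (A : P) (a : L), El I t A a
  · have h1 : ∀ (t : G) A a, El I t A a → ∃ (s : G) (b : L), El I s A b ∧ b ≠ a := by
      intro t A a ht
      by_contra hn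
      push Not at hn
      obtain ⟨h, c, H⟩ := hC A
      exact hk (Z.pp_of_uniq hI ht hn H hA)
    have h2 : ∀ (t : G) a A, El (fun l p => I p l) t a A →
        ∃ (s : G) (B : P), El (fun l p => I p l) s a B ∧ B ≠ A := by
      intro t a A ht
      by_contra hn
      push Not at hn
      obtain ⟨h, C, H⟩ := hA a
      exact hk (Z.dual.pp_of_uniq hI' ht hn H.dual hC')
    obtain ⟨t, A, a, ht⟩ := hE
    refine hk (Z.pp_of_all hI fun B b hb => ?_)
    by_cases e : A = B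
    · exact Z.ef_all hI hA h1 (e ▸ ht) hb
    obtain ⟨c, h3, h4⟩ := Z.join e
    obtain ⟨s, hs⟩ := Z.ef_all hI hA h1 ht h3
    obtain ⟨u, hu⟩ := Z.dual.ef_all hI' hC' h2 hs.dual h4
    exact Z.ef_all hI hA h1 hu.dual hb
  · push Not at hE
    choose f π hf using hC
    have h1 : ∀ (h : G) C c, Hom I h C c → c = π C := by
      intro h C c H
      by_contra hn
      obtain ⟨d, hd⟩ := Z.hom_mul hI H (hf C) hn
      exact hE _ _ _ hd
    have h2 : Function.Injective π := by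
      intro A B e
      by_contra hn
      obtain ⟨d, hd⟩ := Z.dual.hom_mul hI' (hf A).dual (e ▸ (hf B).dual) hn
      exact hE _ _ _ hd.dual
    obtain ⟨A, hA⟩ := Z.polarity π ((Fintype.bijective_iff_injective_and_card π).2 ⟨h2, Z.sd.card⟩)
      fun A B h => by
        have h3 := (hf A).conj hI (f B)
        rw [(hf B).ax A h] at h3
        rcases Z.fixL hI (hf B).ce (hf B).ax (hf B).ne (h1 _ _ _ h3) with e | e
        · exact e
        · exact ((hf A).off (e ▸ h)).elim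
    exact (hf A).off hA

end Pl

end Cfsg.Agent.PG
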