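import Mathlib
import Cfsg.Agent.PG.Homol

/-! Involutions of projective planes, fixed subplanes of `2`-groups. -/

set_option autoImplicit false

open scoped Classical Pointwise

namespace Cfsg.Agent.PG

open MulAction Finset

/-- the collineation group -/
def Aut {P L : Type*} (I : P → L → Prop) : Subgroup (Equiv.Perm P × Equiv.Perm L) where
  carrier := {g | ∀ p l, I (g.1 p) (g.2 l) ↔ I p l}
  one_mem' := fun _ _ => Iff.rfl
  mul_mem' := fun {x y} hx hy p l => (hx _ _).trans (hy p l)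
  inv_mem' := fun {x} hx p l => by
    have := hx (x.1⁻¹ p) (x.2⁻¹ l)
    simpa using this.symm

instance Aut.actP {P L : Type*} (I : P → L → Prop) : MulAction (Aut I) P where
  smul g p := g.1.1 p
  one_smul _ := rfl
  mul_smul _ _ _ := rfl

instance Aut.actL {P L : Type*} (I : P → L → Prop) : MulAction (Aut I) L where
  smul g p := g.1.2 p
  one_smul _ := rfl
  mul_smul _ _ _ := rfl

theorem Aut.hI {P L : Type*} (I : P → L → Prop) (g : Aut I) (p : P) (l : L) :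
    I (g • p) (g • l) ↔ I p l := g.2 p l

/-- the incidence structure fixed by `K` -/
def Sub {P L G : Type*} [Group G] [MulAction G P] [MulAction G L] (I : P → L → Prop)
    (K : Subgroup G) : fixedPoints K P → fixedPoints K L → Prop := fun x l => I x l

theorem mem_fp {G X : Type*} [Group G] [MulAction G X] {K : Subgroup G} {x : X} :
    x ∈ fixedPoints K X ↔ K ≤ stabilizer G x :=
  ⟨fun h g hg => h ⟨g, hg⟩, fun h g => h g.2⟩

theorem mem_fp_sup {G X : Type*} [Group G] [MulAction G X] {K : Subgroup G} {t : G} {x : X} :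
    x ∈ fixedPoints ↥(K ⊔ Subgroup.zpowers t) X ↔ x ∈ fixedPoints K X ∧ t • x = x := by
  rw [mem_fp, mem_fp, sup_le_iff, Subgroup.zpowers_le]; rfl

theorem smul_mem_fp {G X : Type*} [Group G] [MulAction G X] {K : Subgroup G} {t : G}
    (ht : t ∈ Subgroup.normalizer (K : Set G)) {x : X} (hx : x ∈ fixedPoints K X) :
    t • x ∈ fixedPoints K X := by
  intro g
  have h1 : t⁻¹ * g * t ∈ K := (Subgroup.mem_normalizer_iff''.1 ht g).1 g.2
  have h2 : (t⁻¹ * g * t) • x = x := hx ⟨_, h1⟩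
  rw [mul_smul, mul_smul, inv_smul_eq_iff] at h2
  exact h2

theorem exists_res {P L G : Type*} [Group G] [MulAction G P] [MulAction G L] {I : P → L → Prop}
    (hI : ∀ (g : G) p b, I (g • p) (g • b) ↔ I p b) {K : Subgroup G} {t : G}
    (ht : t ∈ Subgroup.normalizer (K : Set G)) (h2 : t * t ∈ K) :
    ∃ g : Aut (Sub I K), g * g = 1 ∧ (∀ x : fixedPoints K P, ((g • x : fixedPoints K P) : P) = t • x)
      ∧ ∀ x : fixedPoints K L, ((g • x : fixedPoints K L) : L) = t • x := by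
  have h3 : Function.Involutive fun x : fixedPoints K P => (⟨t • x, smul_mem_fp ht x.2⟩ :
      fixedPoints K P) := fun x => Subtype.ext ((mul_smul t t x.1).symm.trans (x.2 ⟨_, h2⟩))
  have h4 : Function.Involutive fun x : fixedPoints K L => (⟨t • x, smul_mem_fp ht x.2⟩ :
      fixedPoints K L) := fun x => Subtype.ext ((mul_smul t t x.1).symm.trans (x.2 ⟨_, h2⟩))
  refine ⟨⟨(h3.toPerm, h4.toPerm), fun p l => hI t p l⟩, ?_, fun _ => rfl, fun _ => rfl⟩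
  exact Subtype.ext (Prod.ext (Equiv.ext h3) (Equiv.ext h4))

namespace Pl

variable {P L : Type*} [Fintype P] [Fintype L] {I : P → L → Prop} {k : ℕ} (Z : Pl I k)
include Z

theorem aut_faithP : FaithfulSMul (Aut I) P := ⟨fun {x y} h => by
  refine Subtype.ext (Prod.ext (Equiv.ext h) (Equiv.ext fun l => Z.sd.sub_eq fun p hp => ?_))
  obtain ⟨q, rfl⟩ := x.1.1.surjective p
  have h1 := (x.2 q l).1 hp
  rw [show x.1.1 q = y.1.1 q from h q]
  exact (y.2 q l).2 h1⟩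

theorem aut_faithL : FaithfulSMul (Aut I) L :=
  haveI := Z.aut_faithP
  Z.sd.faithful (Aut.hI I)

theorem cfg : Cfg I (fun _ => True) (fun _ => True) := by
  obtain ⟨l⟩ := Z.dual.ne
  obtain ⟨A, hA⟩ := Z.exists_off l
  obtain ⟨m, h1, -⟩ := Z.dual.third A l l
  obtain ⟨m', h2, h3, -⟩ := Z.dual.third A m m
  obtain ⟨X, h4, h5⟩ := Z.meet (fun e : m = l => hA (e ▸ h1))
  obtain ⟨X', h6, h7⟩ := Z.meet (fun e : m' = l => hA (e ▸ h2))
  obtain ⟨B, h8, h9, h10⟩ := Z.third m A X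
  obtain ⟨E, h11, h12, h13⟩ := Z.third l X X'
  exact ⟨E, A, B, l, m, m', ⟨trivial, trivial, trivial⟩, ⟨trivial, trivial, trivial⟩,
    fun e => h12 (Z.peq (fun e : m = l => hA (e ▸ h1)) e h4 h11 h5),
    fun e => h13 (Z.peq (fun e : m' = l => hA (e ▸ h2)) e h6 h11 h7), hA, h1, h2,
    fun e => h10 (Z.peq (fun e : m = l => hA (e ▸ h1)) h8 h4 e h5), h8,
    fun e => h9 (Z.peq h3 e h2 h8 h1)⟩

variable {G : Type*} [Group G] [MulAction G P] [MulAction G L]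
  (hI : ∀ (g : G) p b, I (g • p) (g • b) ↔ I p b)
include hI

theorem sub_pl {K : Subgroup G} (h : Cfg I (· ∈ fixedPoints K P) (· ∈ fixedPoints K L)) :
    ∃ k', Pl (Sub I K) k' := by
  refine pl_of_cfg (fun A B hAB => ?_) (fun a b hab => ?_) (fun {A B a b} h1 h2 h3 h4 => ?_) ?_
  · have h0 : (A : P) ≠ B := fun e => hAB (Subtype.ext e)
    obtain ⟨l, h1, h2⟩ := Z.join h0
    exact ⟨⟨l, fun g => Z.fix_join hI h0 h1 h2 (A.2 g) (B.2 g)⟩, h1, h2⟩
  · have h0 : (a : L) ≠ b := fun e => hab (Subtype.ext e)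
    obtain ⟨l, h1, h2⟩ := Z.meet h0
    exact ⟨⟨l, fun g => Z.fix_meet hI h0 h1 h2 (a.2 g) (b.2 g)⟩, h1, h2⟩
  · by_cases e : (A : P) = B
    · exact Or.inl (Subtype.ext e)
    · exact Or.inr (Subtype.ext (Z.leq e h1 h2 h3 h4))
  · obtain ⟨p₁, p₂, p₃, l₁, l₂, l₃, ⟨a, b, c⟩, ⟨d, e, f⟩, h⟩ := h
    exact ⟨⟨p₁, a⟩, ⟨p₂, b⟩, ⟨p₃, c⟩, ⟨l₁, d⟩, ⟨l₂, e⟩, ⟨l₃, f⟩, ⟨trivial, trivial, trivial⟩,
      ⟨trivial, trivial, trivial⟩, h⟩

theorem inv_line {g : G} (hg : g * g = 1) {X : P} (hX : g • X ≠ X) : ∃ l, I X l ∧ g • l = l := by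
  obtain ⟨l, h1, h2⟩ := Z.join hX
  refine ⟨l, h2, Z.leq hX ((hI _ _ _).2 h2) ?_ h1 h2⟩
  have := (hI g _ _).2 h1
  rwa [← mul_smul, hg, one_smul] at this

theorem baer_count {g : G} (hg : g * g = 1) {X : P} (hX : g • X ≠ X) {l : L} (h1 : I X l)
    (h2 : g • l = l) : {Y | g • Y = Y ∧ ¬ I Y l}.ncard = k := by
  rw [← Z.dual.ncard_on' (a := X) (A := l) h1]
  have h3 : ∀ Y ∈ {Y | g • Y = Y ∧ ¬ I Y l}, ∃ x, I X x ∧ I Y x :=
    fun Y hY => Z.join fun e => hY.2 (e ▸ h1)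
  choose f h4 h5 using h3
  have h6 : ∀ x, I X x → x ≠ l → g • x ≠ x := fun x h6 h7 e => hX (Z.fix_meet hI h7 h6 h1 e h2)
  have h7 : ∀ Y hY, f Y hY ≠ l := fun Y hY e => hY.2 (e ▸ h5 Y hY)
  refine Set.ncard_congr f (fun Y hY => ⟨h4 Y hY, h7 Y hY⟩) (fun Y Y' hY hY' e => ?_) ?_
  · by_contra hn
    exact h6 _ (h4 Y hY) (h7 Y hY) (Z.fix_join hI hn (h5 Y hY) (e ▸ h5 Y' hY') hY.1 hY'.1)
  · rintro x ⟨h8, h9⟩
    obtain ⟨Y, h10, h11⟩ := Z.dual.inv_line (fun g p b => hI g b p) hg (h6 x h8 h9)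
    have h12 : X ≠ Y := fun e => hX (e ▸ h11)
    have h13 : ¬ I Y l := fun e => h9 (Z.leq h12 h8 h10 h1 e)
    exact ⟨Y, ⟨h11, h13⟩, Z.leq h12 (h4 _ _) (h5 _ _) h8 h10⟩

theorem baer_order {g : G} (hg : g * g = 1) {P' L' : Type*} [Fintype P'] [Fintype L']
    {I' : P' → L' → Prop} {k' : ℕ} (Z' : Pl I' k') (f : P' → P) (f' : L' → L)
    (hf : Function.Injective f) (h1 : ∀ x y, I' x y ↔ I (f x) (f' y))
    (h2 : ∀ X, g • X = X ↔ X ∈ Set.range f) (h3 : ∀ l, g • l = l → l ∈ Set.range f') :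
    ((∀ X : P, g • X = X) ∧ k = k') ∨ k = k' ^ 2 := by
  by_cases h : ∀ X : P, g • X = X
  · refine Or.inl ⟨h, ?_⟩
    have h4 := Fintype.card_of_bijective (f := f) ⟨hf, fun X => (h2 X).1 (h X)⟩
    rw [Z.card, Z'.card] at h4
    rcases lt_trichotomy k k' with e | e | e
    · nlinarith
    · exact e
    · nlinarith
  · push Not at h
    obtain ⟨X, hX⟩ := h
    obtain ⟨l, h4, h5⟩ := Z.inv_line hI hg hX
    have h6 := Z.baer_count hI hg hX h4 h5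
    obtain ⟨l', rfl⟩ := h3 l h5
    right
    rw [← h6, ← Z'.ncard_off l', ← Set.ncard_image_of_injective _ hf]
    congr 1
    ext Y
    constructor
    · rintro ⟨h7, h8⟩
      obtain ⟨Y', rfl⟩ := (h2 Y).1 h7
      exact ⟨Y', fun e => h8 ((h1 _ _).1 e), rfl⟩
    · rintro ⟨Y', h7, rfl⟩
      exact ⟨(h2 _).2 ⟨Y', rfl⟩, fun e => h7 ((h1 _ _).2 e)⟩

theorem baer_ax {g : G} (hg : g * g = 1) (h : ¬ Cfg I (fun x => g • x = x) (fun x => g • x = x)) :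
    ∃ c, g ∈ Ax G I c := by
  by_cases h0 : ∀ X : P, g • X = X
  · obtain ⟨c⟩ := Z.dual.ne
    exact ⟨c, fun X _ => h0 X⟩
  push Not at h0
  obtain ⟨X, hX⟩ := h0
  obtain ⟨l, h4, h5⟩ := Z.inv_line hI hg hX
  have h6 := Z.baer_count hI hg hX h4 h5
  obtain ⟨A, B, hA, hB, hAB⟩ := (Set.one_lt_ncard_iff (Set.toFinite _)).1
    (h6 ▸ Z.two : 1 < {Y | g • Y = Y ∧ ¬ I Y l}.ncard)
  obtain ⟨m, h7, h8⟩ := Z.join hAB
  have h9 := Z.fix_join hI hAB h7 h8 hA.1 hB.1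
  have h10 : m ≠ l := fun e => hA.2 (e ▸ h7)
  by_cases hm : ∀ C ∈ {Y | g • Y = Y ∧ ¬ I Y l}, I C m
  · obtain ⟨D, h11, h12⟩ := Z.meet h10
    have h13 : {Y | g • Y = Y ∧ ¬ I Y l} = {Y | I Y m ∧ Y ≠ D} :=
      Set.eq_of_subset_of_ncard_le (fun Y hY => ⟨hm Y hY, fun e => hY.2 (e ▸ h12)⟩)
        (by rw [h6, Z.ncard_on' h11])
    refine ⟨m, fun Y hY => ?_⟩
    by_cases e : Y = D
    · rw [e]; exact Z.fix_meet hI h10 h11 h12 h9 h5
    · exact (h13 ▸ ⟨hY, e⟩ : Y ∈ {Y | g • Y = Y ∧ ¬ I Y l}).1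
  · push Not at hm
    obtain ⟨C, hC, hCm⟩ := hm
    have hAC : A ≠ C := fun e => hCm (e ▸ h7)
    have hBC : B ≠ C := fun e => hCm (e ▸ h8)
    obtain ⟨x, h11, h12⟩ := Z.join hAC
    obtain ⟨y, h13, h14⟩ := Z.join hBC
    have h15 : y ≠ l := fun e => hB.2 (e ▸ h13)
    obtain ⟨E, h16, h17⟩ := Z.meet h15
    have h18 := Z.fix_join hI hBC h13 h14 hB.1 hC.1
    have h19 : ¬ I B x := fun e => hCm (Z.leq hAB h11 e h7 h8 ▸ h12)
    refine (h ⟨E, A, B, l, m, x, ⟨Z.fix_meet hI h15 h16 h17 h18 h5, hA.1, hB.1⟩,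
      ⟨h5, h9, Z.fix_join hI hAC h11 h12 hA.1 hC.1⟩, fun e => ?_, fun e => ?_, hA.2, h7, h11,
      hB.2, h8, h19⟩).elim
    · exact hCm (Z.leq (fun e : E = B => hB.2 (e ▸ h17)) h16 h13 e h8 ▸ h14)
    · exact h19 (Z.leq (fun e : E = C => hC.2 (e ▸ h17)) h16 h14 e h12 ▸ h13)

theorem baer_hom [FaithfulSMul G P] [FaithfulSMul G L] (hk : Odd k) {g : G} (hg : g * g = 1)
    (h : ¬ Cfg I (fun x => g • x = x) (fun x => g • x = x)) : ∃ C c, Hom I g C c := by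
  have h1 : g ≠ 1 := by
    rintro rfl
    simp only [one_smul] at h
    exact h Z.cfg
  obtain ⟨c, hc⟩ := Z.baer_ax hI hg h
  obtain ⟨C, hC⟩ := Z.exists_ce hI hc
  refine ⟨C, c, hC, hc, fun h2 => ?_, hg, h1⟩
  obtain ⟨y, h3, h4, -⟩ := Z.dual.third C c c
  have h5 := ncard_modEq (p := 2) (g := g) (by rw [pow_two, hg]) (Y := {X | I X y ∧ X ≠ C})
    (Z.invOn_pts hI (H := stabilizer G y ⊓ stabilizer G C) (fun g hg => hg.1) (fun g hg => hg.2)
      g ⟨hC y h3, hc C h2⟩)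
  rw [Z.ncard_on' h3, Set.eq_empty_of_forall_notMem (s := {y_1 | y_1 ∈ _ ∧ _}),
    Set.ncard_empty] at h5
  · exact (Nat.not_even_iff_odd.2 hk) (even_iff_two_dvd.2 (Nat.modEq_zero_iff_dvd.1 h5))
  · rintro X ⟨⟨h6, h7⟩, h8⟩
    exact h7 (Z.peq h4 h6 h3 (Z.el_fixP hI ⟨hC, hc, h2, h1⟩ h8) h2)

end Pl

section
variable {P L G : Type*} [Fintype P] [Fintype L] [Group G] [Finite G] [MulAction G P]
  [MulAction G L] {I : P → L → Prop} (hI : ∀ (g : G) p b, I (g • p) (g • b) ↔ I p b)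
include hI

theorem not_sylow (h2 : IsMultiplyPretransitive G P 2) {K : Subgroup G} {k : ℕ}
    (Z : Pl (Sub I K) k) {A B : P} (hAB : A ≠ B)
    (hK : Core.IsSylowOf 2 K (stabilizer G A ⊓ stabilizer G B)) : False := by
  obtain ⟨g, h3, h4⟩ := (is_two_pretransitive_iff.1 h2) hAB hAB.symm
  have h5 : g ∈ Subgroup.normalizer ((stabilizer G A ⊓ stabilizer G B : Subgroup G) : Set G) := by
    refine Subgroup.mem_normalizer_fintype fun n hn => ⟨?_, ?_⟩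
    · show _ • A = A
      rw [mul_smul, mul_smul, inv_smul_eq_iff.2 h4.symm, show n • B = B from hn.2, h4]
    · show _ • B = B
      rw [mul_smul, mul_smul, inv_smul_eq_iff.2 h3.symm, show n • A = A from hn.1, h3]
  obtain ⟨h, hh, h6⟩ := hK.exists_mul_normalizer h5
  obtain ⟨a, m, hm, e⟩ := Nat.exists_eq_two_pow_mul_odd (orderOf_pos (h⁻¹ * g)).ne'
  have h7 : (h⁻¹ * g) • A = B := by
    rw [mul_smul, h3, inv_smul_eq_iff, show h • B = B from hh.2]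
  have h8 : (h⁻¹ * g) • B = A := by
    rw [mul_smul, h4, inv_smul_eq_iff, show h • A = A from hh.1]
  generalize h⁻¹ * g = s at *
  have h9 : s * s ∈ stabilizer G A ⊓ stabilizer G B :=
    ⟨show _ • A = A by rw [mul_smul, h7, h8], show _ • B = B by rw [mul_smul, h8, h7]⟩
  obtain ⟨j, rfl⟩ := hm
  have h10 : s ^ (2 * j + 1) • A = B := by
    rw [pow_succ', mul_smul, pow_mul, pow_two,
      show (s * s) ^ j • A = A from (Subgroup.pow_mem _ h9 j).1, h7]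
  have h11 : s ^ (2 * j + 1) * s ^ (2 * j + 1) ∈ stabilizer G A ⊓ stabilizer G B := by
    rw [← (Commute.refl s).mul_pow]; exact Subgroup.pow_mem _ h9 _
  have h12 : (s ^ (2 * j + 1)) ^ 2 ^ a = 1 := by
    rw [← pow_mul, mul_comm, ← e, pow_orderOf_eq_one]
  have h13 := Subgroup.pow_mem _ h6 (2 * j + 1)
  generalize s ^ (2 * j + 1) = t at *
  have h14 : IsPGroup 2 (Subgroup.zpowers t) :=
    (IsPGroup.iff_card.2 (by
      rw [Nat.card_zpowers]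
      obtain ⟨n, -, hn⟩ := (Nat.dvd_prime_pow Nat.prime_two).1 (orderOf_dvd_of_pow_eq_one h12)
      exact ⟨n, hn⟩))
  have h15 : t * t ∈ K := hK.le_of_le_normalizer'
    (h14.to_le (Subgroup.zpowers_le.2 (Subgroup.mul_mem _ (Subgroup.mem_zpowers t)
      (Subgroup.mem_zpowers t)))) (Subgroup.zpowers_le.2 h11)
    (Subgroup.zpowers_le.2 (Subgroup.mul_mem _ h13 h13)) (Subgroup.mem_zpowers _)
  obtain ⟨r, h16, h17, -⟩ := exists_res hI h13 h15
  have hA : A ∈ fixedPoints K P := mem_fp.2 (hK.le.trans inf_le_left)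
  have h18 : r • (⟨A, hA⟩ : fixedPoints K P) ≠ ⟨A, hA⟩ := fun e =>
    hAB ((congrArg Subtype.val e).symm.trans ((h17 _).trans h10))
  obtain ⟨l, h19, h20⟩ := Z.inv_line (Aut.hI _) h16 h18
  obtain ⟨C, D, hC, hD, hCD⟩ := (Set.one_lt_ncard_iff (Set.toFinite _)).1
    (Z.baer_count (Aut.hI _) h16 h18 h19 h20 ▸ Z.two :
      1 < {Y | r • Y = Y ∧ ¬ Sub I K Y l}.ncard)
  obtain ⟨x, h21, h22⟩ := (is_two_pretransitive_iff.1 h2) (fun e => hCD (Subtype.ext e)) hAB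
  have h23 : IsPGroup 2 ↥(K ⊔ Subgroup.zpowers t) :=
    hK.isPGroup.to_sup_of_normal_left' h14 (Subgroup.zpowers_le.2 h13)
  have h24 : ∀ Y : fixedPoints K P, r • Y = Y → K ⊔ Subgroup.zpowers t ≤ stabilizer G (Y : P) :=
    fun Y hY => mem_fp.1 (mem_fp_sup.2 ⟨Y.2, (h17 Y).symm.trans (congrArg Subtype.val hY)⟩)
  have h25 := hK.card_dvd (h23.map (MulAut.conj x).toMonoidHom) (by
    rintro _ ⟨y, hy, rfl⟩
    refine ⟨?_, ?_⟩
    · show (x * y * x⁻¹) • A = A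
      rw [← h21, mul_smul, mul_smul, inv_smul_smul, show y • (C : P) = C from h24 C hC.1 hy]
    · show (x * y * x⁻¹) • B = B
      rw [← h22, mul_smul, mul_smul, inv_smul_smul, show y • (D : P) = D from h24 D hD.1 hy])
  rw [Subgroup.card_map_of_injective (MulAut.conj x).injective] at h25
  have h26 := Subgroup.eq_of_le_of_card_ge (le_sup_left : K ≤ K ⊔ Subgroup.zpowers t)
    (Nat.le_of_dvd Nat.card_pos h25)
  have h27 : t ∈ K := h26 ▸ Subgroup.mem_sup_right (Subgroup.mem_zpowers t)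
  exact hAB ((hK.le h27).1.symm.trans h10)

theorem exists_step (h2 : IsMultiplyPretransitive G P 2) {K : Subgroup G} (hK : IsPGroup 2 K)
    {k : ℕ} (Z : Pl (Sub I K) k) {A B : fixedPoints K P} (hAB : A ≠ B) :
    ∃ t : G, t ∉ K ∧ t ∈ Subgroup.normalizer (K : Set G) ∧ t * t ∈ K ∧
      IsPGroup 2 ↥(K ⊔ Subgroup.zpowers t) ∧ t • (A : P) = A ∧ t • (B : P) = B := by
  obtain ⟨T, hT, hle⟩ := Core.exists_isSylowOf_ge hK (le_inf (mem_fp.1 A.2) (mem_fp.1 B.2))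
  have h3 : K ≠ T := by
    rintro rfl
    exact not_sylow hI h2 Z (fun e => hAB (Subtype.ext e)) hT
  obtain ⟨t, h4, h5, h6, h7⟩ := exists_norm_sq hT.isPGroup (lt_of_le_of_ne hle h3)
  exact ⟨t, h5, h6, h7, hT.isPGroup.to_le (sup_le hle (Subgroup.zpowers_le.2 h4)),
    (hT.le h4).1, (hT.le h4).2⟩

theorem pp_sub {n : ℕ} (Z₀ : Pl I n) (h2 : IsMultiplyPretransitive G P 2)
    (h2' : IsMultiplyPretransitive G L 2) (K : Subgroup G) :
    IsPGroup 2 K → ∀ k, Pl (Sub I K) k → Odd k → IsPrimePow k := by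
  induction K using WellFoundedGT.induction with
  | ind K ih =>
  intro hK k Z hk
  by_contra hn
  haveI := Z.aut_faithP
  haveI := Z.aut_faithL
  have key : ∀ t : G, t ∉ K → t ∈ Subgroup.normalizer (K : Set G) → t * t ∈ K →
      IsPGroup 2 ↥(K ⊔ Subgroup.zpowers t) → ∃ (r : Aut (Sub I K)) (C : _) (c : _),
        Hom (Sub I K) r C c ∧ (∀ x : fixedPoints K P, ((r • x : fixedPoints K P) : P) = t • x) ∧
        ∀ x : fixedPoints K L, ((r • x : fixedPoints K L) : L) = t • x := by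
    intro t h3 h4 h5 h6
    obtain ⟨r, h7, h8, h9⟩ := exists_res hI h4 h5
    obtain ⟨C, c, H⟩ := Z.baer_hom (Aut.hI _) hk h7 fun hc => by
      obtain ⟨k', Z'⟩ := Z₀.sub_pl hI (K := K ⊔ Subgroup.zpowers t) (by
        obtain ⟨p₁, p₂, p₃, l₁, l₂, l₃, ⟨a, b, c⟩, ⟨d, e, f⟩, h⟩ := hc
        have q1 : ∀ x : fixedPoints K P, r • x = x →
            (x : P) ∈ fixedPoints ↥(K ⊔ Subgroup.zpowers t) P := fun x hx =>
          mem_fp_sup.2 ⟨x.2, (h8 x).symm.trans (congrArg Subtype.val hx)⟩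
        have q2 : ∀ x : fixedPoints K L, r • x = x →
            (x : L) ∈ fixedPoints ↥(K ⊔ Subgroup.zpowers t) L := fun x hx =>
          mem_fp_sup.2 ⟨x.2, (h9 x).symm.trans (congrArg Subtype.val hx)⟩
        exact ⟨p₁, p₂, p₃, l₁, l₂, l₃, ⟨q1 _ a, q1 _ b, q1 _ c⟩, ⟨q2 _ d, q2 _ e, q2 _ f⟩, h⟩)
      have h10 := Z.baer_order (Aut.hI _) h7 Z' (fun x => ⟨x.1, (mem_fp_sup.1 x.2).1⟩)
        (fun x => ⟨x.1, (mem_fp_sup.1 x.2).1⟩)
        (fun x y e => Subtype.ext (congrArg Subtype.val e :)) (fun _ _ => Iff.rfl)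
        (fun X => ⟨fun e => ⟨⟨X.1, mem_fp_sup.2 ⟨X.2, (h8 X).symm.trans
          (congrArg Subtype.val e)⟩⟩, rfl⟩, by
            rintro ⟨x, rfl⟩
            exact Subtype.ext ((h8 _).trans (mem_fp_sup.1 x.2).2)⟩)
        (fun X e => ⟨⟨X.1, mem_fp_sup.2 ⟨X.2, (h9 X).symm.trans (congrArg Subtype.val e)⟩⟩, rfl⟩)
      have h11 : K < K ⊔ Subgroup.zpowers t := lt_of_le_of_ne le_sup_left fun e =>
        h3 (e ▸ Subgroup.mem_sup_right (Subgroup.mem_zpowers t))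
      rcases h10 with ⟨-, rfl⟩ | rfl
      · exact hn (ih _ h11 h6 _ Z' hk)
      · exact hn ((ih _ h11 h6 _ Z' ((Nat.odd_pow_iff two_ne_zero).1 hk)).pow two_ne_zero)
    exact ⟨r, C, c, H, h8, h9⟩
  refine hn (Z.pp_of_hom (Aut.hI _) (fun A B hAB => ?_) fun a b hab => ?_)
  · obtain ⟨t, h3, h4, h5, h6, h7, h8⟩ := exists_step hI h2 hK Z hAB
    obtain ⟨r, C, c, H, h9, -⟩ := key t h3 h4 h5 h6
    exact ⟨r, C, c, H, Subtype.ext ((h9 A).trans h7), Subtype.ext ((h9 B).trans h8)⟩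
  · obtain ⟨t, h3, h4, h5, h6, h7, h8⟩ := exists_step (I := fun l p => I p l)
      (fun g p b => hI g b p) h2' hK Z.dual hab
    obtain ⟨r, C, c, H, -, h9⟩ := key t h3 h4 h5 h6
    exact ⟨r, C, c, H, Subtype.ext ((h9 a).trans h7), Subtype.ext ((h9 b).trans h8)⟩

theorem pp_odd {n : ℕ} (Z : Pl I n) (h2 : IsMultiplyPretransitive G P 2)
    (h2' : IsMultiplyPretransitive G L 2) (hn : Odd n) : IsPrimePow n := by
  have h3 : ∀ {X : Type _} [MulAction G X] (x : X), x ∈ fixedPoints (⊥ : Subgroup G) X :=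
    fun x => mem_fp.2 bot_le
  have h3' : ∀ x : L, x ∈ fixedPoints (⊥ : Subgroup G) L := fun x => mem_fp.2 bot_le
  obtain ⟨k, Z'⟩ := Z.sub_pl hI (K := ⊥) (by
    obtain ⟨p₁, p₂, p₃, l₁, l₂, l₃, -, -, h⟩ := Z.cfg
    exact ⟨p₁, p₂, p₃, l₁, l₂, l₃, ⟨h3 _, h3 _, h3 _⟩, ⟨h3' _, h3' _, h3' _⟩, h⟩)
  have h4 := Fintype.card_of_bijective (f := fun x : fixedPoints (⊥ : Subgroup G) P => (x : P))
    ⟨Subtype.val_injective, fun X => ⟨⟨X, h3 X⟩, rfl⟩⟩
  rw [Z.card, Z'.card] at h4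
  obtain rfl : k = n := by
    rcases lt_trichotomy k n with e | e | e
    · nlinarith
    · exact e
    · nlinarith
  exact pp_sub hI Z h2 h2' ⊥ IsPGroup.of_bot _ Z' hn

end

end Cfsg.Agent.PG
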