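import Mathlib

/-! Involutions acting as bireflections: the formal part. -/

set_option autoImplicit false
set_option linter.unusedVariables false

namespace Cfsg.Agent.PG.Br

open scoped commutatorElement

variable {X M : Type*} [Group X] [CommGroup M] [MulDistribMulAction X M]

/-- The vectors inverted by `t`. -/
def Ng (t : X) (v : M) : Prop := t • v = v⁻¹

/-- Involutions of `S` are scalars. -/
def Pl (X : Type*) {M : Type*} [Group X] [CommGroup M] [MulDistribMulAction X M]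
    (S : M → Prop) : Prop :=
  ∀ g : X, (∀ v, S v → S (g • v)) → (∀ v, S v → g • g • v = v) →
    (∀ v, S v → g • v = v) ∨ (∀ v, S v → g • v = v⁻¹)

theorem Ng.inv {t : X} {v : M} (h : Ng t v) : Ng t v⁻¹ := by
  unfold Ng at *; rw [smul_inv', h]

theorem Ng.inv_smul {t : X} {v : M} (h : Ng t v) : t⁻¹ • v = v⁻¹ := by
  have : t • v⁻¹ = v := by rw [smul_inv', h, inv_inv]
  rw [← this, inv_smul_smul, this]

theorem Ng.smul {t g : X} {v : M} (h : Ng t v) (hc : t • g • v = g • t • v) : Ng t (g • v) := by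
  unfold Ng at *; rw [hc, h, smul_inv']

theorem Pl.conj {S : M → Prop} (h : Pl X S) (w : X) : Pl X fun v => S (w⁻¹ • v) := by
  intro g h1 h2
  have := h (w⁻¹ * g * w) (fun v hv => by
    simpa [mul_smul] using h1 (w • v) (by simpa using hv)) (fun v hv => by
    have := h2 (w • v) (by simpa using hv)
    simp only [mul_smul, smul_inv_smul, this, inv_smul_smul])
  refine this.imp (fun e v hv => ?_) fun e v hv => ?_
  · have := e _ hv
    simp only [mul_smul, smul_inv_smul] at this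
    exact MulAction.injective w⁻¹ this
  · have := e _ hv
    simp only [mul_smul, smul_inv_smul, ← smul_inv'] at this
    exact MulAction.injective w⁻¹ this

theorem rs {S : M → Prop} {r s : X} (hi : ∀ v, S v → S v⁻¹) (hs : ∀ v, S v → S (s • v))
    (hr : (∀ v, S v → r • v = v) ∨ (∀ v, S v → r • v = v⁻¹)) {v : M} (hv : S v) :
    r • s • r • s • v = s • s • v := by
  rcases hr with hr | hr
  · rw [hr _ (hs _ hv), hr _ (hs _ (hs _ hv))]
  · rw [hr _ (hs _ hv), hr _ (hs _ (hi _ (hs _ hv))), smul_inv', inv_inv]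

theorem sNg (s : X) {v : M} (h : Ng (s * s) v) : Ng (s * s) (s • v) :=
  h.smul (by simp only [mul_smul])

theorem ab (h2 : ∀ v : M, v = v⁻¹ → v = 1) {s r : X} (hp : Pl X (Ng (M := M) (s * s)))
    (hr : ∀ v : M, r • r • v = v) (hc : ∀ v : M, (s * s) • r • v = r • (s * s) • v) {v : M}
    (hv : Ng (s * s) v) (hN : Ng (r * s * (r * s) * (s * s)⁻¹) v) : v = 1 := by
  have h1 := hp r (fun v hv => hv.smul (hc v)) fun v _ => hr v
  have h3 := rs (S := Ng (s * s)) (fun _ => Ng.inv) (fun _ => sNg s) h1 hv.inv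
  unfold Ng at hN
  rw [mul_smul, hv.inv_smul] at hN
  simp only [mul_smul] at hN
  rw [h3, ← mul_smul, hv.inv, inv_inv] at hN
  exact h2 v hN

/-- Eigenvectors of an involution in an invariant subgroup. -/
theorem eig {S : M → Prop} {g : X} (hm : ∀ v w, S v → S w → S (v * w)) (hi : ∀ v, S v → S v⁻¹)
    (hg : ∀ v, S v → S (g • v)) (hgg : ∀ v, S v → g • g • v = v) {v : M} (hv : S v) (h1 : v ≠ 1) :
    (∃ w, S w ∧ w ≠ 1 ∧ g • w = w) ∨ ∃ w, S w ∧ w ≠ 1 ∧ Ng g w := by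
  by_cases e : g • v = v
  · exact .inl ⟨v, hv, h1, e⟩
  · refine .inr ⟨v * (g • v)⁻¹, hm _ _ hv (hi _ (hg _ hv)), fun h => e (mul_inv_eq_one.1 h).symm, ?_⟩
    unfold Ng
    rw [smul_mul', smul_inv', hgg v hv, mul_inv_rev, inv_inv]

theorem ex_ng {g : X} (hgg : ∀ v : M, g • g • v = v) (h : ∃ v : M, g • v ≠ v) :
    ∃ w : M, w ≠ 1 ∧ Ng g w := by
  obtain ⟨v, e⟩ := h
  refine ⟨v * (g • v)⁻¹, fun h => e (mul_inv_eq_one.1 h).symm, ?_⟩
  unfold Ng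
  rw [smul_mul', smul_inv', hgg v, mul_inv_rev, inv_inv]

theorem Ng.mul {t : X} {v w : M} (h : Ng t v) (h' : Ng t w) : Ng t (v * w) := by
  unfold Ng at *; rw [smul_mul', h, h', mul_inv]

/-- A special group. -/
structure Sp (P D : Subgroup X) : Prop where
  le : D ≤ P
  cen : ∀ d ∈ D, ∀ p ∈ P, d * p = p * d
  dsq : ∀ d ∈ D, d * d = 1
  der : ∀ p ∈ P, ∀ p' ∈ P, ⁅p, p'⁆ ∈ D
  sq : ∀ p ∈ P, p * p ∈ D

/-- An involution stabilizing the series. -/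
structure Hf (P D : Subgroup X) (t : X) : Prop where
  tD : ∀ d ∈ D, t * d = d * t
  tP : ∀ p ∈ P, ⁅t, p⁆ ∈ D
  t2 : t * t = 1

variable {P D : Subgroup X}

theorem cm (a b : X) (v : M) : a • b • v = ⁅a, b⁆ • b • a • v := by
  simp only [← mul_smul]; congr 1; rw [commutatorElement_def]; group

theorem sw {a b : X} (h : a * b = b * a) (v : M) : a • b • v = b • a • v := by
  rw [← mul_smul, h, mul_smul]

theorem wl_ab {t u : X} (ht : t * t = 1) (hN : ∀ v : M, (u * t⁻¹) • (u * t⁻¹) • v = v)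
    (hc : ∀ v : M, t • (u * t⁻¹) • v = (u * t⁻¹) • t • v) (h : ∃ v : M, (u * t⁻¹) • v ≠ v) :
    (∃ v : M, v ≠ 1 ∧ Ng t v ∧ Ng (u * t⁻¹) v) ∨ ∃ v : M, v ≠ 1 ∧ Ng u v ∧ Ng (t * u⁻¹) v := by
  obtain ⟨v, h1, hv⟩ := ex_ng hN h
  rcases eig (S := Ng (u * t⁻¹)) (g := t) (fun _ _ => Ng.mul) (fun _ => Ng.inv)
    (fun v hv => hv.smul (hc v).symm) (fun v _ => by rw [← mul_smul, ht, one_smul]) hv h1 with
    ⟨w, hw, h1, e⟩ | ⟨w, hw, h1, e⟩
  · refine .inr ⟨w, h1, ?_, ?_⟩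
    · unfold Ng at *
      rw [← hw, mul_smul]
      congr 1
      conv_rhs => rw [← e, inv_smul_smul]
    · have := hw.inv_smul
      rwa [mul_inv_rev, inv_inv] at this
  · exact .inl ⟨w, h1, e, hw⟩

theorem anti (h2 : ∀ v : M, v = v⁻¹ → v = 1) {t w : X} {S : M → Prop} (ht : t * t = 1)
    (hm : ∀ v w, S v → S w → S (v * w)) (hi : ∀ v, S v → S v⁻¹)
    (hg : ∀ v, S v → S (t • v)) (hw : ∀ v, S v → S (w • v)) (hd : ∀ v, S v → Ng ⁅t, w⁆ v) {v : M}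
    (hv : S v) (h1 : v ≠ 1) : ∃ v, S v ∧ v ≠ 1 ∧ Ng t v := by
  rcases eig (g := t) hm hi hg (fun v _ => by rw [← mul_smul, ht, one_smul]) hv h1 with
    ⟨a, ha, h1, e⟩ | h
  · refine ⟨w • a, hw _ ha, fun h => h1 (MulAction.injective w (by simpa using h)), ?_⟩
    unfold Ng
    rw [cm, e]
    exact hd _ (hw _ ha)
  · exact h

theorem wl_nab (h2 : ∀ v : M, v = v⁻¹ → v = 1) (h : Sp P D) {t u w : X} (ht : Hf P D t)
    (hu : Hf P D u) (hN : u * t⁻¹ ∈ P) (hw : w ∈ P) (hz : ∃ v : M, ⁅u * t⁻¹, w⁆ • v ≠ v) :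
    (∃ v : M, v ≠ 1 ∧ Ng t v ∧ Ng ⁅u * t⁻¹, w⁆ v ∧ Ng ⁅t, w⁆ v) ∨
      ∃ v : M, v ≠ 1 ∧ Ng u v ∧ Ng ⁅t * u⁻¹, w⁆ v ∧ Ng ⁅u, w⁆ v := by
  have hzD := h.der _ hN _ hw
  have hdD := ht.tP _ hw
  set z := ⁅u * t⁻¹, w⁆ with hz0
  set d := ⁅t, w⁆ with hd0
  have dd : ∀ c ∈ D, ∀ v : M, c • c • v = v := fun c hc v => by
    rw [← mul_smul, h.dsq c hc, one_smul]
  obtain ⟨v, h1, hv⟩ := ex_ng (dd z hzD) hz
  have e1 : ⁅u, w⁆ = d * z := by
    have : ⁅u, w⁆ = (u * t⁻¹) * d * (u * t⁻¹)⁻¹ * z := by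
      simp only [hz0, hd0, commutatorElement_def]; group
    rw [this, ← h.cen d hdD _ hN, mul_inv_cancel_right]
  have e2 : ⁅t * u⁻¹, w⁆ = z := by
    have : ⁅t * u⁻¹, w⁆ = (u * t⁻¹)⁻¹ * z⁻¹ * (u * t⁻¹) := by
      simp only [hz0, commutatorElement_def]; group
    rw [this, mul_assoc, h.cen _ (D.inv_mem hzD) _ hN, inv_mul_cancel_left,
      inv_eq_of_mul_eq_one_right (h.dsq z hzD)]
  rcases eig (S := Ng z) (g := d) (fun _ _ => Ng.mul) (fun _ => Ng.inv)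
    (fun v hv => hv.smul (sw (h.cen z hzD d (h.le hdD)) v)) (fun v _ => dd d hdD v) hv h1 with
    ⟨a, ha, h1, e⟩ | ⟨a, ha, h1, e⟩
  · obtain ⟨b, hb, h1, e⟩ := anti h2 (t := u) (w := w) (S := fun v => Ng z v ∧ d • v = v) hu.t2
      (fun v w hv hw => ⟨hv.1.mul hw.1, by rw [smul_mul', hv.2, hw.2]⟩)
      (fun v hv => ⟨hv.1.inv, by rw [smul_inv', hv.2]⟩)
      (fun v hv => ⟨hv.1.smul (sw (hu.tD z hzD).symm v), by rw [← sw (hu.tD d hdD), hv.2]⟩)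
      (fun v hv => ⟨hv.1.smul (sw (h.cen z hzD w hw) v), by rw [sw (h.cen d hdD w hw), hv.2]⟩)
      (fun v hv => by
        unfold Ng; rw [e1, mul_smul, hv.1, smul_inv', hv.2]) ⟨ha, e⟩ h1
    refine .inr ⟨b, h1, e, e2 ▸ hb.1, ?_⟩
    unfold Ng; rw [e1, mul_smul, hb.1, smul_inv', hb.2]
  · obtain ⟨b, hb, h1, e⟩ := anti h2 (t := t) (w := w) (S := fun v => Ng z v ∧ Ng d v) ht.t2
      (fun v w hv hw => ⟨hv.1.mul hw.1, hv.2.mul hw.2⟩) (fun v hv => ⟨hv.1.inv, hv.2.inv⟩)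
      (fun v hv => ⟨hv.1.smul (sw (ht.tD z hzD).symm v), hv.2.smul (sw (ht.tD d hdD).symm v)⟩)
      (fun v hv => ⟨hv.1.smul (sw (h.cen z hzD w hw) v), hv.2.smul (sw (h.cen d hdD w hw) v)⟩)
      (fun v hv => hv.2) ⟨ha, e⟩ h1
    exact .inl ⟨b, h1, e, hb⟩

end Cfsg.Agent.PG.Br
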