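import Mathlib
import Cfsg.Agent.PG.Br1

/-! Involutions acting as bireflections: the nonabelian case. -/

set_option autoImplicit false
set_option linter.unusedVariables false

namespace Cfsg.Agent.PG.Br

open scoped commutatorElement

variable {X M : Type*} [Group X] [CommGroup M] [MulDistribMulAction X M] {P D : Subgroup X}

theorem rs' {S : M → Prop} {r s : X} (hi : ∀ v, S v → S v⁻¹) (hr : ∀ v, S v → S (r • v))
    (hs : (∀ v, S v → s • v = v) ∨ (∀ v, S v → s • v = v⁻¹)) {v : M} (hv : S v) :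
    s • r • s • v = r • v := by
  rcases hs with hs | hs
  · rw [hs _ hv, hs _ (hr _ hv)]
  · rw [hs _ hv, hs _ (hr _ (hi _ hv)), smul_inv', inv_inv]

theorem nab (h2 : ∀ v : M, v = v⁻¹ → v = 1) (h : Sp P D) {s r w t u : X} (et : t = s * s)
    (eu : u = r * s * (r * s)) (ht : Hf P D t) (hu : Hf P D u) (hs : ∀ p ∈ P, s * p * s⁻¹ ∈ P)
    (hr : r ∈ P) (hw : w ∈ P) (hp : Pl X (Ng (M := M) t))
    (hpu : (∃ v : M, v ≠ 1 ∧ Ng u v) → Pl X (Ng (M := M) u)) {v₀ : M} (h0 : Ng t v₀)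
    (hz : Ng ⁅u * t⁻¹, w⁆ v₀) (hd : Ng ⁅t, w⁆ v₀) : v₀ = 1 := by
  by_contra h1
  have hN : u * t⁻¹ ∈ P := by
    rw [show u * t⁻¹ = r * (s * r * s⁻¹) by rw [et, eu]; group]
    exact P.mul_mem hr (hs r hr)
  have dd : ∀ c ∈ D, ∀ v : M, c • c • v = v := fun c hc v => by
    rw [← mul_smul, h.dsq c hc, one_smul]
  have tt : ∀ v : M, t • t • v = v := fun v => by rw [← mul_smul, ht.t2, one_smul]
  have uu : ∀ v : M, u • u • v = v := fun v => by rw [← mul_smul, hu.t2, one_smul]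
  have us : ∀ v : M, u • v = r • s • r • s • v := fun v => by simp only [eu, mul_smul]
  have ts : ∀ v : M, t • v = s • s • v := fun v => by simp only [et, mul_smul]
  have ti : t⁻¹ = t := inv_eq_of_mul_eq_one_right ht.t2
  have dP : ∀ c ∈ D, ∀ v : M, Ng t v → Ng t (c • v) := fun c hc v hv =>
    hv.smul (sw (ht.tD c hc) v)
  have F1 := fun c hc => hp c (dP c hc) fun v _ => dd c hc v
  have F1' : ∀ c ∈ D, Ng c v₀ → ∀ v : M, Ng t v → c • v = v⁻¹ := fun c hc e =>
    (F1 c hc).resolve_left fun e' => h1 (h2 _ ((e' _ h0).symm.trans e))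
  have hdD := ht.tP _ hw
  have hzD := h.der _ hN _ hw
  have dn := F1' _ hdD hd
  have sP : ∀ v : M, Ng t v → Ng t (s • v) := fun v hv => hv.smul (by simp only [ts])
  have sP' : ∀ v : M, Ng t v → Ng t (s⁻¹ • v) := fun v hv => hv.smul (by simp [ts])
  have F2 : ∀ v : M, Ng t (w⁻¹ • v) → t • v = v := fun v hv => by
    have := cm t w (w⁻¹ • v)
    rwa [hv, sw (h.cen _ hdD _ hw), dn _ hv.inv, inv_inv, smul_inv_smul] at this
  have F3 : ∀ p ∈ P, (∀ v : M, Ng t v → ⁅t, p⁆ • v = v) → ∀ v : M, Ng t v → Ng t (p • v) :=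
    fun p hp' e v hv => by
      unfold Ng
      rw [cm, hv, sw (h.cen _ (ht.tP _ hp') _ hp'), e _ hv.inv, smul_inv']
  have F4 : ∀ p ∈ P, (∀ v : M, Ng t v → ⁅t, p⁆ • v = v⁻¹) → ∀ v : M, Ng t v →
      Ng t (w⁻¹ • p • v) := fun p hp' e v hv => by
    have e1 : ⁅t, w⁻¹⁆ = ⁅t, w⁆ := by
      rw [show ⁅t, w⁻¹⁆ = w⁻¹ * (⁅t, w⁆⁻¹ * w) by simp only [commutatorElement_def]; group,
        h.cen _ (D.inv_mem hdD) _ hw, inv_mul_cancel_left,
        inv_eq_of_mul_eq_one_right (h.dsq _ hdD)]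
    unfold Ng
    rw [cm, e1, cm t p, hv, sw (h.cen _ (ht.tP _ hp') _ hp'), e _ hv.inv, inv_inv,
      sw (h.cen _ hdD _ (P.inv_mem hw)), sw (h.cen _ hdD _ hp'), dn _ hv, smul_inv', smul_inv']
  have F5 : ∀ v : M, Ng t (w⁻¹ • v) → Ng t (w⁻¹ • s • v) := fun v hv => by
    have := F4 _ (hs w hw) (fun a ha => by
      rw [show ⁅t, s * w * s⁻¹⁆ = s * ⁅t, w⁆ * s⁻¹ by
        simp only [et, commutatorElement_def]; group, mul_smul, mul_smul, dn _ (sP' _ ha),
        smul_inv', smul_inv_smul]) _ (sP _ hv)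
    simpa [mul_smul] using this
  have inv' : ∀ v : M, Ng t (w⁻¹ • v) → Ng t (w⁻¹ • v⁻¹) := fun v hv => by
    rw [smul_inv']; exact hv.inv
  have F6 := hp.conj w s F5 fun v hv => by rw [← ts, F2 v hv]
  have h1' : w • v₀ ≠ 1 := fun e => h1 (MulAction.injective w (by simpa using e))
  have hv1 : Ng t (w⁻¹ • w • v₀) := by simpa using h0
  have hrr := h.sq r hr
  rcases F1 _ (ht.tP r hr) with e | e
  · have rP := F3 r hr e
    have rP' : ∀ v : M, Ng t (w⁻¹ • v) → Ng t (w⁻¹ • r • v) := fun v hv => by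
      rw [cm]
      exact dP _ (h.der _ (P.inv_mem hw) _ hr) _ (rP _ hv)
    have u' : ∀ v : M, Ng t (w⁻¹ • v) → u • v = w • (r * r) • w⁻¹ • v := fun v hv => by
      rw [us, rs' inv' rP' F6 hv, ← sw (h.cen _ hrr _ hw), smul_inv_smul, mul_smul]
    have Nw : (u * t⁻¹) • w • v₀ = (w • (u * t⁻¹) • v₀)⁻¹ := by
      rw [cm, sw (h.cen _ hzD _ hw), sw (h.cen _ hzD _ hN), hz, smul_inv', smul_inv']
    have N1 : (u * t⁻¹) • w • v₀ = w • (r * r) • v₀ := by
      rw [mul_smul, ti, F2 _ hv1, u' _ hv1, inv_smul_smul]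
    have N0 : (u * t⁻¹) • v₀ = (u • v₀)⁻¹ := by rw [mul_smul, ti, h0, smul_inv']
    rw [N1, N0, smul_inv', inv_inv] at Nw
    replace Nw := MulAction.injective w Nw
    rcases F1 _ hrr with e' | e'
    · have := rs (S := Ng t) (fun _ => Ng.inv) sP (hp r rP fun v hv => by rw [← mul_smul, e' v hv]) h0
      rw [← us, ← ts, h0, ← Nw, e' _ h0] at this
      exact h1 (h2 _ this)
    · have u1 : Ng u (w • v₀) := by
        unfold Ng; rw [u' _ hv1, inv_smul_smul, e' _ h0, smul_inv']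
      have u0 : Ng u v₀ := by unfold Ng; rw [← Nw, e' _ h0]
      have hq := hpu ⟨_, h1', u1⟩
      have hc := ht.tP _ hN
      have c1 : ∀ v : M, Ng u v → ⁅t, u * t⁻¹⁆ • v = v := by
        refine (hq _ (fun v hv => hv.smul (sw (hu.tD _ hc) v)) fun v _ => dd _ hc v).resolve_right
          fun e2 => h1' (h2 _ ?_)
        have := cm t (u * t⁻¹) (w • v₀)
        rw [F2 _ hv1, N1, e' _ h0, smul_inv', smul_inv', F2 _ hv1, e2 _ u1.inv, inv_inv] at this
        exact this.symm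
      rcases hq t (fun v hv => by
        have := cm t (u * t⁻¹) (t • v)
        rw [tt, sw (h.cen _ hc _ hN), c1 _ hv, mul_smul, mul_smul, ti, tt, hv, smul_inv'] at this
        exact this.symm) (fun v _ => tt v) with e2 | e2
      · exact h1 (h2 _ ((e2 _ u0).symm.trans h0))
      · exact h1' (h2 _ ((F2 _ hv1).symm.trans (e2 _ u1)))
  · have key : (∀ a : M, Ng t a → u • a = s • a) ∨ ∀ a : M, Ng t a → u • a = (s • a)⁻¹ := by
      have h3 := fun a ha => F4 r hr e _ (sP a ha)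
      rcases F6 with e1 | e1 <;> rcases F1 _ hrr with e2 | e2
      · exact .inl fun a ha => by rw [us, e1 _ (h3 a ha), ← mul_smul r r, e2 _ (sP a ha)]
      · exact .inr fun a ha => by rw [us, e1 _ (h3 a ha), ← mul_smul r r, e2 _ (sP a ha)]
      · exact .inr fun a ha => by
          rw [us, e1 _ (h3 a ha), smul_inv', ← mul_smul r r, e2 _ (sP a ha)]
      · exact .inl fun a ha => by
          rw [us, e1 _ (h3 a ha), smul_inv', ← mul_smul r r, e2 _ (sP a ha), inv_inv]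
    have := uu v₀
    rcases key with e1 | e1
    · rw [e1 _ h0, e1 _ (sP _ h0), ← ts, h0] at this
      exact h1 (h2 _ this.symm)
    · rw [e1 _ h0, e1 _ (sP _ h0).inv, smul_inv', inv_inv, ← ts, h0] at this
      exact h1 (h2 _ this.symm)

end Cfsg.Agent.PG.Br
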