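import Mathlib
import Cfsg.Agent.Block.ZStar
import Cfsg.Agent.Comp2.Cores

/-!
An element `a` of odd prime order `r` with a normal `r`-complement (a coprime automorphism), and an
involution `τ` with `C(τ) ≤ C(a)`: basic facts.
-/

set_option autoImplicit false

namespace Cfsg.Agent.PG.CopInv

open Subgroup

variable {G : Type*} [Group G] {Q : Type*} [CommGroup Q]

theorem sylconj [Finite G] {r : ℕ} (hr : r.Prime) (sq : ¬ r ^ 2 ∣ Nat.card G) {x y : G}
    (hx : orderOf x = r) (hy : orderOf y = r) : ∃ g : G, g * x * g⁻¹ ∈ zpowers y := by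
  haveI := Fact.mk hr
  have hf : (Nat.card G).factorization r = 1 := by
    have h1 : r ^ 1 ∣ Nat.card G := by rw [pow_one, ← hx]; exact orderOf_dvd_natCard x
    have h0 : Nat.card G ≠ 0 := Nat.card_pos.ne'
    have a1 := (hr.pow_dvd_iff_le_factorization h0).1 h1
    have a2 : ¬ 2 ≤ (Nat.card G).factorization r := fun h =>
      sq ((hr.pow_dvd_iff_le_factorization h0).2 h)
    omega
  let P : Sylow r G := Sylow.ofCard (zpowers x) (by rw [hf, Nat.card_zpowers, hx, pow_one])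
  let P' : Sylow r G := Sylow.ofCard (zpowers y) (by rw [hf, Nat.card_zpowers, hy, pow_one])
  obtain ⟨g, hg⟩ := MulAction.exists_smul_eq G P P'
  refine ⟨g, ?_⟩
  have : (P' : Subgroup G) = zpowers y := rfl
  rw [← this, ← hg, Sylow.coe_subgroup_smul]
  exact ⟨x, mem_zpowers x, rfl⟩

/-- `a` has odd prime order `r`, generates a Sylow `r`-subgroup and survives in an abelian
quotient of exponent `r`. -/
structure St (r : ℕ) (φ : G →* Q) (a : G) : Prop where
  hr : r.Prime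
  h2 : r ≠ 2
  ord : orderOf a = r
  sq : ¬ r ^ 2 ∣ Nat.card G
  exp : ∀ x, φ x ^ r = 1
  ne : φ a ≠ 1

variable {r : ℕ} {φ : G →* Q} {a τ : G}

theorem St.phi_conj {b : G} (hb : IsConj a b) : φ b = φ a := by
  obtain ⟨c, rfl⟩ := isConj_iff.1 hb
  simp [mul_comm, mul_left_comm]

theorem St.ord_phi (h : St r φ a) {y : G} (hy : φ y ≠ 1) : orderOf (φ y) = r := by
  haveI := Fact.mk h.hr
  exact orderOf_eq_prime (h.exp y) hy

theorem ord_conj {b : G} (hb : IsConj a b) : orderOf b = orderOf a := by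
  obtain ⟨c, rfl⟩ := isConj_iff.1 hb
  exact (MulAut.conj c).orderOf_eq a

theorem St.sub [Finite G] (h : St r φ a) {L : Subgroup G} (ha : a ∈ L) :
    St r (φ.comp L.subtype) ⟨a, ha⟩ :=
  ⟨h.hr, h.h2, by rw [← h.ord, ← Subgroup.orderOf_coe], fun hd =>
    h.sq (hd.trans (card_subgroup_dvd_card L)), fun x => h.exp x, h.ne⟩

theorem St.conj_in [Finite G] (h : St r φ a) {L : Subgroup G} {b b' : G} (hb : IsConj a b)
    (hb' : IsConj a b') (m : b ∈ L) (m' : b' ∈ L) : ∃ c ∈ L, c * b * c⁻¹ = b' := by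
  obtain ⟨c, k, hk⟩ := sylconj (G := L) h.hr (fun hd => h.sq (hd.trans (card_subgroup_dvd_card L)))
    (x := ⟨b, m⟩) (y := ⟨b', m'⟩) (by rw [← Subgroup.orderOf_coe, ord_conj hb, h.ord])
    (by rw [← Subgroup.orderOf_coe, ord_conj hb', h.ord])
  have e : b' ^ k = c * b * (c : G)⁻¹ := by simpa using congrArg Subtype.val hk
  refine ⟨c, c.2, ?_⟩
  rw [← e]
  have e1 : φ a ^ k = φ a ^ (1 : ℤ) := by
    have := congrArg φ e
    rw [map_zpow, St.phi_conj hb', St.phi_conj (hb.trans (isConj_iff.2 ⟨(c : G), rfl⟩))] at this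
    rw [this, zpow_one]
  rw [zpow_eq_zpow_iff_modEq, h.ord_phi h.ne] at e1
  rw [← zpow_one b', ← zpow_mul, one_mul, zpow_eq_zpow_iff_modEq, ord_conj hb', h.ord]
  exact e1

theorem St.pick [Finite G] (h : St r φ a) {y : G} (hy : φ y ≠ 1) :
    ∃ b ∈ zpowers y, IsConj a b := by
  have hd : r ∣ orderOf y := h.ord_phi hy ▸ orderOf_map_dvd φ y
  have ho : orderOf (y ^ (orderOf y / r)) = r := orderOf_pow_orderOf_div (orderOf_pos y).ne' hd
  obtain ⟨g, hg⟩ := sylconj h.hr h.sq h.ord ho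
  exact ⟨_, zpowers_le.2 (pow_mem (mem_zpowers y) _) hg, isConj_iff.2 ⟨g, rfl⟩⟩

theorem St.two_ker [Finite G] (h : St r φ a) {S : Subgroup G} (hS : IsPGroup 2 S) : S ≤ φ.ker := by
  intro s hs
  by_contra hn
  have hd : r ∣ orderOf s := h.ord_phi hn ▸ orderOf_map_dvd φ s
  obtain ⟨k, hk⟩ := IsPGroup.iff_orderOf.1 hS ⟨s, hs⟩
  rw [← Subgroup.orderOf_coe] at hk
  rw [hk] at hd
  exact h.h2 ((Nat.prime_dvd_prime_iff_eq h.hr Nat.prime_two).1 (h.hr.dvd_of_dvd_pow hd))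

/-- the involution hypothesis -/
structure Tv (a τ : G) : Prop where
  ord : orderOf τ = 2
  cen : ∀ x, Commute x τ → Commute x a

theorem St.uniq [Finite G] (h : St r φ a) (t : Tv a τ) {b : G} (hb : IsConj a b)
    (hc : Commute τ b) : b = a := by
  obtain ⟨c, hc', e⟩ := h.conj_in (L := centralizer {τ}) (IsConj.refl a) hb
    (mem_centralizer_singleton_iff.2 (t.cen τ (Commute.refl τ)).symm)
    (mem_centralizer_singleton_iff.2 hc.symm)
  rw [← e, (t.cen c (mem_centralizer_singleton_iff.1 hc')).eq, mul_inv_cancel_right]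

theorem St.of_conj [Finite G] (h : St r φ a) (t : Tv a τ) {x : G}
    (hx : Commute (x * τ * x⁻¹) a) : Commute x a := by
  have e : x⁻¹ * a * x⁻¹⁻¹ = a := h.uniq t (isConj_iff.2 ⟨x⁻¹, rfl⟩) (by
    have := hx.eq
    change τ * (x⁻¹ * a * x⁻¹⁻¹) = x⁻¹ * a * x⁻¹⁻¹ * τ
    calc τ * (x⁻¹ * a * x⁻¹⁻¹) = x⁻¹ * (x * τ * x⁻¹ * a) * x := by group
      _ = x⁻¹ * (a * (x * τ * x⁻¹)) * x := by rw [this]
      _ = _ := by group)
  change x * a = a * x
  calc x * a = x * (x⁻¹ * a * x⁻¹⁻¹) := by rw [e]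
    _ = _ := by group

/-- unique fixed point of a conjugate of `τ` -/
theorem St.uniq' [Finite G] (h : St r φ a) (t : Tv a τ) {s b b' : G} (hs : IsConj τ s)
    (hb : IsConj a b) (hb' : IsConj a b') (hc : Commute s b) (hc' : Commute s b') : b = b' := by
  obtain ⟨g, rfl⟩ := isConj_iff.1 hs
  have key : ∀ b, IsConj a b → Commute (g * τ * g⁻¹) b → g⁻¹ * b * g⁻¹⁻¹ = a := fun b hb hc =>
    h.uniq t (hb.trans (isConj_iff.2 ⟨g⁻¹, rfl⟩)) (by
      have := hc.eq
      change τ * (g⁻¹ * b * g⁻¹⁻¹) = g⁻¹ * b * g⁻¹⁻¹ * τ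
      calc τ * (g⁻¹ * b * g⁻¹⁻¹) = g⁻¹ * (g * τ * g⁻¹ * b) * g := by group
        _ = g⁻¹ * (b * (g * τ * g⁻¹)) * g := by rw [this]
        _ = _ := by group)
  have := (key b hb hc).trans (key b' hb' hc').symm
  simpa using this

theorem St.syl [Finite G] (h : St r φ a) (t : Tv a τ) (T : Sylow 2 G) (hT : τ ∈ (T : Subgroup G)) :
    (T : Subgroup G) ≤ centralizer {a} := by
  haveI : Group.IsNilpotent T := T.isPGroup'.isNilpotent
  have hnc := normalizerCondition_of_isNilpotent (G := T)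
  let T1 : Subgroup T := (centralizer {a}).subgroupOf T
  have : T1 = ⊤ := by
    by_contra hne
    obtain ⟨x, hx, hx1⟩ := SetLike.exists_of_lt (hnc T1 (lt_top_iff_ne_top.2 hne))
    apply hx1
    have hτ : (⟨τ, hT⟩ : T) ∈ T1 :=
      mem_subgroupOf.2 (mem_centralizer_singleton_iff.2 (t.cen τ (Commute.refl τ)))
    have := mem_subgroupOf.1 ((mem_normalizer_iff.1 hx _).1 hτ)
    exact mem_subgroupOf.2 (mem_centralizer_singleton_iff.2
      (h.of_conj t (mem_centralizer_singleton_iff.1 this)))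
  exact subgroupOf_eq_top.1 this

theorem St.fix [Finite G] (h : St r φ a) (t : Tv a τ) {S : Subgroup G} (hS : IsPGroup 2 S) :
    ∃ b, IsConj a b ∧ b ∈ centralizer (S : Set G) := by
  obtain ⟨T, hT⟩ := (IsPGroup.of_card (n := 1) (G := zpowers τ)
    (by rw [Nat.card_zpowers, t.ord, pow_one])).exists_le_sylow
  obtain ⟨T', hT'⟩ := hS.exists_le_sylow
  obtain ⟨g, hg⟩ := MulAction.exists_smul_eq G T T'
  refine ⟨g * a * g⁻¹, isConj_iff.2 ⟨g, rfl⟩, mem_centralizer_iff.2 fun s hs => ?_⟩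
  have := hT' hs
  rw [← hg, Sylow.coe_subgroup_smul] at this
  obtain ⟨y, hy, rfl⟩ := this
  have e := mem_centralizer_singleton_iff.1 (h.syl t T (hT (mem_zpowers τ)) hy)
  change g * y * g⁻¹ * (g * a * g⁻¹) = g * a * g⁻¹ * (g * y * g⁻¹)
  calc g * y * g⁻¹ * (g * a * g⁻¹) = g * (y * a) * g⁻¹ := by group
    _ = _ := by rw [e]; group

theorem St.cen [Finite G] (h : St r φ a) (t : Tv a τ) {S : Subgroup G} (hS : IsPGroup 2 S) {b : G}
    (hb : IsConj a b) (hn : b ∈ normalizer (S : Set G)) : b ∈ centralizer (S : Set G) := by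
  obtain ⟨b0, hb0, hc⟩ := h.fix t hS
  obtain ⟨n, hn', rfl⟩ := h.conj_in hb0 hb (centralizer_le_normalizer _ hc) hn
  refine mem_centralizer_iff.2 fun s hs => ?_
  have hs' : n⁻¹ * s * n⁻¹⁻¹ ∈ S := (mem_normalizer_iff.1 (inv_mem hn') s).1 hs
  have e := mem_centralizer_iff.1 hc _ hs'
  calc s * (n * b0 * n⁻¹) = n * (n⁻¹ * s * n⁻¹⁻¹ * b0) * n⁻¹ := by group
    _ = _ := by rw [e]; group

theorem St.odd [Finite G] (h : St r φ a) (t : Tv a τ) {L S : Subgroup G} (hS : IsPGroup 2 S)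
    (hSL : S ≤ L) {b : G} (hb : IsConj a b) (m : b ∈ L) :
    ∃ b' ∈ L, IsConj a b' ∧ b' ∈ centralizer (S : Set G) := by
  obtain ⟨P, hP⟩ := (hS.comap_subtype (K := L)).exists_le_sylow
  have hP2 : IsPGroup 2 ((P : Subgroup L).map L.subtype) := P.isPGroup'.map _
  have hk : (P : Subgroup L) ≤ (φ.comp L.subtype).ker := fun x hx => h.two_ker hP2 ⟨x, hx, rfl⟩
  have hF := Sylow.normalizer_sup_eq_top' P hk
  have hn : ∃ n : L, n ∈ normalizer ((P : Subgroup L) : Set L) ∧ φ n ≠ 1 := by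
    by_contra! hc
    have : normalizer ((P : Subgroup L) : Set L) ≤ (φ.comp L.subtype).ker := fun x hx => hc x hx
    have : (⟨b, m⟩ : L) ∈ (φ.comp L.subtype).ker :=
      (sup_le this le_rfl : _ ≤ (φ.comp L.subtype).ker) (hF.ge (mem_top _))
    exact h.ne ((St.phi_conj (φ := φ) hb).symm.trans this)
  obtain ⟨n, hn, hφ⟩ := hn
  obtain ⟨b', hb', c⟩ := h.pick hφ
  have hnn : (n : G) ∈ normalizer (((P : Subgroup L).map L.subtype : Subgroup G) : Set G) :=
    le_normalizer_map L.subtype ⟨n, hn, rfl⟩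
  refine ⟨b', zpowers_le.2 n.2 hb', c, centralizer_le ?_ (h.cen t hP2 c (zpowers_le.2 hnn hb'))⟩
  intro s hs
  exact ⟨⟨s, hSL hs⟩, hP hs, rfl⟩

/-- an involution inverting `d` -/
theorem conj_of_inv {s d : G} (hd : s * d * s⁻¹ = d⁻¹) (i : ℕ) :
    (d ^ i)⁻¹ * s * (d ^ i)⁻¹⁻¹ = s * d ^ (2 * i) := by
  have e : s * d ^ i * s⁻¹ = (d ^ i)⁻¹ := by rw [← conj_pow, hd, inv_pow]
  rw [inv_inv, ← e, two_mul, pow_add]
  group

theorem conj_of_odd [Finite G] {s d : G} (hd : s * d * s⁻¹ = d⁻¹) (ho : Odd (orderOf d)) (j : ℕ) :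
    ∃ i : ℕ, (d ^ i)⁻¹ * s * (d ^ i)⁻¹⁻¹ = s * d ^ j := by
  obtain ⟨k, hk⟩ := ho
  refine ⟨(k + 1) * j, ?_⟩
  rw [conj_of_inv hd, show 2 * ((k + 1) * j) = (2 * k + 1) * j + j by ring, ← hk, pow_add, pow_mul,
    pow_orderOf_eq_one, one_pow, one_mul]

theorem inv_of_sq {s t : G} (hs : s * s = 1) (ht : t * t = 1) :
    s * (s * t) * s⁻¹ = (s * t)⁻¹ := by
  rw [← mul_assoc, hs, one_mul, mul_inv_rev, inv_eq_of_mul_eq_one_right ht]

theorem sq_of_two {s : G} (hs : orderOf s = 2) : s * s = 1 := by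
  rw [← pow_two, ← hs, pow_orderOf_eq_one]

/-- the half power -/
noncomputable def hv (d : G) : G := d ^ (orderOf d / 2)

theorem hv_ord [Finite G] {d : G} (h : Even (orderOf d)) : orderOf (hv d) = 2 :=
  orderOf_pow_orderOf_div (orderOf_pos d).ne' h.two_dvd

theorem hv_unique [Finite G] {d v : G} (hv2 : orderOf v = 2) (m : v ∈ zpowers d) : hv d = v := by
  obtain ⟨k, rfl⟩ := (mem_powers_iff_mem_zpowers.2 m)
  dsimp only at hv2 ⊢
  have h1 : orderOf d ∣ k * 2 := by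
    rw [orderOf_dvd_iff_pow_eq_one, pow_mul, ← hv2, pow_orderOf_eq_one]
  have h2 : ¬ orderOf d ∣ k := fun h => by
    rw [orderOf_dvd_iff_pow_eq_one.1 h, orderOf_one] at hv2; omega
  obtain ⟨c, hc⟩ := h1
  have hco : Odd c := by
    rcases Nat.even_or_odd c with ⟨c, rfl⟩ | h
    · exact absurd ⟨c, by nlinarith⟩ h2
    · exact h
  obtain ⟨c, rfl⟩ := hco
  have he : 2 ∣ orderOf d := by
    have : 2 ∣ orderOf d * (2 * c + 1) := hc ▸ Dvd.intro_left _ rfl
    exact (Nat.Coprime.dvd_mul_right (by simp)).1 this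
  obtain ⟨m, hm⟩ := he
  have hk : k = orderOf d * c + m := by rw [hm] at hc ⊢; nlinarith
  rw [hv, hk, pow_add, pow_mul, pow_orderOf_eq_one, one_pow, one_mul, hm,
    Nat.mul_div_cancel_left _ two_pos]

theorem hv_comm [Finite G] {s d : G} (hd : s * d * s⁻¹ = d⁻¹) (h : Even (orderOf d)) :
    Commute s (hv d) := by
  have e : s * hv d * s⁻¹ = (hv d)⁻¹ := by rw [hv, ← conj_pow, hd, inv_pow]
  rw [inv_eq_of_mul_eq_one_right (sq_of_two (hv_ord h))] at e
  exact mul_inv_eq_iff_eq_mul.1 e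

end Cfsg.Agent.PG.CopInv
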