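import Mathlib
import Cfsg.Agent.PG.CopInv1

/-!
If an element `a` of odd prime order with a normal complement centralizes the centralizer of an
involution, then `a ∈ O(G)`.
-/

set_option autoImplicit false

namespace Cfsg.Agent.PG.CopInv

open Subgroup Cfsg.Agent.Comp2

universe u

variable {G : Type*} [Group G] {Q : Type*} [CommGroup Q] {r : ℕ} {φ : G →* Q} {a τ : G}

/-- the core of the centralizer -/
def W (v : G) : Subgroup G := (pPrimeCore 2 (centralizer {v})).map (centralizer {v}).subtype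

theorem W_odd [Finite G] (v : G) : Odd (Nat.card (W v)) :=
  Nat.coprime_two_right.1 (pPrimeCore_map_subtype_coprime 2 _)

theorem W_comm {v w : G} (hw : w ∈ W v) : Commute w v := by
  obtain ⟨y, -, rfl⟩ := hw
  exact mem_centralizer_singleton_iff.1 y.2

theorem W_conj {v w x : G} (hw : w ∈ W v) (hx : Commute x v) : x * w * x⁻¹ ∈ W v := by
  obtain ⟨y, hy, rfl⟩ := hw
  haveI := pPrimeCore_characteristic (G := centralizer {v}) 2
  exact ⟨_, (inferInstance : (pPrimeCore 2 (centralizer {v})).Normal).conj_mem y hy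
    ⟨x, mem_centralizer_singleton_iff.2 hx⟩, rfl⟩

theorem ev [Finite G] (t : Tv a τ) {u : G} (hu : orderOf u = 2) (hn : ¬ IsConj τ u) :
    Even (orderOf (τ * u)) := by
  by_contra ho
  obtain ⟨i, hi⟩ := conj_of_odd (inv_of_sq (sq_of_two t.ord) (sq_of_two hu))
    (Nat.not_even_iff_odd.1 ho) 1
  rw [pow_one, ← mul_assoc, sq_of_two t.ord, one_mul] at hi
  exact hn (isConj_iff.2 ⟨_, hi⟩)

theorem hv_left [Finite G] {s t : G} (hs : orderOf s = 2) (ht : orderOf t = 2)
    (h : Even (orderOf (s * t))) : Commute s (hv (s * t)) :=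
  hv_comm (inv_of_sq (sq_of_two hs) (sq_of_two ht)) h

theorem hv_right [Finite G] {s t : G} (hs : orderOf s = 2) (ht : orderOf t = 2)
    (h : Even (orderOf (s * t))) : Commute t (hv (s * t)) := by
  have h1 := hv_left hs ht h
  have h2 : Commute (s * t) (hv (s * t)) := (Commute.refl _).pow_right _
  have := h1.mul_left h2
  rwa [← mul_assoc, sq_of_two hs, one_mul] at this

theorem hv_cls [Finite G] (t : Tv a τ) {u w : G} (hu : orderOf u = 2) (hn : ¬ IsConj τ u)
    (hw : w ∈ W (hv (τ * u))) : hv (τ * (w * u * w⁻¹)) = hv (τ * u) := by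
  have he := ev t hu hn
  have c1 := hv_left t.ord hu he
  have c2 := hv_right t.ord hu he
  have key : ∀ k : ℕ, ∃ w' ∈ W (hv (τ * u)), (τ * (w * u * w⁻¹)) ^ k = (τ * u) ^ k * w' := by
    intro k
    induction k with
    | zero => exact ⟨1, one_mem _, by simp⟩
    | succ k ih =>
      obtain ⟨w', hw', e⟩ := ih
      refine ⟨(τ * u)⁻¹ * w' * (τ * u)⁻¹⁻¹ * (u⁻¹ * w * u⁻¹⁻¹ * w⁻¹),
        mul_mem (W_conj hw' (c1.mul_left c2).inv_left)
          (mul_mem (W_conj hw c2.inv_left) (inv_mem hw)), ?_⟩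
      rw [pow_succ, e, pow_succ]; group
  obtain ⟨w', hw', e⟩ := key (orderOf (τ * u) / 2)
  refine hv_unique (hv_ord he) ?_
  obtain ⟨k, hk⟩ := W_odd (hv (τ * u))
  have e1 : w' ^ (2 * k + 1) = 1 := by
    rw [← hk]; exact congrArg Subtype.val (pow_card_eq_one' (x := (⟨w', hw'⟩ : W _)))
  have e2 : (hv (τ * u) * w') ^ (2 * k + 1) = hv (τ * u) := by
    rw [(W_comm hw').symm.mul_pow, e1, mul_one, pow_succ, pow_mul, pow_two,
      sq_of_two (hv_ord he), one_pow, one_mul]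
  rw [← e2]
  exact pow_mem (by rw [hv, ← e]; exact pow_mem (mem_zpowers _) _) _

section main

variable [Finite G] (h : St r φ a) (t : Tv a τ)
  (ih : ∀ v : G, orderOf v = 2 → Commute v τ → a ∈ W v)
include h t ih

theorem mem_W {v b : G} (hv2 : orderOf v = 2) (hc : Commute v τ) (hb : IsConj a b)
    (hbv : Commute b v) : b ∈ W v := by
  obtain ⟨c, hc', rfl⟩ := h.conj_in (L := centralizer {v}) (IsConj.refl a) hb
    (mem_centralizer_singleton_iff.2 (t.cen v hc).symm) (mem_centralizer_singleton_iff.2 hbv)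
  exact W_conj (ih v hv2 hc) (mem_centralizer_singleton_iff.1 hc')

theorem lemA {u b : G} (hu : orderOf u = 2) (hn : ¬ IsConj τ u) (hb : IsConj a b) :
    ∃ g ∈ W (hv (τ * u)), Commute (g * u * g⁻¹) a → Commute u b := by
  classical
  let κ : G → Set G := fun y => {x | ∃ w ∈ W (hv (τ * y)), w * y * w⁻¹ = x}
  have o2 : ∀ {y}, IsConj u y → orderOf y = 2 := fun hy => (ord_conj hy).trans hu
  have n2 : ∀ {y}, IsConj u y → ¬ IsConj τ y := fun hy h' => hn (h'.trans hy.symm)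
  have κself : ∀ y, y ∈ κ y := fun y => ⟨1, one_mem _, by simp⟩
  have κv : ∀ {y x}, IsConj u y → x ∈ κ y → hv (τ * x) = hv (τ * y) := by
    rintro y x hy ⟨w, hw, rfl⟩
    exact hv_cls t (o2 hy) (n2 hy) hw
  have κeq : ∀ {y x}, IsConj u y → x ∈ κ y → κ x = κ y := by
    intro y x hy hx
    have e := κv hy hx
    obtain ⟨w, hw, rfl⟩ := hx
    ext z
    constructor
    · rintro ⟨w', hw', rfl⟩
      exact ⟨w' * w, mul_mem (e ▸ hw') hw, by group⟩
    · rintro ⟨w', hw', rfl⟩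
      exact ⟨w' * w⁻¹, e ▸ mul_mem hw' (inv_mem hw), by group⟩
  have ch : ∀ C : Set G, ∃ w, ∀ y, IsConj u y → κ y = C →
      w ∈ W (hv (τ * y)) ∧ ∀ x ∈ C, Commute x b → Commute (w * x * w⁻¹) a := by
    intro C
    by_cases hC : ∃ y, IsConj u y ∧ κ y = C
    swap
    · exact ⟨1, fun y hy e => absurd ⟨y, hy, e⟩ hC⟩
    obtain ⟨y, hy, rfl⟩ := hC
    have he := ev t (o2 hy) (n2 hy)
    have c1 := hv_left t.ord (o2 hy) he
    have c2 := hv_right t.ord (o2 hy) he
    obtain ⟨b', hb'L, hb', hb'v⟩ := h.odd t (L := centralizer {x | x ∈ κ y ∧ Commute x b})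
      (S := zpowers (hv (τ * y)))
      (IsPGroup.of_card (n := 1) (by rw [Nat.card_zpowers, hv_ord he, pow_one]))
      (zpowers_le.2 (mem_centralizer_iff.2 (by
        rintro x ⟨⟨w, hw, rfl⟩, -⟩
        exact (((W_comm hw).mul_left c2).mul_left (W_comm hw).inv_left).eq))) hb
      (mem_centralizer_iff.2 fun x hx => hx.2.eq)
    obtain ⟨w, hw, e⟩ := h.conj_in hb' (IsConj.refl a)
      (mem_W h t ih (hv_ord he) c1.symm hb'
        (mem_centralizer_iff.1 hb'v _ (mem_zpowers _)).symm) (ih _ (hv_ord he) c1.symm)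
    refine ⟨w, fun z hz ez => ⟨?_, fun x hx hxb => ?_⟩⟩
    · rwa [κv hy (ez ▸ κself z)]
    · have e1 := mem_centralizer_iff.1 hb'L x ⟨hx, hxb⟩
      rw [← e]
      change w * x * w⁻¹ * (w * b' * w⁻¹) = w * b' * w⁻¹ * (w * x * w⁻¹)
      calc w * x * w⁻¹ * (w * b' * w⁻¹) = w * (x * b') * w⁻¹ := by group
        _ = _ := by rw [e1]; group
  choose g hg using ch
  obtain ⟨c, rfl⟩ := isConj_iff.1 hb
  let X := {y : G // IsConj u y ∧ Commute y a}
  have cc : ∀ y : X, IsConj u (c * y.1 * c⁻¹) := fun y => y.2.1.trans (isConj_iff.2 ⟨c, rfl⟩)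
  have cb : ∀ y : X, Commute (c * y.1 * c⁻¹) (c * a * c⁻¹) := fun y => by
    have e1 := y.2.2.eq
    change c * y.1 * c⁻¹ * (c * a * c⁻¹) = c * a * c⁻¹ * (c * y.1 * c⁻¹)
    calc c * y.1 * c⁻¹ * (c * a * c⁻¹) = c * (y.1 * a) * c⁻¹ := by group
      _ = _ := by rw [e1]; group
  let f : X → X := fun y => ⟨g (κ (c * y.1 * c⁻¹)) * (c * y.1 * c⁻¹) * (g (κ (c * y.1 * c⁻¹)))⁻¹,
    (cc y).trans (isConj_iff.2 ⟨_, rfl⟩), (hg _ _ (cc y) rfl).2 _ (κself _) (cb y)⟩
  have fκ : ∀ y : X, κ (f y).1 = κ (c * y.1 * c⁻¹) := fun y =>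
    κeq (cc y) ⟨_, (hg _ _ (cc y) rfl).1, rfl⟩
  have hinj : Function.Injective f := by
    intro y z e
    have e1 : κ (c * y.1 * c⁻¹) = κ (c * z.1 * c⁻¹) := by rw [← fκ, ← fκ, e]
    have e2 := congrArg Subtype.val e
    dsimp only [f] at e2
    rw [e1] at e2
    exact Subtype.ext (by simpa using e2)
  have hgu := (hg _ u (IsConj.refl u) rfl).1
  refine ⟨_, hgu, fun hc => ?_⟩
  obtain ⟨y, hy⟩ := Finite.injective_iff_surjective.1 hinj
    ⟨g (κ u) * u * (g (κ u))⁻¹, isConj_iff.2 ⟨_, rfl⟩, hc⟩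
  have e1 : κ (c * y.1 * c⁻¹) = κ u := by
    rw [← fκ, hy]; exact κeq (IsConj.refl u) ⟨_, hgu, rfl⟩
  have e2 := congrArg Subtype.val hy
  dsimp only [f] at e2
  rw [e1, mul_left_inj, mul_right_inj] at e2
  exact e2 ▸ cb y

variable (hf : ∀ x : G, (∀ b, IsConj a b → Commute x b) → x = 1)
include hf

theorem lemB {u : G} (hu : orderOf u = 2) (hc : Commute u τ) (hk : IsConj τ (τ * u)) :
    IsConj τ u := by
  by_contra hn
  have hv2 : orderOf (τ * u) = 2 := (ord_conj hk).trans t.ord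
  have e : hv (τ * u) = τ * u := hv_unique hv2 (mem_zpowers _)
  have ca : Commute (τ * u) a := (t.cen τ (Commute.refl τ)).mul_left (t.cen u hc)
  have : u = 1 := hf u fun b hb => by
    obtain ⟨w, hw, hwc⟩ := lemA h t ih hu hn hb
    rw [e] at hw
    have e1 : w * a * w⁻¹ = a := h.uniq' t hk (isConj_iff.2 ⟨w, rfl⟩) (IsConj.refl a)
      (((W_comm hw).symm.mul_right ca).mul_right (W_comm hw).symm.inv_right) ca
    have e2 : Commute w a := mul_inv_eq_iff_eq_mul.1 e1
    exact hwc ((e2.mul_left (t.cen u hc)).mul_left e2.inv_left)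
  rw [this, orderOf_one] at hu
  omega

theorem lemC {s : G} (hs : IsConj τ s) (he : Even (orderOf (τ * s))) : IsConj τ (hv (τ * s)) := by
  have s2 : orderOf s = 2 := (ord_conj hs).trans t.ord
  refine lemB h t ih hf (hv_ord he) (hv_left t.ord s2 he).symm ?_
  have hi := inv_of_sq (sq_of_two t.ord) (sq_of_two s2)
  rcases Nat.even_or_odd' (orderOf (τ * s) / 2) with ⟨k, hk | hk⟩
  · rw [hv, hk, ← conj_of_inv hi]
    exact isConj_iff.2 ⟨_, rfl⟩
  · have hi' : s * (τ * s) * s⁻¹ = (τ * s)⁻¹ := by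
      rw [mul_inv_rev, inv_eq_of_mul_eq_one_right (sq_of_two t.ord), ← mul_assoc,
        mul_inv_cancel_right, inv_eq_of_mul_eq_one_right (sq_of_two s2)]
    have e : τ * hv (τ * s) = s * (τ * s) ^ (2 * k) := by
      rw [hv, hk, pow_succ', ← mul_assoc, ← mul_assoc, sq_of_two t.ord, one_mul]
    rw [e, ← conj_of_inv hi']
    exact hs.trans (isConj_iff.2 ⟨_, rfl⟩)

theorem lemD {s s' b : G} (hs : IsConj τ s) (hs' : IsConj τ s') (hb : IsConj a b) (hba : b ≠ a)
    (c : Commute s b) (c' : Commute s' a) : Odd (orderOf (s * s')) := by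
  by_contra ho
  rw [Nat.not_odd_iff_even] at ho
  have s2 : orderOf s = 2 := (ord_conj hs).trans t.ord
  have s2' : orderOf s' = 2 := (ord_conj hs').trans t.ord
  have hk : IsConj τ (hv (s * s')) := by
    obtain ⟨g, rfl⟩ := isConj_iff.1 hs
    have e : g * τ * g⁻¹ * s' = g * (τ * (g⁻¹ * s' * g⁻¹⁻¹)) * g⁻¹ := by group
    have eo : orderOf (g * τ * g⁻¹ * s') = orderOf (τ * (g⁻¹ * s' * g⁻¹⁻¹)) := by
      rw [e]; exact ord_conj (isConj_iff.2 ⟨g, rfl⟩)
    have := lemC h t ih hf (hs'.trans (isConj_iff.2 ⟨g⁻¹, rfl⟩)) (eo ▸ ho)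
    refine this.trans (isConj_iff.2 ⟨g, ?_⟩)
    rw [hv, hv, eo, e, conj_pow]
  have key : ∀ {x y : G}, IsConj τ x → IsConj a y → Commute x y → Commute x (hv (s * s')) →
      Commute (hv (s * s')) y := fun {x y} hx hy cxy cx => by
    have := h.uniq' t hx (hy.trans (isConj_iff.2 ⟨hv (s * s'), rfl⟩)) hy
      ((cx.mul_right cxy).mul_right cx.inv_right) cxy
    exact mul_inv_eq_iff_eq_mul.1 this
  exact hba (h.uniq' t hk hb (IsConj.refl a) (key hs hb c (hv_left s2 s2' ho))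
    (key hs' (IsConj.refl a) c' (hv_right s2 s2' ho)))

theorem lemE : IsIsolatedInvolution τ := by
  refine ⟨t.ord, fun g hg => ?_⟩
  by_contra hne
  obtain ⟨b, hb, hba⟩ : ∃ b, IsConj a b ∧ b ≠ a := by
    by_contra! hc
    have := hf a fun b hb => by rw [hc b hb]
    exact h.ne (by rw [this, map_one])
  obtain ⟨c, rfl⟩ := isConj_iff.1 hb
  have hs : IsConj τ (c * τ * c⁻¹) := isConj_iff.2 ⟨c, rfl⟩
  have cs : Commute (c * τ * c⁻¹) (c * a * c⁻¹) := by
    have e1 := (t.cen τ (Commute.refl τ)).eq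
    change c * τ * c⁻¹ * (c * a * c⁻¹) = c * a * c⁻¹ * (c * τ * c⁻¹)
    calc c * τ * c⁻¹ * (c * a * c⁻¹) = c * (τ * a) * c⁻¹ := by group
      _ = _ := by rw [e1]; group
  generalize c * τ * c⁻¹ = s at hs cs
  generalize c * a * c⁻¹ = b at hb hba cs
  have s2 : orderOf s = 2 := (ord_conj hs).trans t.ord
  let X := {y : G // IsConj τ y ∧ Commute y a}
  have ex : ∀ y : X, ∃ σ, IsConj τ σ ∧ σ * s * σ⁻¹ = y.1 ∧ σ * b * σ⁻¹ = a := by
    rintro ⟨y, hy, cy⟩
    have y2 : orderOf y = 2 := (ord_conj hy).trans t.ord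
    have ho := lemD h t ih hf hs hy hb hba cs cy
    have hi := inv_of_sq (sq_of_two s2) (sq_of_two y2)
    obtain ⟨i, hi1⟩ := conj_of_odd hi ho 1
    obtain ⟨j, hj⟩ := conj_of_odd hi ho i
    have k1 : IsConj τ (s * (s * y) ^ i) := hs.trans (isConj_iff.2 ⟨_, hj⟩)
    have k2 := inv_eq_of_mul_eq_one_right (sq_of_two ((ord_conj k1).trans t.ord))
    have e : s * (s * y) ^ i * s * (s * (s * y) ^ i)⁻¹ = y := by
      rw [pow_one, ← mul_assoc s, sq_of_two s2, one_mul] at hi1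
      calc s * (s * y) ^ i * s * (s * (s * y) ^ i)⁻¹
          = (s * (s * y) ^ i)⁻¹ * s * (s * (s * y) ^ i) := by rw [k2]
        _ = ((s * y) ^ i)⁻¹ * s * ((s * y) ^ i)⁻¹⁻¹ := by
          generalize (s * y) ^ i = d; group
        _ = y := hi1
    refine ⟨_, k1, e, h.uniq' t hy (hb.trans (isConj_iff.2 ⟨_, rfl⟩)) (IsConj.refl a) ?_ cy⟩
    generalize s * (s * y) ^ i = σ at e
    rw [← e]
    change σ * s * σ⁻¹ * (σ * b * σ⁻¹) = σ * b * σ⁻¹ * (σ * s * σ⁻¹)
    calc σ * s * σ⁻¹ * (σ * b * σ⁻¹) = σ * (s * b) * σ⁻¹ := by group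
      _ = _ := by rw [cs.eq]; group
  choose σ hσ using ex
  have σi : ∀ y, (σ y)⁻¹ = σ y := fun y =>
    inv_eq_of_mul_eq_one_right (sq_of_two ((ord_conj (hσ y).1).trans t.ord))
  have σa : ∀ y, σ y * a * (σ y)⁻¹ = b := fun y => by
    have := (hσ y).2.2
    rw [σi] at this ⊢
    calc σ y * a * σ y = (σ y)⁻¹ * (σ y * b * σ y) * (σ y)⁻¹ := by rw [this, σi]
      _ = b := by group
  let D : Subgroup G := centralizer {a} ⊓ centralizer {b}
  have mD : ∀ x, x ∈ D ↔ x * a * x⁻¹ = a ∧ x * b * x⁻¹ = b := fun x => by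
    simp only [D, mem_inf, mem_centralizer_singleton_iff, mul_inv_eq_iff_eq_mul]
  have σD : ∀ y z, σ y * σ z ∈ D := fun y z => (mD _).2 ⟨by
      rw [mul_inv_rev, show σ y * σ z * a * ((σ z)⁻¹ * (σ y)⁻¹) =
        σ y * (σ z * a * (σ z)⁻¹) * (σ y)⁻¹ by group, σa, (hσ y).2.2], by
      rw [mul_inv_rev, show σ y * σ z * b * ((σ z)⁻¹ * (σ y)⁻¹) =
        σ y * (σ z * b * (σ z)⁻¹) * (σ y)⁻¹ by group, (hσ z).2.2, σa]⟩
  let y0 : X := ⟨τ, IsConj.refl τ, t.cen τ (Commute.refl τ)⟩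
  have aN : a ∈ normalizer (D : Set G) := centralizer_le_normalizer _
    (mem_centralizer_iff.2 fun x hx => mem_centralizer_singleton_iff.1 hx.1)
  have σN : σ y0 ∈ normalizer (D : Set G) := by
    have : ∀ x ∈ D, σ y0 * x * (σ y0)⁻¹ ∈ D := fun x hx => by
      obtain ⟨h1, h2⟩ := (mD x).1 hx
      refine (mD _).2 ⟨?_, ?_⟩
      · calc σ y0 * x * (σ y0)⁻¹ * a * (σ y0 * x * (σ y0)⁻¹)⁻¹
            = σ y0 * (x * ((σ y0)⁻¹ * a * (σ y0)⁻¹⁻¹) * x⁻¹) * (σ y0)⁻¹ := by group
          _ = a := by rw [σi y0, σa, h2]; simpa only [σi] using (hσ y0).2.2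
      · calc σ y0 * x * (σ y0)⁻¹ * b * (σ y0 * x * (σ y0)⁻¹)⁻¹
            = σ y0 * (x * ((σ y0)⁻¹ * b * (σ y0)⁻¹⁻¹) * x⁻¹) * (σ y0)⁻¹ := by group
          _ = b := by rw [σi y0, (hσ y0).2.2, h1]; simpa only [σi] using σa y0
    refine mem_normalizer_iff.2 fun x => ⟨this x, fun hx => ?_⟩
    have := this _ hx
    rwa [show σ y0 * (σ y0 * x * (σ y0)⁻¹) * (σ y0)⁻¹ = (σ y0 * σ y0) * x * (σ y0 * σ y0)⁻¹ by group,
      sq_of_two ((ord_conj (hσ y0).1).trans t.ord), one_mul, inv_one, mul_one] at this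
  obtain ⟨b', hb'N, hb', hc'⟩ := h.odd t (L := normalizer (D : Set G)) (S := zpowers (σ y0))
    (IsPGroup.of_card (n := 1) (by rw [Nat.card_zpowers, ord_conj (hσ y0).1, t.ord, pow_one]))
    (zpowers_le.2 σN) (IsConj.refl a) aN
  obtain ⟨n, hn, en⟩ := h.conj_in hb' (IsConj.refl a) hb'N aN
  have nD : ∀ y z, n * σ y * n⁻¹ * (n * σ z * n⁻¹) ∈ D := fun y z => by
    have := (mem_normalizer_iff.1 hn _).1 (σD y z)
    rwa [show n * (σ y * σ z) * n⁻¹ = n * σ y * n⁻¹ * (n * σ z * n⁻¹) by group] at this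
  have n0 : Commute (n * σ y0 * n⁻¹) a := by
    have e1 := mem_centralizer_iff.1 hc' _ (mem_zpowers _)
    rw [← en]
    change n * σ y0 * n⁻¹ * (n * b' * n⁻¹) = n * b' * n⁻¹ * (n * σ y0 * n⁻¹)
    calc n * σ y0 * n⁻¹ * (n * b' * n⁻¹) = n * (σ y0 * b') * n⁻¹ := by group
      _ = _ := by rw [e1]; group
  let f : X → X := fun y => ⟨n * σ y * n⁻¹, (hσ y).1.trans (isConj_iff.2 ⟨n, rfl⟩), by
    have := (Commute.mul_left (mem_centralizer_singleton_iff.1 (nD y y0).1) n0.inv_left :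
      Commute _ a)
    rwa [mul_inv_cancel_right] at this⟩
  have hinj : Function.Injective f := fun y z e => by
    have e1 : σ y = σ z := by simpa [f] using congrArg Subtype.val e
    exact Subtype.ext (by rw [← (hσ y).2.1, e1, (hσ z).2.1])
  have hsur := Finite.injective_iff_surjective.1 hinj
  obtain ⟨y, hy⟩ := hsur y0
  obtain ⟨z, hz⟩ := hsur ⟨g * τ * g⁻¹, isConj_iff.2 ⟨g, rfl⟩, t.cen _ hg.symm⟩
  have hd : τ * (g * τ * g⁻¹) ∈ D := by
    have := nD y z
    rwa [show n * σ y * n⁻¹ = τ from congrArg Subtype.val hy,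
      show n * σ z * n⁻¹ = g * τ * g⁻¹ from congrArg Subtype.val hz] at this
  have g2 : orderOf (g * τ * g⁻¹) = 2 := (ord_conj (isConj_iff.2 ⟨g, rfl⟩)).trans t.ord
  have o2 : orderOf (τ * (g * τ * g⁻¹)) = 2 := by
    refine orderOf_eq_prime ?_ fun e => hne ?_
    · rw [hg.mul_pow, pow_two, pow_two, sq_of_two t.ord, sq_of_two g2, one_mul]
    · rw [← inv_eq_of_mul_eq_one_right e, inv_eq_of_mul_eq_one_right (sq_of_two t.ord)]
  have hk := lemC h t ih hf (isConj_iff.2 ⟨g, rfl⟩) (by rw [o2]; exact even_two)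
  rw [hv_unique o2 (mem_zpowers _)] at hk
  exact hba (h.uniq' t hk hb (IsConj.refl a) (mem_centralizer_singleton_iff.1 hd.2)
    (mem_centralizer_singleton_iff.1 hd.1))

end main

theorem St.quot [Finite G] (h : St r φ a) (N : Subgroup G) [N.Normal] (ha : a ∉ N) :
    ∃ ψ : G ⧸ N →* Q, St r ψ (a : G ⧸ N) := by
  have hN : N ≤ φ.ker := fun y hy => by
    by_contra hn
    obtain ⟨b, hb, c⟩ := h.pick hn
    obtain ⟨g, rfl⟩ := isConj_iff.1 c.symm
    exact ha ((inferInstance : N.Normal).conj_mem _ (zpowers_le.2 hy hb) g)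
  haveI := Fact.mk h.hr
  refine ⟨QuotientGroup.lift N φ hN, h.hr, h.h2, orderOf_eq_prime ?_ ?_, fun hd =>
    h.sq (hd.trans (card_quotient_dvd_card N)), fun x => ?_, h.ne⟩
  · rw [← QuotientGroup.mk_pow, ← h.ord, pow_orderOf_eq_one, QuotientGroup.mk_one]
  · exact fun e => ha ((QuotientGroup.eq_one_iff a).1 e)
  · obtain ⟨x, rfl⟩ := QuotientGroup.mk_surjective x
    exact h.exp x

theorem ord_quot {N : Subgroup G} [N.Normal] (ho : orderOf τ = 2) (hτ : τ ∉ N) :
    orderOf (τ : G ⧸ N) = 2 :=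
  orderOf_eq_prime (by rw [← QuotientGroup.mk_pow, ← ho, pow_orderOf_eq_one, QuotientGroup.mk_one])
    fun e => hτ ((QuotientGroup.eq_one_iff τ).1 e)

theorem main_aux (n : ℕ) : ∀ {G : Type u} [Group G] [Finite G] {φ : G →* Q} {a τ : G},
    Nat.card G = n → St r φ a → Tv a τ → a ∈ pPrimeCore 2 G := by
  induction n using Nat.strong_induction_on with
  | _ n ih =>
  intro G _ _ φ a τ hn h t
  by_contra hcon
  haveI := pPrimeCore_characteristic (G := G) 2
  have lt : ∀ (N : Subgroup G) [N.Normal], N ≠ ⊥ → Nat.card (G ⧸ N) < n := fun N _ hN => by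
    rw [← hn, card_eq_card_quotient_mul_card_subgroup N]
    exact (Nat.lt_mul_iff_one_lt_right Nat.card_pos).2 (N.one_lt_card_iff_ne_bot.2 hN)
  have hO : pPrimeCore 2 G = ⊥ := by
    by_contra hN
    obtain ⟨ψ, hψ⟩ := h.quot _ hcon
    have odd : ∀ x ∈ pPrimeCore 2 G, Odd (orderOf x) := fun x hx =>
      (Nat.coprime_two_right.1 (pPrimeCore_coprime (G := G) 2)).of_dvd_nat
        (orderOf_dvd_natCard _ hx)
    have hτ : τ ∉ pPrimeCore 2 G := fun hx => by
      have := odd τ hx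
      rw [t.ord] at this
      exact absurd this (by decide)
    have := ih _ (lt _ hN) rfl hψ ⟨ord_quot t.ord hτ, fun x hx => by
      obtain ⟨x, rfl⟩ := QuotientGroup.mk_surjective x
      have x2 : orderOf (x * τ * x⁻¹) = 2 := (ord_conj (isConj_iff.2 ⟨x, rfl⟩)).trans t.ord
      have m : x * τ * x⁻¹ * τ ∈ pPrimeCore 2 G := by
        rw [← QuotientGroup.eq_one_iff]
        simp only [QuotientGroup.mk_mul, QuotientGroup.mk_inv]
        rw [hx.eq, mul_inv_cancel_right, ← QuotientGroup.mk_mul, sq_of_two t.ord,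
          QuotientGroup.mk_one]
      obtain ⟨i, hi⟩ := conj_of_odd (inv_of_sq (sq_of_two x2) (sq_of_two t.ord)) (odd _ m) 1
      rw [pow_one, ← mul_assoc (x * τ * x⁻¹), sq_of_two x2, one_mul] at hi
      have c : Commute (((x * τ * x⁻¹ * τ) ^ i)⁻¹ * x) τ := by
        change _ = _
        calc ((x * τ * x⁻¹ * τ) ^ i)⁻¹ * x * τ
            = ((x * τ * x⁻¹ * τ) ^ i)⁻¹ * (x * τ * x⁻¹) * ((x * τ * x⁻¹ * τ) ^ i)⁻¹⁻¹ *
              (((x * τ * x⁻¹ * τ) ^ i)⁻¹ * x) := by group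
          _ = _ := by rw [hi]
      have c2 := (t.cen _ c).map (QuotientGroup.mk' (pPrimeCore 2 G))
      rwa [map_mul, show QuotientGroup.mk' (pPrimeCore 2 G) ((x * τ * x⁻¹ * τ) ^ i)⁻¹ = 1 from
        (QuotientGroup.eq_one_iff _).2 (inv_mem (pow_mem m i)), one_mul] at c2⟩
    rw [pPrimeCore_quotient_pPrimeCore, mem_bot, QuotientGroup.eq_one_iff] at this
    exact hcon this
  have hodd : ∀ N : Subgroup G, N.Normal → (∀ x ∈ N, Odd (orderOf x)) → N = ⊥ := fun N hN ho => by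
    refine le_bot_iff.1 (hO ▸ le_pPrimeCore (Nat.coprime_two_right.2 ?_))
    by_contra he
    obtain ⟨x, hx⟩ := exists_prime_orderOf_dvd_card' (G := N) 2 (Nat.not_odd_iff_even.1 he).two_dvd
    have := ho x x.2
    rw [Subgroup.orderOf_coe, hx] at this
    exact absurd this (by decide)
  have aodd : Odd (orderOf a) := h.ord ▸ h.hr.odd_of_ne_two h.h2
  have acen : ¬ ∀ b, IsConj a b → b = a := fun hc => by
    have hz : (zpowers a).Normal := ⟨fun y hy g => by
      obtain ⟨k, rfl⟩ := hy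
      dsimp only
      rw [← conj_zpow, hc _ (isConj_iff.2 ⟨g, rfl⟩)]
      exact zpow_mem (mem_zpowers a) k⟩
    have := hodd _ hz fun x hx => aodd.of_dvd_nat (orderOf_dvd_of_mem_zpowers hx)
    exact h.ne (by rw [zpowers_eq_bot.1 this, map_one])
  let A := normalClosure ({a} : Set G)
  have aA : a ∈ A := subset_normalClosure rfl
  have bA : ∀ b, IsConj a b → b ∈ A := fun b hb => by
    obtain ⟨c, rfl⟩ := isConj_iff.1 hb
    exact (inferInstance : A.Normal).conj_mem a aA c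
  have aN : a ∉ centralizer (A : Set G) := fun hx => acen fun b hb => by
    obtain ⟨c, hc, rfl⟩ := h.conj_in (IsConj.refl a) hb aA (bA b hb)
    rw [mem_centralizer_iff.1 hx c hc, mul_inv_cancel_right]
  have hN : centralizer (A : Set G) = ⊥ := by
    by_contra hN
    obtain ⟨ψ, hψ⟩ := h.quot _ aN
    have hτ : τ ∉ centralizer (A : Set G) := fun hx => acen fun b hb =>
      h.uniq t hb (mem_centralizer_iff.1 hx b (bA b hb)).symm
    have h1 := ih _ (lt _ hN) rfl hψ ⟨ord_quot t.ord hτ, fun x hx => by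
      obtain ⟨x, rfl⟩ := QuotientGroup.mk_surjective x
      have m : x * τ * x⁻¹ * τ⁻¹ ∈ centralizer (A : Set G) := by
        rw [← QuotientGroup.eq_one_iff]
        simp only [QuotientGroup.mk_mul, QuotientGroup.mk_inv]
        rw [hx.eq]; group
      have c : Commute (x * τ * x⁻¹ * τ⁻¹) a := (mem_centralizer_iff.1 m a aA).symm
      have c2 := c.mul_left (t.cen τ (Commute.refl τ))
      rw [inv_mul_cancel_right] at c2
      exact (h.of_conj t c2).map (QuotientGroup.mk' _)⟩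
    haveI := pPrimeCore_characteristic (G := G ⧸ centralizer (A : Set G)) 2
    have h2 : A ≤ (pPrimeCore 2 _).comap (QuotientGroup.mk' (centralizer (A : Set G))) :=
      normalClosure_le_normal (Set.singleton_subset_iff.2 h1)
    have h3 : Odd (center A).index := by
      have e : center A = ((QuotientGroup.mk' (centralizer (A : Set G))).comp A.subtype).ker := by
        ext x
        simp only [MonoidHom.mem_ker, MonoidHom.comp_apply, QuotientGroup.mk'_apply, coe_subtype,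
          QuotientGroup.eq_one_iff, mem_center_iff, mem_centralizer_iff]
        exact ⟨fun hx y hy => congrArg Subtype.val (hx ⟨y, hy⟩), fun hx y => Subtype.ext (hx y y.2)⟩
      rw [e, index_ker]
      refine (Nat.coprime_two_right.1 (pPrimeCore_coprime 2)).of_dvd_nat (card_dvd_of_le ?_)
      rintro _ ⟨x, rfl⟩
      exact h2 x.2
    let f := MonoidHom.transferCenterPow A
    have hk : (f.ker.map A.subtype) = ⊥ := by
      have mk : ∀ x, x ∈ f.ker.map A.subtype ↔ x ∈ A ∧ x ^ (center A).index = 1 := fun x => by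
        constructor
        · rintro ⟨y, hy, rfl⟩
          refine ⟨y.2, ?_⟩
          have := congrArg (fun z : center A => ((z : A) : G)) (MonoidHom.mem_ker.1 hy)
          simpa [f] using this
        · rintro ⟨h1, h2⟩
          refine ⟨⟨x, h1⟩, MonoidHom.mem_ker.2 (Subtype.ext (Subtype.ext ?_)), rfl⟩
          simpa [f] using h2
      refine hodd _ ⟨fun x hx g => (mk _).2 ⟨(inferInstance : A.Normal).conj_mem x ((mk x).1 hx).1 g,
        by rw [conj_pow, ((mk x).1 hx).2]; group⟩⟩ fun x hx =>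
        h3.of_dvd_nat (orderOf_dvd_of_pow_eq_one ((mk x).1 hx).2)
    have hinj : Function.Injective f :=
      (MonoidHom.ker_eq_bot_iff f).1 ((map_eq_bot_iff_of_injective _ A.subtype_injective).1 hk)
    refine aN (mem_centralizer_iff.2 fun x hx => ?_)
    have : (⟨x, hx⟩ : A) * ⟨a, aA⟩ = ⟨a, aA⟩ * ⟨x, hx⟩ := hinj (by
      rw [map_mul, map_mul]; exact Subtype.ext (mem_center_iff.1 (f _).2 _))
    exact congrArg Subtype.val this
  have hf : ∀ x : G, (∀ b, IsConj a b → Commute x b) → x = 1 := fun x hx => by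
    rw [← mem_bot, ← hN]
    have : A ≤ centralizer {x} := by
      rw [show A = closure (Group.conjugatesOfSet {a}) from rfl, closure_le]
      intro b hb
      obtain ⟨_, e, hb'⟩ := Group.mem_conjugatesOfSet_iff.1 hb
      rw [Set.mem_singleton_iff.1 e] at hb'
      exact mem_centralizer_singleton_iff.2 (hx b hb').symm
    exact mem_centralizer_iff.2 fun y hy => mem_centralizer_singleton_iff.1 (this hy)
  have ihv : ∀ v : G, orderOf v = 2 → Commute v τ → a ∈ W v := fun v hv hc => by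
    have ha : a ∈ centralizer {v} := mem_centralizer_singleton_iff.2 (t.cen v hc).symm
    have hτ : τ ∈ centralizer {v} := mem_centralizer_singleton_iff.2 hc.symm
    have hlt : Nat.card (centralizer ({v} : Set G)) < n := by
      rw [← hn]
      refine (Nat.le_of_dvd Nat.card_pos (card_subgroup_dvd_card _)).lt_of_ne fun e => ?_
      have e1 := eq_top_of_card_eq _ e
      have := hf v fun b _ => (mem_centralizer_singleton_iff.1 (e1.ge (mem_top b))).symm
      rw [this, orderOf_one] at hv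
      omega
    exact ⟨_, ih _ hlt rfl (h.sub ha) (τ := ⟨τ, hτ⟩) ⟨by rw [← Subgroup.orderOf_coe]; exact t.ord,
      fun x hx => Subtype.ext (t.cen x (congrArg Subtype.val hx.eq)).eq⟩, rfl⟩
  have := hf τ fun b _ =>
    (mem_center_iff.1 (Block.zstar_center (lemE h t ihv hf) hO) b).symm
  have o := t.ord
  rw [this, orderOf_one] at o
  omega

theorem main [Finite G] (h : St r φ a) (t : Tv a τ) : a ∈ pPrimeCore 2 G := main_aux _ rfl h t

end Cfsg.Agent.PG.CopInv
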