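import Mathlib

/-! Linear spaces, collineations, hyperplanes and elations. -/

set_option autoImplicit false

namespace Cfsg.Agent.PG

/-- a thick linear space satisfying the Veblen–Young axiom -/
structure LS (X : Type*) where
  ln : X → X → Set X
  l_left : ∀ {x y : X}, x ≠ y → x ∈ ln x y
  l_right : ∀ {x y : X}, x ≠ y → y ∈ ln x y
  l_eq : ∀ {x y a b : X}, x ≠ y → a ≠ b → a ∈ ln x y → b ∈ ln x y → ln a b = ln x y
  three : ∀ {x y : X}, x ≠ y → ∃ z ∈ ln x y, z ≠ x ∧ z ≠ y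
  nondeg : ∃ a b x : X, a ≠ b ∧ x ∉ ln a b
  vy : ∀ {x a b a' b' : X}, a ≠ b → x ∉ ln a b → a' ∈ ln x a → a' ≠ x → b' ∈ ln x b → b' ≠ x →
    ∃ c ∈ ln a b, c ∈ ln a' b'

namespace LS

variable {X : Type*} (L : LS X)

theorem comm {x y : X} (h : x ≠ y) : L.ln x y = L.ln y x :=
  L.l_eq h.symm h (L.l_right h.symm) (L.l_left h.symm)

theorem ne_left {a b x : X} (h : a ≠ b) (hx : x ∉ L.ln a b) : x ≠ a := fun e => hx (by rw [e]; exact L.l_left h)

theorem ne_right {a b x : X} (h : a ≠ b) (hx : x ∉ L.ln a b) : x ≠ b :=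
  fun e => hx (by rw [e]; exact L.l_right h)

theorem eq_l {x y z : X} (h : x ≠ y) (hz : z ∈ L.ln x y) (hzx : z ≠ x) : L.ln x z = L.ln x y :=
  L.l_eq h hzx.symm (L.l_left h) hz

/-- two distinct lines meet in at most one point -/
theorem meet {a b a' b' c d u : X} (h : a ≠ b) (h' : a' ≠ b') (hc : c ∈ L.ln a b)
    (hc' : c ∈ L.ln a' b') (hd : d ∈ L.ln a b) (hd' : d ∈ L.ln a' b') (hu : u ∈ L.ln a b)
    (hu' : u ∉ L.ln a' b') : c = d := by
  by_contra hcd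
  rw [← L.l_eq h hcd hc hd, L.l_eq h' hcd hc' hd'] at hu
  exact hu' hu

theorem rot {a b x : X} (h : a ≠ b) (hx : x ∉ L.ln a b) : b ∉ L.ln x a := fun hb =>
  hx (by
    have h1 := L.ne_left h hx
    rw [L.l_eq h1 h (L.l_right h1) hb]; exact L.l_left h1)

theorem swap {a b x : X} (h : a ≠ b) (hx : x ∉ L.ln a b) : x ∉ L.ln b a := L.comm h ▸ hx

theorem exists_off {a b : X} (h : a ≠ b) : ∃ x, x ∉ L.ln a b := by
  by_contra hc
  push Not at hc
  obtain ⟨a', b', x, h', hx⟩ := L.nondeg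
  exact hx (L.l_eq h h' (hc a') (hc b') ▸ hc x)

/-- collineation -/
def Col (σ : Equiv.Perm X) : Prop := ∀ x y z, x ≠ y → z ∈ L.ln x y → σ z ∈ L.ln (σ x) (σ y)

/-- `z` is a centre -/
def Cen (σ : Equiv.Perm X) (z : X) : Prop := σ z = z ∧ ∀ P, P ≠ z → σ P ∈ L.ln z P

/-- hyperplane -/
structure Hyp (H : Set X) : Prop where
  sub : ∀ {a b : X}, a ∈ H → b ∈ H → a ≠ b → L.ln a b ⊆ H
  meet : ∀ {a b : X}, a ≠ b → ∃ c ∈ L.ln a b, c ∈ H
  ne : ∃ O, O ∉ H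

/-- elation with axis `H`, or the identity -/
def El (H : Set X) (σ : Equiv.Perm X) : Prop :=
  L.Col σ ∧ (∀ h ∈ H, σ h = h) ∧ (σ = 1 ∨ ∀ P, P ∉ H → σ P ≠ P)

variable {L}

theorem Col.mul {σ τ : Equiv.Perm X} (h : L.Col σ) (h' : L.Col τ) : L.Col (σ * τ) :=
  fun x y z hxy hz => h _ _ _ (τ.injective.ne hxy) (h' x y z hxy hz)

theorem col_one : L.Col 1 := fun _ _ _ _ hz => hz

theorem Col.pow {σ : Equiv.Perm X} (h : L.Col σ) (n : ℕ) : L.Col (σ ^ n) := by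
  induction n with
  | zero => exact col_one
  | succ n ih => rw [pow_succ]; exact ih.mul h

theorem Col.inv [Finite X] {σ : Equiv.Perm X} (h : L.Col σ) : L.Col σ⁻¹ := by
  have h1 : σ⁻¹ = σ ^ (orderOf σ - 1) := by
    have := orderOf_pos σ
    apply inv_eq_of_mul_eq_one_right
    rw [← pow_succ', Nat.sub_add_cancel this, pow_orderOf_eq_one]
  rw [h1]; exact h.pow _

theorem Cen.mul {σ τ : Equiv.Perm X} {z : X} (h : L.Cen σ z) (h' : L.Cen τ z) : L.Cen (σ * τ) z := by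
  refine ⟨by simp [h.1, h'.1], fun P hP => ?_⟩
  have h1 : τ P ≠ z := fun e => hP (τ.injective (e.trans h'.1.symm))
  have h2 := h.2 _ h1
  rwa [L.eq_l hP.symm (h'.2 P hP) h1] at h2

theorem Cen.inv {σ : Equiv.Perm X} {z : X} (h : L.Cen σ z) : L.Cen σ⁻¹ z := by
  refine ⟨by rw [Equiv.Perm.inv_eq_iff_eq, h.1], fun P hP => ?_⟩
  have h1 : σ⁻¹ P ≠ z := fun e => hP (by rw [Equiv.Perm.inv_eq_iff_eq] at e; rw [e, h.1])
  have h2 := h.2 _ h1
  rw [show σ (σ⁻¹ P) = P by simp] at h2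
  rw [L.eq_l h1.symm h2 hP]; exact L.l_right h1.symm

theorem cen_one (z : X) : L.Cen 1 z := ⟨rfl, fun _ hP => L.l_right hP.symm⟩

theorem Cen.line {σ : Equiv.Perm X} {z a b P : X} (h : L.Cen σ z) (hab : a ≠ b) (hz : z ∈ L.ln a b)
    (hP : P ∈ L.ln a b) : σ P ∈ L.ln a b := by
  by_cases e : P = z
  · rw [e, h.1]; exact hz
  · rw [← L.l_eq hab (Ne.symm e) hz hP]; exact h.2 P e

theorem two_cen {σ : Equiv.Perm X} {u w : X} (hσ : L.Col σ) (hu : L.Cen σ u) (hw : L.Cen σ w)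
    (h : u ≠ w) : σ = 1 := by
  have off : ∀ P, P ∉ L.ln u w → σ P = P := by
    intro P hP
    have h1 := L.ne_left h hP
    have h2 := L.ne_right h hP
    refine L.meet h1.symm h2.symm (hu.2 P h1) (hw.2 P h2) (L.l_right h1.symm) (L.l_right h2.symm)
      (L.l_left h1.symm) (fun hc => hP ?_)
    rw [L.l_eq h2.symm h hc (L.l_left h2.symm)]; exact L.l_right h2.symm
  ext P
  show σ P = P
  by_cases hP : P ∈ L.ln u w
  swap
  · exact off P hP
  obtain ⟨R, hR⟩ := L.exists_off h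
  have hPR : P ≠ R := fun e => hR (e ▸ hP)
  obtain ⟨R', hR', h1, h2⟩ := L.three hPR
  have h3 : R' ∉ L.ln u w := fun hc => h1 (L.meet hPR h hR' hc (L.l_left hPR) hP (L.l_right hPR) hR)
  have h4 := L.l_eq hPR h2 hR' (L.l_right hPR)
  have h5 := hσ R' R P h2 (h4 ▸ L.l_left hPR)
  rw [off R' h3, off R hR, h4] at h5
  exact L.meet hPR h h5 (hu.line h (L.l_left h) hP) (L.l_left hPR) hP (L.l_right hPR) hR

theorem Hyp.uniq {H : Set X} (hH : L.Hyp H) {a b c d P : X} (h : a ≠ b) (hP : P ∈ L.ln a b)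
    (hPH : P ∉ H) (hc : c ∈ L.ln a b) (hd : d ∈ L.ln a b) (hcH : c ∈ H) (hdH : d ∈ H) : c = d := by
  by_contra hcd
  exact hPH (hH.sub hcH hdH hcd (L.l_eq h hcd hc hd ▸ hP))

theorem Hyp.cen_of_fix {H : Set X} (hH : L.Hyp H) {σ : Equiv.Perm X} (hσ : L.Col σ)
    (hfix : ∀ h ∈ H, σ h = h) {O : X} (hO : O ∉ H) (hσO : σ O = O) : L.Cen σ O := by
  refine ⟨hσO, fun P hP => ?_⟩
  obtain ⟨c, hc, hcH⟩ := hH.meet hP.symm
  have h1 : c ≠ O := fun e => hO (e ▸ hcH)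
  have h2 := L.eq_l hP.symm hc h1
  have h3 := hσ O c P h1.symm (h2 ▸ L.l_right hP.symm)
  rwa [hσO, hfix c hcH, h2] at h3

theorem El.cen {H : Set X} (hH : L.Hyp H) {σ : Equiv.Perm X} (hσ : L.El H σ) {O z : X} (hO : O ∉ H)
    (hz : z ∈ H) (hzO : σ O ∈ L.ln z O) : L.Cen σ z := by
  obtain ⟨hc, hfix, h1 | hmov⟩ := hσ
  · rw [h1]; exact cen_one z
  have stab : ∀ P, P ∉ H → ∀ R ∈ L.ln P (σ P), σ R ∈ L.ln P (σ P) := by
    intro P hP R hR
    have hne := (hmov P hP).symm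
    obtain ⟨c, hc1, hcH⟩ := hH.meet hne
    have h2 : c ≠ P := fun e => hP (e ▸ hcH)
    have h3 := L.eq_l hne hc1 h2
    have h4 := hc P c R h2.symm (h3 ▸ hR)
    rw [hfix c hcH] at h4
    have h5 : σ P ≠ c := fun e => h2 (σ.injective ((hfix c hcH).trans e.symm))
    rwa [L.l_eq hne h5 (L.l_right hne) hc1] at h4
  have hzO' : z ≠ O := fun e => hO (e ▸ hz)
  have hOO := (hmov O hO).symm
  have lO : L.ln O (σ O) = L.ln z O := L.l_eq hzO' hOO (L.l_right hzO') hzO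
  refine ⟨hfix z hz, fun P hPz => ?_⟩
  by_cases hP : P ∈ H
  · rw [hfix P hP]; exact L.l_right hPz.symm
  by_cases hPO : P ∈ L.ln O (σ O)
  · have := stab O hO P hPO
    rw [lO] at this hPO
    rwa [L.eq_l hzO' hPO hPz]
  have hOP := (L.ne_left hOO hPO).symm
  obtain ⟨w, hw, hwH⟩ := hH.meet hOP
  have hwO : w ≠ O := fun e => hO (e ▸ hwH)
  have e1 : L.ln w O = L.ln O P := L.l_eq hOP hwO hw (L.l_left hOP)
  have hw' : w ∉ L.ln O (σ O) := fun hc' => hPO (by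
    rw [← L.l_eq hOO hwO hc' (L.l_left hOO), e1]; exact L.l_right hOP)
  have m1 : P ∈ L.ln w O := e1 ▸ L.l_right hOP
  have m2 := hc w O P hwO m1
  rw [hfix w hwH] at m2
  have hPw : P ≠ w := fun e => hP (e ▸ hwH)
  have hPw' : σ P ≠ w := fun e => hPw (σ.injective (e.trans (hfix w hwH).symm))
  obtain ⟨c, c1, c2⟩ := L.vy hOO hw' m1 hPw m2 hPw'
  have hPP := (hmov P hP).symm
  have c3 : σ c = c := L.meet hPP hOO (stab P hP c c2) (stab O hO c c1) c2 c1 (L.l_left hPP) hPO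
  have c4 : c ∈ H := by by_contra hc'; exact hmov c hc' c3
  have c5 : c = z := hH.uniq hOO (L.l_left hOO) hO c1 (lO ▸ L.l_left hzO') c4 hz
  rw [c5] at c2
  rw [L.l_eq hPP hPz.symm c2 (L.l_left hPP)]; exact L.l_right hPP

theorem El.exists_cen {H : Set X} (hH : L.Hyp H) {σ : Equiv.Perm X} (hσ : L.El H σ) (h1 : σ ≠ 1) :
    ∃ z ∈ H, L.Cen σ z := by
  obtain ⟨O, hO⟩ := hH.ne
  have hne := ((hσ.2.2.resolve_left h1) O hO).symm
  obtain ⟨z, hz, hzH⟩ := hH.meet hne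
  have h2 : z ≠ O := fun e => hO (e ▸ hzH)
  exact ⟨z, hzH, hσ.cen hH hO hzH (by
    rw [L.l_eq hne h2 hz (L.l_left hne)]; exact L.l_right hne)⟩

theorem El.not_mem {H : Set X} {σ : Equiv.Perm X} (hσ : L.El H σ) {P : X} (hP : P ∉ H) :
    σ P ∉ H := fun h => hP (by
  have := σ.injective (hσ.2.1 _ h)
  rwa [← this])

theorem el_one (H : Set X) : L.El H 1 := ⟨col_one, fun _ _ => rfl, Or.inl rfl⟩

theorem El.eq_one {H : Set X} {σ : Equiv.Perm X} (hσ : L.El H σ) {P : X} (hP : P ∉ H)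
    (h : σ P = P) : σ = 1 := hσ.2.2.resolve_right fun h' => h' P hP h

theorem El.mul {H : Set X} (hH : L.Hyp H) {s t : Equiv.Perm X} (hs : L.El H s) (ht : L.El H t) :
    L.El H (s * t) := by
  refine ⟨hs.1.mul ht.1, fun h hh => by simp [hs.2.1 h hh, ht.2.1 h hh], ?_⟩
  by_cases h1 : t = 1
  · rw [h1, mul_one]; exact hs.2.2
  rw [or_iff_not_imp_right]
  intro hc
  push Not at hc
  obtain ⟨O, hO, hfix⟩ := hc
  obtain ⟨z, hz, hzc⟩ := ht.exists_cen hH h1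
  have hzO : O ≠ z := fun e => hO (e ▸ hz)
  have h2 := hzc.2 O hzO
  have h3 := ht.not_mem hO
  have h4 : t O ≠ z := fun e => h3 (e ▸ hz)
  have h5 : L.Cen s z := hs.cen hH h3 hz (by
    rw [show s (t O) = O from hfix, L.eq_l hzO.symm h2 h4]; exact L.l_right hzO.symm)
  exact two_cen (hs.1.mul ht.1) (h5.mul hzc) (hH.cen_of_fix (hs.1.mul ht.1)
    (fun h hh => by simp [hs.2.1 h hh, ht.2.1 h hh]) hO hfix) hzO.symm

theorem El.inv [Finite X] {H : Set X} {s : Equiv.Perm X} (hs : L.El H s) : L.El H s⁻¹ := by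
  refine ⟨hs.1.inv, fun h hh => by rw [Equiv.Perm.inv_eq_iff_eq, hs.2.1 h hh], ?_⟩
  rcases hs.2.2 with h | h
  · left; rw [h, inv_one]
  · right
    intro P hP e
    rw [Equiv.Perm.inv_eq_iff_eq] at e
    exact h P hP e.symm

theorem El.uniq [Finite X] {H : Set X} (hH : L.Hyp H) {s t : Equiv.Perm X} (hs : L.El H s)
    (ht : L.El H t) {O : X} (hO : O ∉ H) (h : s O = t O) : s = t := by
  have := (ht.inv.mul hH hs).eq_one hO (by simp [h])
  exact (inv_mul_eq_one.1 this).symm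

theorem Hyp.image [Finite X] {H : Set X} (hH : L.Hyp H) {g : Equiv.Perm X} (hg : L.Col g) :
    L.Hyp (g '' H) := by
  refine ⟨?_, ?_, ?_⟩
  · rintro _ _ ⟨a, ha, rfl⟩ ⟨b, hb, rfl⟩ hab c hc
    have h1 := hg.inv _ _ _ hab hc
    simp only [Equiv.Perm.coe_inv, Equiv.symm_apply_apply] at h1
    exact ⟨_, hH.sub ha hb (fun e => hab (congrArg g e)) h1, by simp⟩
  · intro a b hab
    have h1 : g⁻¹ a ≠ g⁻¹ b := g⁻¹.injective.ne hab
    obtain ⟨c, hc, hcH⟩ := hH.meet h1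
    have := hg _ _ _ h1 hc
    simp only [Equiv.Perm.coe_inv, Equiv.apply_symm_apply] at this
    exact ⟨_, this, c, hcH, rfl⟩
  · obtain ⟨O, hO⟩ := hH.ne
    exact ⟨g O, fun ⟨a, ha, e⟩ => hO (g.injective e ▸ ha)⟩

theorem El.conj [Finite X] {H : Set X} {s g : Equiv.Perm X} (hs : L.El H s) (hg : L.Col g) :
    L.El (g '' H) (g * s * g⁻¹) := by
  refine ⟨(hg.mul hs.1).mul hg.inv, ?_, ?_⟩
  · rintro _ ⟨a, ha, rfl⟩
    simp [hs.2.1 a ha]
  · rcases hs.2.2 with h | h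
    · left; simp [h]
    · right
      intro P hP e
      refine h (g⁻¹ P) (fun h' => hP ⟨_, h', by simp⟩) ?_
      apply g.injective
      simpa using e

theorem Cen.conj [Finite X] {s g : Equiv.Perm X} {z : X} (hs : L.Cen s z) (hg : L.Col g) :
    L.Cen (g * s * g⁻¹) (g z) := by
  refine ⟨by simp [hs.1], fun P hP => ?_⟩
  have h1 : g⁻¹ P ≠ z := fun e => hP (by rw [← e]; simp)
  have := hg _ _ _ h1.symm (hs.2 _ h1)
  simpa using this

end LS

end Cfsg.Agent.PG
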