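import Mathlib
import Cfsg.Agent.PG.Artin

/-! Geometric partitions (spreads) of finite abelian groups and their kernels. -/

set_option autoImplicit false

namespace Cfsg.Agent.PG

/-- a geometric partition of an abelian group -/
structure Spr (T ι : Type*) [AddCommGroup T] where
  c : ι → AddSubgroup T
  disj : ∀ {i j : ι}, i ≠ j → ∀ {x : T}, x ∈ c i → x ∈ c j → x = 0
  cover : ∀ x, ∃ i, x ∈ c i
  card_eq : ∀ i j, Nat.card (c i) = Nat.card (c j)
  ne_bot : ∀ i, ∃ x ∈ c i, x ≠ 0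
  clos : ∀ {i j k : ι}, i ≠ j → ∀ {x : T}, x ∈ c k → x ≠ 0 → x ∈ c i ⊔ c j → c k ≤ c i ⊔ c j
  two : ∃ i j : ι, i ≠ j

theorem card_sup_disj {T : Type*} [AddCommGroup T] (A B : AddSubgroup T)
    (h : ∀ x, x ∈ A → x ∈ B → x = 0) : Nat.card ↥(A ⊔ B) = Nat.card A * Nat.card B := by
  rw [← Nat.card_prod]
  symm
  refine Nat.card_congr (Equiv.ofBijective (fun p : A × B => (⟨p.1 + p.2,
    AddSubgroup.add_mem_sup p.1.2 p.2.2⟩ : ↥(A ⊔ B))) ⟨?_, ?_⟩)
  · rintro ⟨a, b⟩ ⟨a', b'⟩ hab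
    have h1 : (a : T) + b = a' + b' := congrArg Subtype.val hab
    have h2 : (a : T) - a' = 0 := h _ (A.sub_mem a.2 a'.2) (by
      have : (a : T) - a' = b' - b := by linear_combination (norm := abel1) h1
      rw [this]; exact B.sub_mem b'.2 b.2)
    have h3 : a = a' := Subtype.ext (sub_eq_zero.1 h2)
    subst h3
    have h4 : b = b' := Subtype.ext (add_left_cancel h1)
    rw [h4]
  · rintro ⟨x, hx⟩
    obtain ⟨a, ha, b, hb, rfl⟩ := AddSubgroup.mem_sup.1 hx
    exact ⟨(⟨a, ha⟩, ⟨b, hb⟩), rfl⟩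

namespace Spr

variable {T ι : Type*} [AddCommGroup T] (S : Spr T ι)

theorem eq_of_mem {i j : ι} {x : T} (h0 : x ≠ 0) (hi : x ∈ S.c i) (hj : x ∈ S.c j) : i = j := by
  by_contra h; exact h0 (S.disj h hi hj)

theorem card_sup {i j : ι} (h : i ≠ j) (k : ι) :
    Nat.card ↥(S.c i ⊔ S.c j) = Nat.card (S.c k) * Nat.card (S.c k) := by
  rw [card_sup_disj _ _ (fun x => S.disj h), S.card_eq i k, S.card_eq j k]

theorem sup_eq [Finite T] {i j k l : ι} (h : i ≠ j) (h' : k ≠ l) (hk : S.c k ≤ S.c i ⊔ S.c j)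
    (hl : S.c l ≤ S.c i ⊔ S.c j) : S.c k ⊔ S.c l = S.c i ⊔ S.c j :=
  AddSubgroup.eq_of_le_of_card_ge (sup_le hk hl) (by rw [S.card_sup h i, S.card_sup h' i])

/-- the index of a component containing `x` -/
noncomputable def k (x : T) : ι := (S.cover x).choose

theorem mem_k (x : T) : x ∈ S.c (S.k x) := (S.cover x).choose_spec

theorem k_eq {x : T} {i : ι} (h0 : x ≠ 0) (h : x ∈ S.c i) : S.k x = i :=
  S.eq_of_mem h0 (S.mem_k x) h

include S in
theorem exists_ne (i : ι) : ∃ j, j ≠ i := by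
  obtain ⟨a, b, hab⟩ := S.two
  by_cases h : a = i
  · exact ⟨b, fun hb => hab (h.trans hb.symm)⟩
  · exact ⟨a, h⟩

/-- the kernel -/
def Ker : Subring (AddMonoid.End T) where
  carrier := {φ | ∀ i x, x ∈ S.c i → φ x ∈ S.c i}
  mul_mem' := fun ha hb i x hx => ha i _ (hb i x hx)
  one_mem' := fun _ _ hx => hx
  add_mem' := fun ha hb i x hx => (S.c i).add_mem (ha i x hx) (hb i x hx)
  zero_mem' := fun i _ _ => (S.c i).zero_mem
  neg_mem' := fun ha i x hx => (S.c i).neg_mem (ha i x hx)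

theorem ker_inj {φ : AddMonoid.End T} (hφ : φ ∈ S.Ker) {x : T} (h0 : x ≠ 0) (hx : φ x = 0) :
    φ = 0 := by
  have key : ∀ t, t ≠ 0 → φ t = 0 → ∀ s, s ∉ S.c (S.k t) → φ s = 0 := by
    intro t ht hφt s hs
    have h1 := hφ _ _ (S.mem_k s)
    have h2 := hφ _ _ (S.mem_k (s + t))
    rw [map_add, hφt, add_zero] at h2
    refine S.disj (fun h => hs ?_) h1 h2
    have h3 : t ∈ S.c (S.k s) := by
      have := (S.c _).sub_mem (h ▸ S.mem_k (s + t)) (S.mem_k s)
      simpa using this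
    rw [S.k_eq ht h3]; exact S.mem_k s
  obtain ⟨j, hj⟩ := S.exists_ne (S.k x)
  obtain ⟨s, hs, hs0⟩ := S.ne_bot j
  have hs' : s ∉ S.c (S.k x) := fun h => hj (S.eq_of_mem hs0 hs h)
  have h1 := key x h0 hx s hs'
  ext y
  by_cases hy : y ∈ S.c (S.k x)
  · by_cases hy0 : y = 0
    · simp [hy0]
    exact key s hs0 h1 y (fun h => hj ((S.k_eq hs0 hs).symm.trans (S.eq_of_mem hy0 h hy)))
  · exact key x h0 hx y hy

/-- the kernel is transitive on the non-zero vectors of a component -/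
def Full : Prop := ∃ i, ∀ t ∈ S.c i, t ≠ 0 → ∀ t' ∈ S.c i, ∃ φ ∈ S.Ker, φ t = t'

theorem field_of_full [Finite T] (h : S.Full) :
    ∃ (F : Type) (_ : Field F) (_ : Fintype F) (_ : Module F T),
      ∀ i, ∀ s ∈ S.c i, s ≠ 0 → ∀ x, x ∈ S.c i ↔ ∃ a : F, x = a • s := by
  classical
  obtain ⟨i0, h⟩ := h
  obtain ⟨t, ht, ht0⟩ := S.ne_bot i0
  haveI : Finite (AddMonoid.End T) := Finite.of_injective (fun φ : AddMonoid.End T => (φ : T → T))
    DFunLike.coe_injective
  haveI : Nontrivial S.Ker := ⟨⟨0, 1, fun h01 => ht0 (by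
    have := congrArg (fun φ : S.Ker => (φ : AddMonoid.End T) t) h01
    simpa using this.symm)⟩⟩
  haveI : NoZeroDivisors S.Ker := ⟨fun {a b} hab => by
    by_cases hb : b = 0
    · exact Or.inr hb
    left
    have h1 : (b : AddMonoid.End T) t ≠ 0 := fun h0 => hb (Subtype.ext (S.ker_inj b.2 ht0 h0))
    have h2 : (a : AddMonoid.End T) ((b : AddMonoid.End T) t) = 0 := by
      have := congrArg (fun φ : S.Ker => (φ : AddMonoid.End T) t) hab
      simpa using this
    exact Subtype.ext (S.ker_inj a.2 h1 h2)⟩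
  haveI : IsDomain S.Ker := NoZeroDivisors.to_isDomain _
  have hF := Finite.isDomain_to_isField S.Ker
  let ev : ∀ j, ∀ s ∈ S.c j, S.Ker → S.c j := fun j s hs φ => ⟨φ.1 s, φ.2 j s hs⟩
  have hinj : ∀ j s hs, s ≠ 0 → Function.Injective (ev j s hs) := by
    intro j s hs hs0 a b hab
    have h1 : (a : AddMonoid.End T) s = (b : AddMonoid.End T) s := congrArg Subtype.val hab
    have h2 := S.ker_inj (a - b).2 hs0 (by
      show (a : AddMonoid.End T) s - (b : AddMonoid.End T) s = 0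
      rw [h1, sub_self])
    exact sub_eq_zero.1 (Subtype.ext h2)
  have hcard : Nat.card S.Ker = Nat.card (S.c i0) := by
    refine Nat.card_congr (Equiv.ofBijective _ ⟨hinj i0 t ht ht0, ?_⟩)
    rintro ⟨t', ht'⟩
    obtain ⟨φ, hφ, rfl⟩ := h t ht ht0 t' ht'
    exact ⟨⟨φ, hφ⟩, rfl⟩
  have hsurj : ∀ j s hs, s ≠ 0 → Function.Surjective (ev j s hs) := by
    intro j s hs hs0
    exact ((Nat.bijective_iff_injective_and_card _).2
      ⟨hinj j s hs hs0, hcard.trans (S.card_eq _ _)⟩).2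
  letI : Field S.Ker := hF.toField
  haveI : Small.{0} S.Ker := inferInstance
  let e : Shrink.{0} S.Ker ≃+* S.Ker := Shrink.ringEquiv S.Ker
  letI : Field (Shrink.{0} S.Ker) := (e.toMulEquiv.isField hF).toField
  letI : Module S.Ker T := Module.compHom T S.Ker.subtype
  letI : Module (Shrink.{0} S.Ker) T := Module.compHom T e.toRingHom
  refine ⟨Shrink.{0} S.Ker, inferInstance, Fintype.ofFinite _, inferInstance, ?_⟩
  intro i s hs hs0 x
  constructor
  · intro hx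
    obtain ⟨φ, hφ⟩ := hsurj i s hs hs0 ⟨x, hx⟩
    refine ⟨e.symm φ, ?_⟩
    show x = ((e (e.symm φ) : S.Ker) : AddMonoid.End T) s
    rw [e.apply_symm_apply]
    exact (congrArg Subtype.val hφ).symm
  · rintro ⟨a, rfl⟩
    exact (e a).2 i s hs

theorem indep {x y1 y2 : ι} (h1 : x ≠ y1) {s2 : T} (hs : s2 ∈ S.c y2)
    (hs2 : s2 ∉ S.c x ⊔ S.c y1) {e f1 f2 : T} (he : e ∈ S.c x) (hf1 : f1 ∈ S.c y1)
    (hf2 : f2 ∈ S.c y2) (h : e + f1 + f2 = 0) : e = 0 ∧ f1 = 0 ∧ f2 = 0 := by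
  have h2 : f2 = 0 := by
    by_contra h0
    refine hs2 (S.clos h1 hf2 h0 ?_ hs)
    have : f2 = -(e + f1) := by linear_combination (norm := abel1) h
    rw [this]; exact neg_mem (AddSubgroup.add_mem_sup he hf1)
  rw [h2, add_zero] at h
  have h3 : e = 0 := S.disj h1 he (by
    have : e = -f1 := by linear_combination (norm := abel1) h
    rw [this]; exact neg_mem hf1)
  rw [h3, zero_add] at h
  exact ⟨h3, h, h2⟩

section Des
variable [Finite T] {x : ι} {t t' : T}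

theorem ex_phi (ht : t ∈ S.c x) (ht0 : t ≠ 0) (ht' : t' ∈ S.c x) {s : T} (hs : s ∉ S.c x) :
    ∃! a, a ∈ S.c (S.k s) ∧ a + t' ∈ S.c (S.k (s + t)) := by
  have hyx : x ≠ S.k s := fun h => hs (h ▸ S.mem_k s)
  have hyw : S.k s ≠ S.k (s + t) := by
    intro h
    have h3 : t ∈ S.c (S.k s) := by
      have := (S.c _).sub_mem (h ▸ S.mem_k (s + t)) (S.mem_k s)
      simpa using this
    exact hyx (S.eq_of_mem ht0 ht h3)
  have hst : s + t ≠ 0 := fun h => hs (by
    have : s = -t := by linear_combination (norm := abel1) h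
    rw [this]; exact neg_mem ht)
  have h1 : S.c (S.k (s + t)) ≤ S.c x ⊔ S.c (S.k s) := S.clos hyx (S.mem_k _) hst
    (by rw [add_comm]; exact AddSubgroup.add_mem_sup ht (S.mem_k s))
  have h2 := S.sup_eq hyx hyw le_sup_right h1
  have h3 : t' ∈ S.c (S.k s) ⊔ S.c (S.k (s + t)) := h2 ▸ AddSubgroup.mem_sup_left ht'
  obtain ⟨a, ha, b, hb, hab⟩ := AddSubgroup.mem_sup.1 h3
  refine ⟨-a, ⟨neg_mem ha, by rw [← hab]; simpa using hb⟩, ?_⟩
  rintro a' ⟨h4, h5⟩
  have h6 : a' + a = 0 := S.disj hyw (add_mem h4 ha) (by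
    have : a' + a = (a' + t') - b := by rw [← hab]; abel
    rw [this]; exact sub_mem h5 hb)
  linear_combination (norm := abel1) h6

open Classical in
/-- the partial homology -/
noncomputable def phi (t t' s : T) : T :=
  if h : ∃ a, a ∈ S.c (S.k s) ∧ a + t' ∈ S.c (S.k (s + t)) then h.choose else 0

theorem phi_spec (ht : t ∈ S.c x) (ht0 : t ≠ 0) (ht' : t' ∈ S.c x) {s : T} (hs : s ∉ S.c x) :
    S.phi t t' s ∈ S.c (S.k s) ∧ S.phi t t' s + t' ∈ S.c (S.k (s + t)) := by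
  have h := (S.ex_phi ht ht0 ht' hs).exists
  rw [phi, dif_pos h]; exact h.choose_spec

theorem phi_eq (ht : t ∈ S.c x) (ht0 : t ≠ 0) (ht' : t' ∈ S.c x) {s : T} (hs : s ∉ S.c x) {a : T}
    (h1 : a ∈ S.c (S.k s)) (h2 : a + t' ∈ S.c (S.k (s + t))) : S.phi t t' s = a :=
  (S.ex_phi ht ht0 ht' hs).unique (S.phi_spec ht ht0 ht' hs) ⟨h1, h2⟩

theorem des (ht : t ∈ S.c x) (ht0 : t ≠ 0) (ht' : t' ∈ S.c x) {s1 s2 : T} (hs1 : s1 ∉ S.c x)
    (hs2 : s2 ∉ S.c x ⊔ S.c (S.k s1)) :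
    S.phi t t' (s1 + s2) = S.phi t t' s1 + S.phi t t' s2 := by
  have hyx : x ≠ S.k s1 := fun h => hs1 (h ▸ S.mem_k s1)
  have hs2x : s2 ∉ S.c x := fun h => hs2 (AddSubgroup.mem_sup_left h)
  have ind := fun {e f1 f2} => S.indep hyx (S.mem_k s2) hs2 (e := e) (f1 := f1) (f2 := f2)
  have m1 := S.mem_k s1
  have m2 := S.mem_k s2
  have s10 : s1 ≠ 0 := fun h => hs1 (h ▸ zero_mem _)
  have s20 : s2 ≠ 0 := fun h => hs2x (h ▸ zero_mem _)
  obtain ⟨a1y, a1w⟩ := S.phi_spec ht ht0 ht' hs1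
  obtain ⟨a2y, a2w⟩ := S.phi_spec ht ht0 ht' hs2x
  set a1 := S.phi t t' s1
  have h12x : s1 + s2 ∉ S.c x := fun h => s10
    (ind (neg_mem h) m1 m2 (by abel)).2.1
  have hn : s1 + s2 + t ≠ 0 := fun h => s10
    (ind ht m1 m2 (by linear_combination (norm := abel1) h)).2.1
  have n1 : s1 + t ∉ S.c (S.k s2) := fun h => s10 (ind ht m1 (neg_mem h) (by abel)).2.1
  have w12 : S.k (s1 + t) ≠ S.k s2 := fun h => n1 (h ▸ S.mem_k _)
  have w2 : S.k (s1 + s2 + t) ≠ S.k s2 := fun h => n1 (by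
    have := sub_mem (h ▸ S.mem_k (s1 + s2 + t)) m2
    rwa [show s1 + s2 + t - s2 = s1 + t by abel] at this)
  have l1 : S.c (S.k (s1 + s2 + t)) ≤ S.c (S.k (s1 + t)) ⊔ S.c (S.k s2) := S.clos w12 (S.mem_k _) hn
    (by rw [show s1 + s2 + t = s1 + t + s2 by abel]; exact AddSubgroup.add_mem_sup (S.mem_k _) m2)
  have l2 := S.sup_eq w12 w2 l1 le_sup_right
  obtain ⟨b, hb, a, ha, hab⟩ := AddSubgroup.mem_sup.1
    (l2 ▸ AddSubgroup.mem_sup_left a1w : a1 + t' ∈ S.c (S.k (s1 + s2 + t)) ⊔ S.c (S.k s2))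
  -- first decomposition
  have hxy : x ≠ S.k (s1 + s2) := fun h => h12x (h ▸ S.mem_k _)
  have y12 : S.k s1 ≠ S.k s2 := fun h => hs2 (AddSubgroup.mem_sup_right (h ▸ m2))
  have s120 : s1 + s2 ≠ 0 := fun h => h12x (h ▸ zero_mem _)
  have l3 : S.c (S.k (s1 + s2 + t)) ≤ S.c x ⊔ S.c (S.k (s1 + s2)) := S.clos hxy (S.mem_k _) hn
    (by rw [add_comm (s1 + s2) t]; exact AddSubgroup.add_mem_sup ht (S.mem_k _))
  have l4 : S.c (S.k (s1 + s2)) ≤ S.c (S.k s1) ⊔ S.c (S.k s2) := S.clos y12 (S.mem_k _) s120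
    (AddSubgroup.add_mem_sup m1 m2)
  obtain ⟨e, he, f, hf, hef⟩ := AddSubgroup.mem_sup.1 (l3 hb)
  obtain ⟨f1, hf1, f2, hf2, hf12⟩ := AddSubgroup.mem_sup.1 (l4 hf)
  obtain ⟨z1, z2, z3⟩ := ind (sub_mem he ht') (sub_mem hf1 a1y) (add_mem hf2 ha)
    (by linear_combination (norm := abel1) hab + hef + hf12)
  -- second decomposition
  have yw : S.k s1 ≠ S.k (s2 + t) := fun h => hs2 (by
    have := AddSubgroup.add_mem_sup (neg_mem ht) (h ▸ S.mem_k (s2 + t) : s2 + t ∈ S.c (S.k s1))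
    rwa [show -t + (s2 + t) = s2 by abel] at this)
  have hx2 : x ≠ S.k s2 := fun h => hs2x (h ▸ m2)
  have s2t : s2 + t ≠ 0 := fun h => hs2x (by
    have : s2 = -t := by linear_combination (norm := abel1) h
    rw [this]; exact neg_mem ht)
  have l5 : S.c (S.k (s1 + s2 + t)) ≤ S.c (S.k s1) ⊔ S.c (S.k (s2 + t)) := S.clos yw (S.mem_k _) hn
    (by rw [add_assoc]; exact AddSubgroup.add_mem_sup m1 (S.mem_k _))
  have l6 : S.c (S.k (s2 + t)) ≤ S.c x ⊔ S.c (S.k s2) := S.clos hx2 (S.mem_k _) s2t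
    (by rw [add_comm]; exact AddSubgroup.add_mem_sup ht m2)
  obtain ⟨e1, he1, g, hg, heg⟩ := AddSubgroup.mem_sup.1 (l5 hb)
  obtain ⟨g0, hg0, g2, hg2, hg02⟩ := AddSubgroup.mem_sup.1 (l6 hg)
  obtain ⟨u1, u2, u3⟩ := ind (sub_mem hg0 ht') (sub_mem he1 a1y) (add_mem hg2 ha)
    (by linear_combination (norm := abel1) hab + heg + hg02)
  have q2 : S.phi t t' s2 = -a := S.phi_eq ht ht0 ht' hs2x (neg_mem ha) (by
    have : -a + t' = g := by linear_combination (norm := abel1) hg02 - u1 - u3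
    rw [this]; exact hg)
  rw [q2]
  refine S.phi_eq ht ht0 ht' h12x ?_ ?_
  · have : a1 + -a = f := by linear_combination (norm := abel1) hf12 - z2 - z3
    rw [this]; exact hf
  · have : a1 + -a + t' = b := by linear_combination (norm := abel1) - hab
    rw [this]; exact hb

theorem exists_out (hbig : ∃ i j, i ≠ j ∧ S.c i ⊔ S.c j ≠ ⊤) {i j : ι} (h : i ≠ j) :
    ∃ s, s ∉ S.c i ⊔ S.c j := by
  obtain ⟨i', j', h', hne⟩ := hbig
  by_contra hc
  push Not at hc
  have : S.c i ⊔ S.c j = ⊤ := eq_top_iff.2 fun s _ => hc s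
  refine hne (AddSubgroup.eq_of_le_of_card_ge le_top ?_)
  rw [← this, S.card_sup h i, S.card_sup h' i]

theorem phi_add (hbig : ∃ i j, i ≠ j ∧ S.c i ⊔ S.c j ≠ ⊤)
    (ht : t ∈ S.c x) (ht0 : t ≠ 0) (ht' : t' ∈ S.c x) {s1 s2 : T} (hs1 : s1 ∉ S.c x)
    (hs2 : s2 ∉ S.c x) (hs12 : s1 + s2 ∉ S.c x) :
    S.phi t t' (s1 + s2) = S.phi t t' s1 + S.phi t t' s2 := by
  by_cases h : s2 ∈ S.c x ⊔ S.c (S.k s1)
  swap
  · exact S.des ht ht0 ht' hs1 h
  have hyx : x ≠ S.k s1 := fun h => hs1 (h ▸ S.mem_k s1)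
  obtain ⟨s3, hs3⟩ := S.exists_out hbig hyx
  have key : ∀ s, s ∉ S.c x → s ∈ S.c x ⊔ S.c (S.k s1) →
      S.c x ⊔ S.c (S.k s) = S.c x ⊔ S.c (S.k s1) := fun s hs hs' =>
    S.sup_eq hyx (fun h => hs (h ▸ S.mem_k s)) le_sup_left
      (S.clos hyx (S.mem_k s) (fun h0 => hs (h0 ▸ zero_mem _)) hs')
  have m1 : s1 ∈ S.c x ⊔ S.c (S.k s1) := AddSubgroup.mem_sup_right (S.mem_k s1)
  have e1 := S.des ht ht0 ht' hs12 (s2 := s3) (by rw [key _ hs12 (add_mem m1 h)]; exact hs3)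
  have e2 := S.des ht ht0 ht' hs1 (s2 := s2 + s3) (fun h' => hs3 (by
    have := sub_mem h' h
    rwa [show s2 + s3 - s2 = s3 by abel] at this))
  have e3 := S.des ht ht0 ht' hs2 (s2 := s3) (by rw [key _ hs2 h]; exact hs3)
  rw [← add_assoc, e1, e3] at e2
  linear_combination (norm := abel1) e2

end Des

theorem full_of_big [Finite T] (hbig : ∃ i j, i ≠ j ∧ S.c i ⊔ S.c j ≠ ⊤) : S.Full := by
  classical
  obtain ⟨x, y, hxy⟩ := S.two
  refine ⟨x, fun t ht ht0 t' ht' => ?_⟩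
  obtain ⟨s1, hs1, hs10⟩ := S.ne_bot y
  have h1x : s1 ∉ S.c x := fun h => hxy (S.eq_of_mem hs10 h hs1)
  obtain ⟨s2, hs2⟩ := S.exists_out hbig hxy
  have h2x : s2 ∉ S.c x := fun h => hs2 (AddSubgroup.mem_sup_left h)
  have add := fun {s1 s2} => S.phi_add hbig ht ht0 ht' (s1 := s1) (s2 := s2)
  have out : ∀ {e s}, e ∈ S.c x → s ∉ S.c x → e + s ∉ S.c x := fun {e s} he hs h => hs (by
    have := sub_mem h he
    rwa [show e + s - e = s by abel] at this)
  set p := S.phi t t'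
  -- independence of the auxiliary vector
  have aux : ∀ e ∈ S.c x, ∀ s s', s ∉ S.c x → s' ∉ S.c x → s + s' ∉ S.c x →
      p (e + s) - p s = p (e + s') - p s' := by
    intro e he s s' hs hs' hss
    have e1 := add (out he hs) hs' (by rw [add_assoc]; exact out he hss)
    have e2 := add hs (out he hs') (by rw [add_left_comm]; exact out he hss)
    rw [show s + (e + s') = e + s + s' by abel, e1] at e2
    linear_combination (norm := abel1) e2
  have third : ∀ s s', s ∉ S.c x → s' ∉ S.c x → s + s' ∈ S.c x →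
      ∃ s'', s'' ∉ S.c x ∧ s + s'' ∉ S.c x ∧ s'' + s' ∉ S.c x := by
    intro s s' hs hs' hss
    have hks : x ≠ S.k s := fun h => hs (h ▸ S.mem_k s)
    obtain ⟨u, hu⟩ := S.exists_out hbig hks
    have m : s ∈ S.c x ⊔ S.c (S.k s) := AddSubgroup.mem_sup_right (S.mem_k s)
    refine ⟨u, fun h => hu (AddSubgroup.mem_sup_left h), fun h => hu ?_, fun h => hu ?_⟩
    · have := sub_mem (AddSubgroup.mem_sup_left h) m
      rwa [show s + u - s = u by abel] at this
    · have := add_mem (sub_mem (AddSubgroup.mem_sup_left h) (AddSubgroup.mem_sup_left hss)) m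
      rwa [show u + s' - (s + s') + s = u by abel] at this
  have aux2 : ∀ e ∈ S.c x, ∀ s s', s ∉ S.c x → s' ∉ S.c x →
      p (e + s) - p s = p (e + s') - p s' := by
    intro e he s s' hs hs'
    by_cases hss : s + s' ∈ S.c x
    · obtain ⟨u, h1, h2, h3⟩ := third s s' hs hs' hss
      exact (aux e he s u hs h1 h2).trans (aux e he u s' h1 hs' h3)
    · exact aux e he s s' hs hs' hss
  let q : T → T := fun s => if s ∈ S.c x then p (s + s1) - p s1 else p s
  have qin : ∀ e ∈ S.c x, ∀ s, s ∉ S.c x → q e = p (e + s) - p s := fun e he s hs => by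
    simp only [q, if_pos he]; exact aux2 e he s1 s h1x hs
  have qout : ∀ s, s ∉ S.c x → q s = p s := fun s hs => by simp only [q, if_neg hs]
  have mix : ∀ e ∈ S.c x, ∀ s, s ∉ S.c x → q (e + s) = q e + q s := fun e he s hs => by
    rw [qout _ (out he hs), qin e he s hs, qout s hs]; abel
  have qadd : ∀ a b, q (a + b) = q a + q b := by
    intro a b
    by_cases ha : a ∈ S.c x
    · by_cases hb : b ∈ S.c x
      · have e1 := mix _ (add_mem ha hb) s1 h1x
        have e2 := mix a ha _ (out hb h1x)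
        have e3 := mix b hb s1 h1x
        rw [← add_assoc, e1, e3] at e2
        linear_combination (norm := abel1) e2
      · exact mix a ha b hb
    by_cases hb : b ∈ S.c x
    · rw [add_comm a b, mix b hb a ha, add_comm]
    by_cases hab : a + b ∈ S.c x
    · obtain ⟨u, h1, h2, h3⟩ := third a b ha hb hab
      have e1 := mix _ hab u h1
      have e2 := add h2 hb (by rw [show a + u + b = a + b + u by abel]; exact out hab h1)
      have e3 := add ha h1 h2
      rw [qout _ (out hab h1), qout u h1] at e1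
      rw [show a + u + b = a + b + u by abel, e1, e3] at e2
      rw [qout a ha, qout b hb]
      linear_combination (norm := abel1) e2
    · rw [qout _ hab, qout a ha, qout b hb]; exact add ha hb hab
  have k1 : S.k s1 = y := S.k_eq hs10 hs1
  have pin : ∀ s, s ∉ S.c x → p s ∈ S.c (S.k s) := fun s hs => (S.phi_spec ht ht0 ht' hs).1
  have ind := fun {e f1 f2} => S.indep hxy (S.mem_k s2) hs2 (e := e) (f1 := f1) (f2 := f2)
  refine ⟨AddMonoidHom.mk' q qadd, ?_, ?_⟩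
  · intro i e he
    show q e ∈ S.c i
    by_cases he0 : e = 0
    · have := qadd 0 0
      rw [add_zero] at this
      have h0 : q 0 = 0 := by linear_combination (norm := abel1) - this
      rw [he0, h0]; exact zero_mem _
    by_cases hex : e ∈ S.c x
    swap
    · rw [qout e hex, ← S.k_eq he0 he]; exact pin e hex
    obtain rfl : i = x := S.eq_of_mem he0 he hex
    have m : ∀ s, s ∉ S.c i → q e ∈ S.c i ⊔ S.c (S.k s) := by
      intro s hs
      rw [qin e he s hs]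
      have hks : i ≠ S.k s := fun h => hs (h ▸ S.mem_k s)
      refine sub_mem (S.clos hks (S.mem_k (e + s)) (fun h => out he hs (h ▸ zero_mem _))
        (AddSubgroup.add_mem_sup he (S.mem_k s)) (pin _ (out he hs)))
        (AddSubgroup.mem_sup_right (pin s hs))
    obtain ⟨a, ha, b, hb, hab⟩ := AddSubgroup.mem_sup.1 (m s1 h1x)
    obtain ⟨a', ha', b', hb', hab'⟩ := AddSubgroup.mem_sup.1 (m s2 h2x)
    rw [k1] at hb
    obtain ⟨-, z, -⟩ := ind (sub_mem ha ha') hb (neg_mem hb')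
      (by linear_combination (norm := abel1) hab - hab')
    rw [← hab, z, add_zero]; exact ha
  · show q t = t'
    have h12 : s1 + s2 ∉ S.c x := fun h => hs10 (ind (neg_mem h) hs1 (S.mem_k s2) (by abel)).2.1
    have c1 := (S.phi_spec ht ht0 ht' h12).2
    have c2 := pin _ (out ht h12)
    have c3 := (S.phi_spec ht ht0 ht' h1x).2
    have c4 := pin _ (out ht h1x)
    rw [add_comm t] at c2 c4
    have e1 := qin t ht _ h12
    have e2 := qin t ht _ h1x
    rw [add_comm t] at e1 e2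
    have hne : S.k (s1 + s2 + t) ≠ S.k (s1 + t) := fun h => hs2 (by
      have h1 := sub_mem (h ▸ S.mem_k (s1 + s2 + t)) (S.mem_k (s1 + t))
      rw [show s1 + s2 + t - (s1 + t) = s2 by abel] at h1
      exact S.clos hxy (S.mem_k (s1 + t)) (fun h0 => out ht h1x (by rw [add_comm, h0]; exact zero_mem _))
        (by rw [add_comm]; exact AddSubgroup.add_mem_sup ht hs1) h1)
    have := S.disj hne (x := q t - t') (by
        have := sub_mem c2 c1
        rwa [show p (s1 + s2 + t) - (S.phi t t' (s1 + s2) + t') = q t - t' by rw [e1]; abel] at this)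
      (by
        have := sub_mem c4 c3
        rwa [show p (s1 + t) - (S.phi t t' s1 + t') = q t - t' by rw [e2]; abel] at this)
    exact sub_eq_zero.1 this

end Spr

end Cfsg.Agent.PG
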