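import Mathlib
import Cfsg.Agent.PG.Spread

/-! Translation planes with all shears and one further elation are Desarguesian. -/

set_option autoImplicit false

namespace Cfsg.Agent.PG

theorem field_unb {R : Type*} [AddCommGroup R] [Finite R] (m : R → R → R) (e : R) (he : e ≠ 0)
    (ld : ∀ a b c, m a (b + c) = m a b + m a c) (rd : ∀ a b c, m (a + b) c = m a c + m b c)
    (h1 : ∀ a, m e a = a) (h2 : ∀ a, m a e = a) (nz : ∀ a b, m a b = 0 → a = 0 ∨ b = 0)
    (hr : ∀ a, a ≠ 0 → ∃ b, ∀ x, m (m x a) b = x) (hl : ∀ a, a ≠ 0 → ∃ b, ∀ x, m b (m a x) = x) :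
    (∀ x y z, m (m x y) z = m x (m y z)) ∧ ∀ x y, m x y = m y x := by
  letI : NonAssocRing R :=
    { (inferInstance : AddCommGroup R) with
      mul := m
      one := e
      left_distrib := ld
      right_distrib := rd
      zero_mul := fun a => by
        have := rd 0 0 a
        rw [add_zero] at this
        exact left_eq_add.1 this
      mul_zero := fun a => by
        have := ld a 0 0
        rw [add_zero] at this
        exact left_eq_add.1 this
      one_mul := h1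
      mul_one := h2 }
  haveI : Nontrivial R := ⟨⟨e, 0, he⟩⟩
  haveI : NoZeroDivisors R := ⟨fun {a b} h => nz a b h⟩
  exact (alt_of_ip (R := R) hr hl).field

namespace Spr

variable {T ι : Type*} [AddCommGroup T] (S : Spr T ι)

/-- all shears exist -/
def Shear : Prop := ∀ i j k : ι, i ≠ j → i ≠ k → ∃ ψ : T →+ T, (∀ v ∈ S.c i, ψ v = v) ∧
  (∀ v, ψ v - v ∈ S.c i) ∧ (∀ v ∈ S.c j, ψ v ∈ S.c k) ∧ ∀ l, ∃ l', ∀ v ∈ S.c l, ψ v ∈ S.c l'

/-- shadow of an elation centred at the origin -/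
def Lip (x y : ι) : Prop := ∀ e ∈ S.c x, e ≠ 0 → ∃ d, ∀ a ∈ S.c x, a ≠ 0 → a ≠ d →
  ∃ α ∈ S.c x, ∀ b ∈ S.c y, ∀ z, a + b ∈ S.c z →
    ∃ b' ∈ S.c y, α + b' ∈ S.c z ∧ ∃ z', α + b' - b ∈ S.c z' ∧ e - b ∈ S.c z'

theorem full_of_plane [Finite T] {x y : ι} (hxy : x ≠ y) (htop : S.c x ⊔ S.c y = ⊤)
    (hsh : S.Shear) (hlip : S.Lip x y) : S.Full := by
  classical
  have sg : ∀ z, z ≠ y → ∀ r : T, ∃! b, b ∈ S.c y ∧ r + b ∈ S.c z := by
    intro z hz r
    have h1 := S.sup_eq hxy hz (htop ▸ le_top) (htop ▸ le_top)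
    rw [htop] at h1
    obtain ⟨a, ha, b, hb, hab⟩ := AddSubgroup.mem_sup.1 (h1 ▸ AddSubgroup.mem_top r :
      r ∈ S.c z ⊔ S.c y)
    refine ⟨-b, ⟨neg_mem hb, by rw [← hab]; simpa using ha⟩, ?_⟩
    rintro b' ⟨h2, h3⟩
    have := S.disj hz (x := b' + b) (by
      have := sub_mem h3 ha
      rwa [← hab, show a + b + b' - a = b' + b by abel] at this) (add_mem h2 hb)
    linear_combination (norm := abel1) this
  obtain ⟨e, he, he0⟩ := S.ne_bot x
  obtain ⟨u0, hu0, hu00⟩ := S.ne_bot y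
  obtain ⟨z1, hz1⟩ := S.cover (e + u0)
  have z1y : z1 ≠ y := fun h => he0 (S.disj hxy he (by
    have := sub_mem (h ▸ hz1) hu0
    simpa using this))
  have z1x : z1 ≠ x := fun h => hu00 (S.disj hxy (by
    have := sub_mem (h ▸ hz1) he
    simpa using this) hu0)
  let θ0 : S.c x → S.c y := fun r => ⟨(sg z1 z1y r).exists.choose, (sg z1 z1y r).exists.choose_spec.1⟩
  have θ1 : ∀ r : S.c x, (r : T) + θ0 r ∈ S.c z1 := fun r => (sg z1 z1y r).exists.choose_spec.2
  have θu : ∀ (r : S.c x) (b : S.c y), (r : T) + b ∈ S.c z1 → θ0 r = b := fun r b h =>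
    Subtype.ext ((sg z1 z1y r).unique ⟨(θ0 r).2, θ1 r⟩ ⟨b.2, h⟩)
  have θadd : ∀ r r', θ0 (r + r') = θ0 r + θ0 r' := fun r r' => θu _ _ (by
    have := add_mem (θ1 r) (θ1 r')
    simp only [AddSubgroup.coe_add]
    rwa [show (r : T) + θ0 r + (r' + θ0 r') = r + r' + (θ0 r + θ0 r') by abel] at this)
  let θ : S.c x →+ S.c y := AddMonoidHom.mk' θ0 θadd
  have θinj : Function.Injective θ := by
    rw [injective_iff_map_eq_zero]
    intro r hr
    have h := θ1 r
    rw [show θ0 r = 0 from hr] at h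
    exact Subtype.ext (S.disj z1x (by simpa using h) r.2)
  have θbij : Function.Bijective θ :=
    (Nat.bijective_iff_injective_and_card _).2 ⟨θinj, S.card_eq _ _⟩
  let P : S.c x → S.c x → T := fun r u => r + θ u
  have Padd : ∀ r u r' u', P (r + r') (u + u') = P r u + P r' u' := by
    intro r u r' u'
    simp only [P, map_add, AddSubgroup.coe_add]; abel
  have Pneg : ∀ r u, P (-r) (-u) = - P r u := by
    intro r u
    simp only [P, map_neg, AddSubgroup.coe_neg]; abel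
  have Py : ∀ r u, P r u ∈ S.c y ↔ r = 0 := by
    intro r u
    constructor
    · intro h
      refine Subtype.ext (S.disj hxy r.2 ?_)
      have := sub_mem h (θ u).2
      simpa [P] using this
    · rintro rfl; simp [P]
  have Px : ∀ r u, P r u ∈ S.c x ↔ u = 0 := by
    intro r u
    constructor
    · intro h
      apply θinj
      rw [map_zero]
      refine Subtype.ext (S.disj hxy ?_ (θ u).2)
      have := sub_mem h r.2
      simpa [P] using this
    · rintro rfl; simp [P]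
  have Psurj : ∀ v, ∃ r u, P r u = v := by
    intro v
    obtain ⟨a, ha, b, hb, hab⟩ := AddSubgroup.mem_sup.1 (htop ▸ AddSubgroup.mem_top v :
      v ∈ S.c x ⊔ S.c y)
    obtain ⟨u, hu⟩ := θbij.2 ⟨b, hb⟩
    exact ⟨⟨a, ha⟩, u, by simp [P, hu, hab]⟩
  have Pinj : ∀ r u r' u', P r u = P r' u' → r = r' ∧ u = u' := by
    intro r u r' u' h
    have h0 : P (r - r') (u - u') = 0 := by
      rw [sub_eq_add_neg, sub_eq_add_neg u, Padd, Pneg, h, add_neg_cancel]
    exact ⟨sub_eq_zero.1 ((Py _ _).1 (h0 ▸ zero_mem _)), sub_eq_zero.1 ((Px _ _).1 (h0 ▸ zero_mem _))⟩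
  let E : S.c x := ⟨e, he⟩
  have E0 : E ≠ 0 := fun h => he0 (congrArg Subtype.val h)
  have PE : ∀ m, P E m ≠ 0 := fun m h => E0 ((Py _ _).1 (h ▸ zero_mem _))
  let zc : S.c x → ι := fun m => S.k (P E m)
  have mzc : ∀ m, P E m ∈ S.c (zc m) := fun m => S.mem_k _
  have zcy : ∀ m, zc m ≠ y := fun m h => E0 ((Py _ _).1 (h ▸ mzc m))
  have uniq : ∀ z, z ≠ y → ∀ r u u', P r u ∈ S.c z → P r u' ∈ S.c z → u = u' := fun z hz r u u' h h' =>
    θinj (Subtype.ext ((sg z hz r).unique ⟨(θ u).2, h⟩ ⟨(θ u').2, h'⟩))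
  have exi : ∀ z, z ≠ y → ∀ r, ∃ u, P r u ∈ S.c z := by
    intro z hz r
    obtain ⟨b, hb, h⟩ := (sg z hz r).exists
    obtain ⟨u, hu⟩ := θbij.2 ⟨b, hb⟩
    exact ⟨u, by simp [P, hu, h]⟩
  let mu : S.c x → S.c x → S.c x := fun r m => (exi _ (zcy m) r).choose
  have fA : ∀ r m, P r (mu r m) ∈ S.c (zc m) := fun r m => (exi _ (zcy m) r).choose_spec
  have fB : ∀ r m u, P r u ∈ S.c (zc m) → mu r m = u := fun r m u h =>
    uniq _ (zcy m) r _ _ (fA r m) h
  have fC : ∀ z m, P E m ∈ S.c z → zc m = z := fun z m h => S.k_eq (PE m) h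
  have fD : ∀ z, z ≠ y → ∃ m, zc m = z := fun z hz => by
    obtain ⟨m, hm⟩ := exi z hz E
    exact ⟨m, fC z m hm⟩
  have rd : ∀ a b c, mu (a + b) c = mu a c + mu b c := fun a b c => fB _ _ _ (by
    rw [Padd]; exact add_mem (fA a c) (fA b c))
  have h1 : ∀ a, mu E a = a := fun a => fB _ _ _ (S.mem_k _)
  have h2 : ∀ a, mu a E = a := fun a => fB _ _ _ (by rw [fC z1 E (θ1 E)]; exact θ1 a)
  have zc0 : zc 0 = x := fC x 0 ((Px _ _).2 rfl)
  have nz : ∀ a b, mu a b = 0 → a = 0 ∨ b = 0 := by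
    intro a b hab
    by_cases ha : a = 0
    · exact Or.inl ha
    right
    have h := fA a b
    rw [hab] at h
    have h3 : zc b = x := S.eq_of_mem (fun h0 => ha ((Py _ _).1 (h0 ▸ zero_mem _))) h ((Px _ _).2 rfl)
    exact (Px E b).1 (h3 ▸ mzc b)
  -- shears with centre `y`
  have shy : ∀ m, ∃ ψ : T →+ T, (∀ r u, ψ (P r u) = P r (u + mu r m)) ∧
      ∀ l, ∃ l', ∀ v ∈ S.c l, ψ v ∈ S.c l' := by
    intro m
    obtain ⟨ψ, p1, p2, p3, p4⟩ := hsh y x (zc m) hxy.symm (zcy m).symm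
    refine ⟨ψ, fun r u => ?_, p4⟩
    obtain ⟨r', u', h⟩ := Psurj (ψ r)
    have h3 := p2 r
    have h4 : (r : T) = P r 0 := by simp [P]
    rw [← h, h4, sub_eq_add_neg, ← Pneg, ← Padd, Py] at h3
    have h5 : r' = r := by linear_combination (norm := abel1) h3
    subst h5
    have h6 := fB r' m u' (h ▸ p3 _ r'.2)
    simp only [P, map_add]
    rw [p1 _ (θ u).2, ← h, h6]
    simp only [P, AddSubgroup.coe_add]; abel
  have ld : ∀ a b c, mu a (b + c) = mu a b + mu a c := by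
    intro a b c
    obtain ⟨ψ, p1, p2⟩ := shy c
    obtain ⟨l', hl'⟩ := p2 (zc b)
    have h3 := hl' _ (fA E b)
    rw [p1, h1, h1] at h3
    refine fB _ _ _ ?_
    rw [fC _ _ h3, ← p1]
    exact hl' _ (fA a b)
  have mneg : ∀ a b, mu a (-b) = - mu a b := by
    intro a b
    have h0 := ld a 0 0
    rw [add_zero] at h0
    have h3 := ld a b (-b)
    rw [add_neg_cancel] at h3
    linear_combination (norm := abel1) - h3 - h0
  have negm : ∀ a b, mu (-a) b = - mu a b := by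
    intro a b
    have h0 := rd 0 0 b
    rw [add_zero] at h0
    have h3 := rd a (-a) b
    rw [add_neg_cancel] at h3
    linear_combination (norm := abel1) - h3 - h0
  -- a shear with centre `x`
  have shx : ∃ ψ : T →+ T, (∀ r u, ψ (P r u) = P (r - u) u) ∧
      ∀ l, ∃ l', ∀ v ∈ S.c l, ψ v ∈ S.c l' := by
    have hx : x ≠ zc (-E) := fun h => E0 (neg_eq_zero.1 ((Px E _).1 (by
      have := mzc (-E)
      rwa [← h] at this)))
    obtain ⟨ψ, p1, p2, p3, p4⟩ := hsh x y (zc (-E)) hxy hx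
    refine ⟨ψ, fun r u => ?_, p4⟩
    obtain ⟨r', u', h⟩ := Psurj (ψ (θ u))
    have h3 := p2 (θ u)
    have h4 : (θ u : T) = P 0 u := by simp [P]
    rw [← h, h4, sub_eq_add_neg, ← Pneg, ← Padd, Px] at h3
    have h5 : u' = u := by linear_combination (norm := abel1) h3
    subst h5
    have h6 := fB r' _ u' (h ▸ p3 _ (θ u').2)
    rw [mneg, h2] at h6
    simp only [P, map_add]
    rw [p1 _ r.2, ← h, ← h6]
    simp only [P, AddSubgroup.coe_add, AddSubgroup.coe_sub, AddSubgroup.coe_neg]; abel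
  have hr : ∀ a, a ≠ 0 → ∃ b, ∀ r, mu (mu r a) b = r := by
    intro a ha
    obtain ⟨ψ1, p1, p2⟩ := shy E
    obtain ⟨ψ2, p3, p4⟩ := shx
    obtain ⟨l1, hl1⟩ := p2 (zc a)
    obtain ⟨l2, hl2⟩ := p4 l1
    obtain ⟨l3, hl3⟩ := p2 l2
    have key : ∀ r, P (-mu r a) r ∈ S.c l3 := by
      intro r
      have := hl3 _ (hl2 _ (hl1 _ (fA r a)))
      rw [p1, p3, p1, h2, h2] at this
      convert this using 2 <;> abel
    have l3y : l3 ≠ y := by
      intro h
      have := key E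
      rw [h, Py, h1] at this
      exact ha (neg_eq_zero.1 this)
    obtain ⟨b, rfl⟩ := fD l3 l3y
    refine ⟨-b, fun r => ?_⟩
    rw [mneg, ← negm]
    exact fB _ _ _ (key r)
  have hl : ∀ a, a ≠ 0 → ∃ b, ∀ r, mu b (mu a r) = r := by
    obtain ⟨d, hd⟩ := hlip e he he0
    have key : ∀ a : S.c x, a ≠ 0 → (a : T) ≠ d → ∃ b, ∀ r, mu b (mu (E + a) r) = r := by
      intro a ha had
      obtain ⟨α, hα, h⟩ := hd a a.2 (fun h => ha (Subtype.ext h)) had
      let A : S.c x := ⟨α, hα⟩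
      refine ⟨E - A, fun r => ?_⟩
      obtain ⟨b', hb', h3, z', h4, h5⟩ := h _ (θ (mu a r)).2 _ (fA a r)
      obtain ⟨u, hu⟩ := θbij.2 ⟨b', hb'⟩
      have h6 : mu A r = u := fB _ _ _ (by simp only [P, hu]; exact h3)
      have h7 : zc (-mu a r) = z' := fC _ _ (by
        simp only [P, map_neg, AddSubgroup.coe_neg, ← sub_eq_add_neg]; exact h5)
      have h8 : mu A (-mu a r) = u - mu a r := fB _ _ _ (by
        rw [h7]; simp only [P, map_sub, AddSubgroup.coe_sub, hu, ← add_sub_assoc]; exact h4)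
      rw [mneg] at h8
      rw [rd, h1, sub_eq_add_neg, rd, h1, negm, ld, h6]
      linear_combination (norm := abel1) h8
    have hd' : ((-E : S.c x) : T) = d := by
      by_contra h
      obtain ⟨b, hb⟩ := key (-E) (neg_ne_zero.2 E0) h
      have h3 := hb E
      have h4 := rd 0 0 E
      have h5 := ld b 0 0
      rw [add_zero] at h4 h5
      rw [add_neg_cancel, left_eq_add.1 h4, left_eq_add.1 h5] at h3
      exact E0 h3.symm
    intro a ha
    by_cases haE : a = E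
    · exact ⟨E, fun r => by rw [haE, h1, h1]⟩
    obtain ⟨b, hb⟩ := key (a - E) (sub_ne_zero.2 haE) (by
      rw [← hd']
      intro h
      have : a - E = -E := Subtype.ext h
      exact ha (by linear_combination (norm := abel1) this))
    refine ⟨b, fun r => ?_⟩
    have := hb r
    rwa [show E + (a - E) = a by abel] at this
  obtain ⟨assoc, comm⟩ := field_unb mu E E0 ld rd h1 h2 nz hr hl
  refine ⟨x, fun t ht ht0 t' ht' => ?_⟩
  obtain ⟨ti, hti⟩ := hl ⟨t, ht⟩ (fun h => ht0 (congrArg Subtype.val h))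
  let m := mu ⟨t', ht'⟩ ti
  let f : T → T := fun v => P (mu m (Psurj v).choose) (mu m (Psurj v).choose_spec.choose)
  have hf : ∀ r u, f (P r u) = P (mu m r) (mu m u) := by
    intro r u
    obtain ⟨e1, e2⟩ := Pinj _ _ _ _ (Psurj (P r u)).choose_spec.choose_spec
    simp only [f]
    rw [e2, e1]
  have m0 : mu m 0 = 0 := by
    have h5 := ld m 0 0
    rw [add_zero] at h5
    exact left_eq_add.1 h5
  refine ⟨AddMonoidHom.mk' f ?_, ?_, ?_⟩
  · intro v w
    obtain ⟨r, u, rfl⟩ := Psurj v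
    obtain ⟨r', u', rfl⟩ := Psurj w
    rw [← Padd, hf, hf, hf, ld, ld, Padd]
  · intro i v hv
    obtain ⟨r, u, rfl⟩ := Psurj v
    show f _ ∈ _
    rw [hf]
    by_cases hi : i = y
    · subst hi
      rw [Py] at hv ⊢
      rw [hv, m0]
    · obtain ⟨c, rfl⟩ := fD i hi
      rw [← fB _ _ _ hv, ← assoc]
      exact fA _ _
  · show f t = t'
    have : t = P ⟨t, ht⟩ 0 := by simp [P]
    rw [this, hf, m0]
    have h3 := hti E
    rw [h2] at h3
    simp only [m]
    rw [assoc, h3, h2]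
    simp [P]

theorem field_of [Finite T] (hsh : S.Shear) (hlip : ∀ x y, x ≠ y → S.Lip x y) :
    ∃ (F : Type) (_ : Field F) (_ : Fintype F) (_ : Module F T),
      ∀ i, ∀ s ∈ S.c i, s ≠ 0 → ∀ x, x ∈ S.c i ↔ ∃ a : F, x = a • s := by
  apply S.field_of_full
  obtain ⟨x, y, hxy⟩ := S.two
  by_cases h : S.c x ⊔ S.c y = ⊤
  · exact S.full_of_plane hxy h hsh (hlip x y hxy)
  · exact S.full_of_big ⟨x, y, hxy, h⟩

end Spr

end Cfsg.Agent.PG
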