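import Mathlib
import Cfsg.Agent.PG.Geo
import Cfsg.Agent.PG.Spread2

/-! Projective systems: a group acting on a linear space with many central collineations. -/

set_option autoImplicit false

namespace Cfsg.Agent.PG

open MulAction

/-- a group of collineations with large groups of central collineations -/
structure PS (G : Type*) {X : Type*} [Group G] [MulAction G X] (L : LS X) where
  col : ∀ g : G, L.Col (toPerm g)
  N : X → Subgroup G
  cen : ∀ {x : X} {n : G}, n ∈ N x → L.Cen (toPerm n) x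
  fixline : ∀ {x a c : X} {n : G}, n ∈ N x → a ≠ x → n • a = a → c ∈ L.ln x a → n • c = c
  tr : ∀ {x a b a' b' : X}, a ≠ b → x ∉ L.ln a b → a' ∈ L.ln x a → a' ≠ x → b' ∈ L.ln x b →
    b' ≠ x → ∃ n ∈ N x, n • a = a' ∧ n • b = b'
  fixpt : ∀ {x a b : X} {n : G}, a ≠ b → x ∉ L.ln a b → n ∈ N x → ∃ c ∈ L.ln a b, n • c = c
  card : ∀ {x y a b : X}, x ≠ y → a ≠ b → (L.ln x y).ncard = (L.ln a b).ncard

theorem toPerm_mul' {G X : Type*} [Group G] [MulAction G X] (a b : G) :
    (toPerm (a * b) : Equiv.Perm X) = toPerm a * toPerm b := (toPermHom G X).map_mul a b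

theorem toPerm_inv' {G X : Type*} [Group G] [MulAction G X] (a : G) :
    (toPerm a⁻¹ : Equiv.Perm X) = (toPerm a)⁻¹ := (toPermHom G X).map_inv a

theorem toPerm_one' {G X : Type*} [Group G] [MulAction G X] :
    (toPerm (1 : G) : Equiv.Perm X) = 1 := (toPermHom G X).map_one

theorem toPerm_eq_one {G X : Type*} [Group G] [MulAction G X] [FaithfulSMul G X] {a : G}
    (h : (toPerm a : Equiv.Perm X) = 1) : a = 1 :=
  toPerm_injective (β := X) (h.trans toPerm_one'.symm)

variable {G X : Type*} [Group G] [MulAction G X] {L : LS X}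

variable (G) in
/-- the elations with axis `H` -/
def TT [Finite X] {H : Set X} (hH : L.Hyp H) : Subgroup G where
  carrier := {g | L.El H (toPerm g)}
  mul_mem' := fun {a b} ha hb => by
    show L.El H (toPerm (a * b))
    rw [toPerm_mul']; exact LS.El.mul hH ha hb
  one_mem' := by
    show L.El H (toPerm (1 : G))
    rw [toPerm_one']; exact LS.el_one H
  inv_mem' := fun {a} ha => by
    show L.El H (toPerm a⁻¹)
    rw [toPerm_inv']; exact LS.El.inv ha

variable (G) in
/-- the elements with centre `z` -/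
def CC (L : LS X) (z : X) : Subgroup G where
  carrier := {g | L.Cen (toPerm g) z}
  mul_mem' := fun {a b} ha hb => by
    show L.Cen (toPerm (a * b)) z
    rw [toPerm_mul']; exact LS.Cen.mul ha hb
  one_mem' := by
    show L.Cen (toPerm (1 : G)) z
    rw [toPerm_one']; exact LS.cen_one z
  inv_mem' := fun {a} ha => by
    show L.Cen (toPerm a⁻¹) z
    rw [toPerm_inv']; exact LS.Cen.inv ha

theorem mem_TT [Finite X] {H : Set X} {hH : L.Hyp H} {g : G} :
    g ∈ TT G hH ↔ L.El H (toPerm g) := Iff.rfl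

theorem mem_CC {z : X} {g : G} : g ∈ CC G L z ↔ L.Cen (toPerm g) z := Iff.rfl

namespace PS

variable (S : PS G L)
include S

theorem tr1 {x a a' : X} (ha : a ≠ x) (h : a' ∈ L.ln x a) (h' : a' ≠ x) :
    ∃ n ∈ S.N x, n • a = a' := by
  obtain ⟨b, hb⟩ := L.exists_off ha.symm
  have hab := (L.ne_right ha.symm hb).symm
  have hx : x ∉ L.ln a b := L.swap hab.symm (L.rot ha (L.swap ha.symm hb))
  have hbx := L.ne_left ha.symm hb
  obtain ⟨n, hn, h1, -⟩ := S.tr hab hx h h' (L.l_right hbx.symm) hbx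
  exact ⟨n, hn, h1⟩

theorem exists_hyp : ∃ (H : Set X) (g : G), L.Hyp H ∧ L.El H (toPerm g) ∧ g ≠ 1 := by
  obtain ⟨x, a, -, hxa, -⟩ := L.nondeg
  obtain ⟨a', h1, h2, h3⟩ := L.three hxa
  obtain ⟨n, hn, h4⟩ := S.tr1 hxa.symm h1 h2
  refine ⟨{c | n • c = c}, n, ⟨?_, ?_, a, fun h => h3 (h4.symm.trans h)⟩,
    ⟨S.col n, fun h hh => hh, Or.inr fun P hP => hP⟩, fun h => h3 (by rw [← h4, h, one_smul])⟩
  · intro b c hb hc hbc d hd
    by_cases hx : x ∈ L.ln b c
    · by_cases hbx : b = x
      · subst hbx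
        exact S.fixline hn hbc.symm hc hd
      · exact S.fixline hn hbx hb (L.l_eq hbc (Ne.symm hbx) hx (L.l_left hbc) ▸ hd)
    · have hdx : d ≠ x := fun e => hx (e ▸ hd)
      have h5 := S.col n b c d hbc hd
      have h6 := (S.cen hn).2 d hdx
      simp only [toPerm_apply] at h5 h6
      rw [show n • b = b from hb, show n • c = c from hc] at h5
      exact L.meet hdx.symm hbc h6 h5 (L.l_right hdx.symm) hd (L.l_left hdx.symm) hx
  · intro b c hbc
    by_cases hx : x ∈ L.ln b c
    · exact ⟨x, hx, (S.cen hn).1⟩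
    · exact S.fixpt hbc hx hn

theorem image_eq [Finite X] {H : Set X} (hH : L.Hyp H) {x : X} (hx : x ∈ H) {n : G}
    (hn : n ∈ S.N x) : (toPerm n : Equiv.Perm X) '' H = H := by
  refine Set.eq_of_subset_of_ncard_le ?_ (by
    rw [Set.ncard_image_of_injective _ (toPerm n : Equiv.Perm X).injective]) (Set.toFinite _)
  rintro _ ⟨a, ha, rfl⟩
  by_cases e : a = x
  · rw [e, (S.cen hn).1]; exact hx
  · exact hH.sub hx ha (Ne.symm e) ((S.cen hn).2 a e)

theorem conj_TT [Finite X] {H : Set X} (hH : L.Hyp H) {g t : G}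
    (hg : (toPerm g : Equiv.Perm X) '' H = H) (ht : t ∈ TT G hH) : g * t * g⁻¹ ∈ TT G hH := by
  rw [mem_TT, toPerm_mul', toPerm_mul', toPerm_inv']
  have := LS.El.conj ht (S.col g)
  rwa [hg] at this

theorem conj_CC [Finite X] {z : X} {g t : G} (ht : t ∈ CC G L z) :
    g * t * g⁻¹ ∈ CC G L (g • z) := by
  rw [mem_CC, toPerm_mul', toPerm_mul', toPerm_inv']
  exact LS.Cen.conj ht (S.col g)

theorem card_TZ [Finite X] [Finite G] {H : Set X} (hH : L.Hyp H) {z w : X} (hz : z ∈ H)
    (hw : w ∈ H) : Nat.card ↥(TT G hH ⊓ CC G L z) = Nat.card ↥(TT G hH ⊓ CC G L w) := by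
  have key : ∀ {z w : X}, z ∈ H → w ∈ H →
      Nat.card ↥(TT G hH ⊓ CC G L z) ≤ Nat.card ↥(TT G hH ⊓ CC G L w) := by
    intro z w hz hw
    by_cases h : z = w
    · rw [h]
    obtain ⟨x, hx, h1, h2⟩ := L.three h
    have hxH := hH.sub hz hw h hx
    obtain ⟨n, hn, e⟩ := S.tr1 h1.symm
      (by rw [L.l_eq h h1 hx (L.l_left h)]; exact L.l_right h) h2.symm
    refine Nat.card_le_card_of_injective (fun t => ⟨n * t * n⁻¹,
      S.conj_TT hH (S.image_eq hH hxH hn) t.2.1, e ▸ S.conj_CC t.2.2⟩) ?_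
    intro a b hab
    have : n * a * n⁻¹ = n * b * n⁻¹ := congrArg Subtype.val hab
    exact Subtype.ext (by simpa using this)
  exact le_antisymm (key hz hw) (key hw hz)

theorem regular [Finite X] [Finite G] [FaithfulSMul G X] {H : Set X} (hH : L.Hyp H) {g : G}
    (hg : g ∈ TT G hH) (hg1 : g ≠ 1) {O P : X} (hO : O ∉ H) (hP : P ∉ H) :
    ∃ t ∈ TT G hH, t • O = P := by
  classical
  cases nonempty_fintype X
  cases nonempty_fintype G
  obtain ⟨z0, hz0, hc0⟩ := LS.El.exists_cen hH hg (fun h => hg1 (toPerm_eq_one h))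
  set h := Nat.card ↥(TT G hH ⊓ CC G L z0) with hh
  have h2 : 2 ≤ h := by
    rw [hh]
    exact (Subgroup.one_lt_card_iff_ne_bot _).2 (fun e => hg1 (by
      have : g ∈ TT G hH ⊓ CC G L z0 := ⟨hg, hc0⟩
      rwa [e, Subgroup.mem_bot] at this))
  have hOz : O ≠ z0 := fun e => hO (e ▸ hz0)
  set q := (L.ln O z0).ncard with hq
  let tH := Finset.univ.filter (· ∈ H)
  let sT := Finset.univ.filter (fun t : G => t ∈ TT G hH ∧ t ≠ 1)
  let sA := Finset.univ.filter (fun P : X => P ∉ H ∧ P ≠ O)
  have c1 : sT.card * 1 = tH.card * (h - 1) := by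
    refine Finset.card_mul_eq_card_mul (fun t z => t ∈ CC G L z) ?_ ?_
    · intro t ht
      simp only [sT, Finset.mem_filter, Finset.mem_univ, true_and] at ht
      have hne : (toPerm t : Equiv.Perm X) ≠ 1 := fun h => ht.2 (toPerm_eq_one h)
      obtain ⟨z, hz, hc⟩ := LS.El.exists_cen hH ht.1 hne
      rw [Finset.card_eq_one]
      refine ⟨z, Finset.eq_singleton_iff_unique_mem.2 ⟨(Finset.mem_bipartiteAbove _).2 ⟨by simp [tH, hz], hc⟩, ?_⟩⟩
      intro w hw
      simp only [Finset.mem_bipartiteAbove] at hw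
      by_contra e
      exact hne (LS.two_cen (S.col t) hw.2 hc e)
    · intro z hz
      simp only [tH, Finset.mem_filter, Finset.mem_univ, true_and] at hz
      rw [hh, S.card_TZ hH hz0 hz, Nat.card_eq_fintype_card, Fintype.card_subtype,
        ← Finset.card_erase_of_mem (a := (1 : G)) (by simp)]
      congr 1
      ext t
      simp only [sT, Finset.mem_bipartiteBelow, Finset.mem_filter, Finset.mem_univ, true_and,
        Finset.mem_erase, Subgroup.mem_inf]
      tauto
  have c2 : sA.card * 1 = tH.card * (q - 2) := by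
    refine Finset.card_mul_eq_card_mul (fun P z => z ∈ L.ln O P) ?_ ?_
    · intro P hP
      simp only [sA, Finset.mem_filter, Finset.mem_univ, true_and] at hP
      obtain ⟨z, hz, hc⟩ := hH.meet hP.2.symm
      rw [Finset.card_eq_one]
      refine ⟨z, Finset.eq_singleton_iff_unique_mem.2 ⟨by simp [tH, hz, hc], ?_⟩⟩
      intro w hw
      simp only [Finset.mem_bipartiteAbove, tH, Finset.mem_filter, Finset.mem_univ, true_and] at hw
      exact hH.uniq hP.2.symm (L.l_left hP.2.symm) hO hw.2 hz hw.1 hc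
    · intro z hz
      simp only [tH, Finset.mem_filter, Finset.mem_univ, true_and] at hz
      have hOz' : O ≠ z := fun e => hO (e ▸ hz)
      rw [hq, S.card hOz hOz', Set.ncard_eq_toFinset_card']
      have e : Finset.bipartiteBelow (fun P z => z ∈ L.ln O P) sA z =
          ((L.ln O z).toFinset.erase O).erase z := by
        ext P
        simp only [sA, Finset.mem_bipartiteBelow, Finset.mem_filter, Finset.mem_univ, true_and,
          Finset.mem_erase, Set.mem_toFinset]
        constructor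
        · rintro ⟨⟨h1, h3⟩, h4⟩
          exact ⟨fun e => h1 (e ▸ hz), h3, by
            rw [L.eq_l h3.symm h4 hOz'.symm]; exact L.l_right h3.symm⟩
        · rintro ⟨h1, h3, h4⟩
          exact ⟨⟨fun h5 => h1 (hH.uniq hOz' (L.l_left hOz') hO h4 (L.l_right hOz') h5 hz), h3⟩, by
            rw [L.eq_l hOz' h4 h3]; exact L.l_right hOz'⟩
      rw [e, Finset.card_erase_of_mem (by simp [hOz'.symm, L.l_right hOz']),
        Finset.card_erase_of_mem (by simp [L.l_left hOz'])]
      omega
  have c3 : q ≤ tH.card := by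
    obtain ⟨R, hR⟩ := L.exists_off hOz
    have hOR := (L.ne_left hOz hR).symm
    obtain ⟨w, hw, hwH⟩ := hH.meet hOR
    have hwz : z0 ≠ w := fun e => hR (by
      rw [← e] at hw
      rw [L.eq_l hOR hw hOz.symm]; exact L.l_right hOR)
    rw [hq, S.card hOz hwz, Set.ncard_eq_toFinset_card']
    refine Finset.card_le_card fun c hc => ?_
    simp only [Set.mem_toFinset] at hc
    simp [tH, hH.sub hz0 hwH hwz hc]
  let A : SubMulAction (TT G hH) X :=
    { carrier := {P | P ∉ H}
      smul_mem' := fun t P hP => LS.El.not_mem t.2 hP }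
  have free : ∀ P : A, stabilizer (TT G hH) P = ⊥ := by
    intro P
    rw [eq_bot_iff]
    intro t ht
    rw [Subgroup.mem_bot]
    exact Subtype.ext (toPerm_eq_one (LS.El.eq_one t.2 P.2 (congrArg Subtype.val ht)))
  have dv : Nat.card (TT G hH) ∣ Nat.card A := by
    rw [Nat.card_congr (selfEquivOrbitsQuotientProd free), Nat.card_prod]
    exact Dvd.intro_left _ rfl
  have eT : Nat.card (TT G hH) = sT.card + 1 := by
    rw [Nat.card_eq_fintype_card, Fintype.card_subtype,
      ← Finset.card_erase_add_one (a := (1 : G)) (by simp)]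
    congr 2
    ext t
    simp [sT, and_comm]
  have eA : Nat.card A = sA.card + 1 := by
    rw [Nat.card_eq_fintype_card, Fintype.card_subtype,
      ← Finset.card_erase_add_one (a := O) (Finset.mem_filter.2 ⟨Finset.mem_univ _, hO⟩)]
    congr 2
    ext t
    simp only [sA, Finset.mem_erase, Finset.mem_filter, Finset.mem_univ, true_and]
    exact and_comm
  have eq : Nat.card A = Nat.card (TT G hH) := by
    obtain ⟨m, hm⟩ := dv
    rw [hm]
    rw [eA, eT] at hm
    rw [mul_one] at c1 c2
    rw [c1, c2] at hm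
    obtain ⟨k, hk⟩ : ∃ k, h - 1 = k + 1 := ⟨h - 2, by omega⟩
    rw [hk] at hm
    set n := tH.card
    have hn : 0 < n := Finset.card_pos.2 ⟨z0, by simp [tH, hz0]⟩
    have m1 : m = 1 := by
      rcases Nat.lt_or_ge m 2 with h3 | h3
      · interval_cases m
        · omega
        · rfl
      exfalso
      have d1 : n ∣ m - 1 := by
        have : m - 1 = n * (q - 2) - n * ((k + 1) * m) := by
          have : (n * (k + 1) + 1) * m = n * ((k + 1) * m) + m := by ring
          omega
        rw [this, ← Nat.mul_sub]; exact Dvd.intro _ rfl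
      have d2 := Nat.le_of_dvd (by omega) d1
      have d3 : n * (q - 2) ≤ n * n := Nat.mul_le_mul_left _ (by omega)
      have d4 : (n * (k + 1) + 1) * m ≥ (n + 1) * (n + 1) :=
        Nat.mul_le_mul (by nlinarith) (by omega)
      nlinarith
    rw [m1, mul_one]
  have hb : Function.Bijective (fun t : TT G hH => (⟨t • O, LS.El.not_mem t.2 hO⟩ : A)) := by
    rw [Nat.bijective_iff_injective_and_card]
    refine ⟨fun a b hab => ?_, eq.symm⟩
    exact Subtype.ext (toPerm_injective (β := X) (LS.El.uniq hH a.2 b.2 hO (congrArg Subtype.val hab)))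
  obtain ⟨t, ht⟩ := hb.2 ⟨P, hP⟩
  exact ⟨t, t.2, congrArg Subtype.val ht⟩

end PS

end Cfsg.Agent.PG
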