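import Mathlib
import Cfsg.Agent.PG.Geo2

/-! The translation group of a projective system is a vector space. -/

set_option autoImplicit false

namespace Cfsg.Agent.PG

open MulAction

variable {G X : Type*} [Group G] [MulAction G X] {L : LS X}

theorem cc_iff [Finite X] {H : Set X} (hH : L.Hyp H) {t : G} (ht : t ∈ TT G hH) {P z : X}
    (hP : P ∉ H) (hz : z ∈ H) : t ∈ CC G L z ↔ t • P ∈ L.ln z P :=
  ⟨fun h => h.2 P (fun e => hP (e ▸ hz)), fun h => LS.El.cen hH ht hP hz h⟩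

theorem tt_out [Finite X] {H : Set X} {hH : L.Hyp H} {t : G} (ht : t ∈ TT G hH) {P : X}
    (hP : P ∉ H) : t • P ∉ H := LS.El.not_mem ht hP

theorem tt_fix [Finite X] {H : Set X} {hH : L.Hyp H} {t : G} (ht : t ∈ TT G hH) {P : X}
    (hP : P ∈ H) : t • P = P := ht.2.1 P hP

theorem tt_eq [Finite X] [FaithfulSMul G X] {H : Set X} {hH : L.Hyp H} {s t : G} (hs : s ∈ TT G hH)
    (ht : t ∈ TT G hH) {P : X} (hP : P ∉ H) (h : s • P = t • P) : s = t :=
  toPerm_injective (β := X) (LS.El.uniq hH hs ht hP h)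

theorem tt_cen [Finite X] [FaithfulSMul G X] {H : Set X} {hH : L.Hyp H} {t : G} (ht : t ∈ TT G hH) :
    ∃ z ∈ H, t ∈ CC G L z := by
  by_cases h : t = 1
  · obtain ⟨a, b, -, hab, -⟩ := L.nondeg
    obtain ⟨c, -, hc⟩ := hH.meet hab
    exact ⟨c, hc, h ▸ one_mem _⟩
  · exact LS.El.exists_cen hH ht (fun e => h (toPerm_eq_one e))

/-- regularity of the translation group -/
def Reg (G : Type*) {X : Type*} [Group G] [MulAction G X] [Finite X] {L : LS X} {H : Set X}
    (hH : L.Hyp H) : Prop := ∀ O P : X, O ∉ H → P ∉ H → ∃ t ∈ TT G hH, t • O = P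

namespace PS

variable (S : PS G L) [Finite X] [FaithfulSMul G X] {H : Set X} {hH : L.Hyp H}
include S

theorem cc_disj {z w : X} (h : z ≠ w) {t : G} (h1 : t ∈ CC G L z) (h2 : t ∈ CC G L w) : t = 1 :=
  toPerm_eq_one (LS.two_cen (S.col t) h1 h2 h)

omit S [FaithfulSMul G X] in
theorem ex_ne (hr : Reg G hH) {z : X} (hz : z ∈ H) : ∃ t ∈ TT G hH, t ∈ CC G L z ∧ t ≠ 1 := by
  obtain ⟨O, hO⟩ := hH.ne
  have hzO : z ≠ O := fun e => hO (e ▸ hz)
  obtain ⟨P, h1, h2, h3⟩ := L.three hzO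
  have hP : P ∉ H := fun h => h2 (hH.uniq hzO (L.l_right hzO) hO h1 (L.l_left hzO) h hz)
  obtain ⟨t, ht, e⟩ := hr O P hO hP
  exact ⟨t, ht, (cc_iff hH ht hO hz).2 (e ▸ h1), fun h => h3 (by rw [← e, h, one_smul])⟩

omit S [FaithfulSMul G X] [Finite X] in
theorem ex_two {z : X} (hH : L.Hyp H) (hz : z ∈ H) : ∃ w ∈ H, w ≠ z := by
  obtain ⟨O, hO⟩ := hH.ne
  have hOz : O ≠ z := fun e => hO (e ▸ hz)
  obtain ⟨R, hR⟩ := L.exists_off hOz
  have hOR := (L.ne_left hOz hR).symm
  obtain ⟨w, hw, hwH⟩ := hH.meet hOR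
  exact ⟨w, hwH, fun e => hR (by
      rw [e] at hw
      rw [L.eq_l hOR hw hOz.symm]; exact L.l_right hOR)⟩

theorem comm_ne {z w : X} (hz : z ∈ H) (hw : w ∈ H) (h : z ≠ w) {s t : G} (hs : s ∈ TT G hH)
    (ht : t ∈ TT G hH) (hs' : s ∈ CC G L z) (ht' : t ∈ CC G L w) : s * t = t * s := by
  have h1 : s * t * s⁻¹ ∈ CC G L w := by
    have := S.conj_CC (g := s) ht'
    rwa [tt_fix hs hw] at this
  have h2 : t * s⁻¹ * t⁻¹ ∈ CC G L z := by
    have := S.conj_CC (g := t) (inv_mem hs')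
    rwa [tt_fix ht hz] at this
  have h3 := S.cc_disj h (t := s * t * s⁻¹ * t⁻¹)
    (by rw [show s * t * s⁻¹ * t⁻¹ = s * (t * s⁻¹ * t⁻¹) by group]; exact mul_mem hs' h2)
    (mul_mem h1 (inv_mem ht'))
  calc s * t = s * t * s⁻¹ * t⁻¹ * (t * s) := by group
    _ = t * s := by rw [h3, one_mul]

theorem comm (hr : Reg G hH) {s t : G} (hs : s ∈ TT G hH) (ht : t ∈ TT G hH) : s * t = t * s := by
  obtain ⟨z, hz, hs'⟩ := tt_cen hs
  obtain ⟨w, hw, ht'⟩ := tt_cen ht
  by_cases h : z = w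
  swap
  · exact S.comm_ne hz hw h hs ht hs' ht'
  subst h
  obtain ⟨w, hw, hwz⟩ := ex_two hH hz
  obtain ⟨u, hu, hu', hu1⟩ := ex_ne hr hw
  obtain ⟨k, hk, hk'⟩ := tt_cen (mul_mem ht hu)
  have hkz : z ≠ k := fun e => hu1 (S.cc_disj hwz hu' (by
    have := mul_mem (inv_mem ht') (e ▸ hk')
    simpa using this))
  have e1 := S.comm_ne hz hk hkz hs (mul_mem ht hu) hs' hk'
  have e2 := S.comm_ne hz hw hwz.symm hs hu hs' hu'
  rw [mul_assoc t, ← e2, ← mul_assoc, ← mul_assoc] at e1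
  exact mul_right_cancel e1

omit S in
theorem decomp (hr : Reg G hH) {i j z : X} (hi : i ∈ H) (hj : j ∈ H) (hij : i ≠ j)
    (hz : z ∈ L.ln i j) {t : G} (ht : t ∈ TT G hH) (ht' : t ∈ CC G L z) :
    ∃ s ∈ TT G hH, ∃ s' ∈ TT G hH, s ∈ CC G L i ∧ s' ∈ CC G L j ∧ s * s' = t := by
  by_cases h1 : z = i
  · exact ⟨t, ht, 1, one_mem _, h1 ▸ ht', one_mem _, mul_one _⟩
  by_cases h2 : z = j
  · exact ⟨1, one_mem _, t, ht, one_mem _, h2 ▸ ht', one_mul _⟩
  obtain ⟨O, hO⟩ := hH.ne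
  have hzH := hH.sub hi hj hij hz
  have hjO : j ≠ O := fun e => hO (e ▸ hj)
  have h3 : z ∉ L.ln j O := fun h => h2 (hH.uniq hjO (L.l_right hjO) hO h (L.l_left hjO) hzH hj)
  have h4 : i ∈ L.ln z j := by rw [L.l_eq hij h2 hz (L.l_right hij)]; exact L.l_left hij
  have hO' := tt_out ht hO
  obtain ⟨c, c1, c2⟩ := L.vy hjO h3 h4 (Ne.symm h1) ((cc_iff hH ht hO hzH).1 ht')
    (fun e => hO' (e ▸ hzH))
  have hiO : i ≠ t • O := fun e => hO' (e ▸ hi)
  have hc : c ∉ H := fun h => hij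
    ((hH.uniq hiO (L.l_right hiO) hO' c2 (L.l_left hiO) h hi).symm.trans
      (hH.uniq hjO (L.l_right hjO) hO c1 (L.l_left hjO) h hj))
  obtain ⟨s', hs', e'⟩ := hr O c hO hc
  obtain ⟨s, hs, e⟩ := hr c (t • O) hc hO'
  refine ⟨s, hs, s', hs', (cc_iff hH hs hc hi).2 ?_, (cc_iff hH hs' hO hj).2 (e' ▸ c1),
    tt_eq (mul_mem hs hs') ht hO (by rw [mul_smul, e', e])⟩
  rw [e, L.eq_l hiO c2 (fun e => hc (e ▸ hi))]; exact L.l_right hiO

omit S in
theorem cen_mul {i j k : X} (hi : i ∈ H) (hj : j ∈ H) (hk : k ∈ H) (hij : i ≠ j) {s t : G}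
    (hs : s ∈ TT G hH) (ht : t ∈ TT G hH) (hs' : s ∈ CC G L i) (ht' : t ∈ CC G L j)
    (h1 : s * t ≠ 1) (hk' : s * t ∈ CC G L k) : k ∈ L.ln i j := by
  obtain ⟨O, hO⟩ := hH.ne
  have hO1 := tt_out ht hO
  have hO2 := tt_out (mul_mem hs ht) hO
  have m1 := (cc_iff hH ht hO hj).1 ht'
  have m2 := (cc_iff hH hs hO1 hi).1 hs'
  have m3 := (cc_iff hH (mul_mem hs ht) hO hk).1 hk'
  rw [← mul_smul] at m2
  have hne : O ≠ (s * t) • O := fun e => h1 (tt_eq (mul_mem hs ht) (one_mem _) hO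
    (by rw [one_smul]; exact e.symm))
  have hkO : k ≠ O := fun e => hO (e ▸ hk)
  have hk2 : k ∈ L.ln O ((s * t) • O) := by
    rw [L.l_eq hkO hne (L.l_right hkO) m3]; exact L.l_left hkO
  have n1 : j ≠ t • O := fun e => hO1 (e ▸ hj)
  have n2 : i ≠ t • O := fun e => hO1 (e ▸ hi)
  have n3 : j ≠ O := fun e => hO (e ▸ hj)
  by_cases e1 : t • O = O
  · have : (s * t) • O ∈ L.ln i O := by rwa [e1] at m2
    have n4 : i ≠ O := fun e => hO (e ▸ hi)
    rw [L.l_eq n4 hne (L.l_right n4) this] at hk2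
    rw [hH.uniq n4 (L.l_right n4) hO hk2 (L.l_left n4) hk hi]; exact L.l_left hij
  by_cases e2 : (s * t) • O = t • O
  · rw [e2] at hk2 hne
    rw [L.l_eq n3 hne (L.l_right n3) m1] at hk2
    rw [hH.uniq n3 (L.l_right n3) hO hk2 (L.l_left n3) hk hj]; exact L.l_right hij
  have h3 : t • O ∉ L.ln j i := fun h => hO1 (hH.sub hj hi hij.symm h)
  obtain ⟨c, c1, c2⟩ := L.vy hij.symm h3 (a' := O) (b' := (s * t) • O)
    (by rw [L.l_eq n3 n1.symm m1 (L.l_left n3)]; exact L.l_right n3) (Ne.symm e1)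
    (by rw [L.comm n2.symm]; exact m2) e2
  rw [hH.uniq hne (L.l_left hne) hO hk2 c2 hk (hH.sub hj hi hij.symm c1), L.comm hij]
  exact c1

theorem exists_field [Finite G] (hr : Reg G hH) :
    letI : CommGroup (TT G hH) := { (inferInstance : Group (TT G hH)) with
      mul_comm := fun a b => Subtype.ext (S.comm hr a.2 b.2) }
    ∃ (F : Type) (_ : Field F) (_ : Fintype F) (_ : Module F (Additive (TT G hH))),
      ∀ z ∈ H, ∀ s : TT G hH, (s : G) ∈ CC G L z → s ≠ 1 → ∀ x : TT G hH,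
        (x : G) ∈ CC G L z ↔ ∃ a : F, Additive.ofMul x = a • Additive.ofMul s := by
  letI : CommGroup (TT G hH) := { (inferInstance : Group (TT G hH)) with
      mul_comm := fun a b => Subtype.ext (S.comm hr a.2 b.2) }
  let c : H → AddSubgroup (Additive (TT G hH)) := fun z =>
    Subgroup.toAddSubgroup ((CC G L z).subgroupOf (TT G hH))
  have mc : ∀ (z : H) (v : Additive (TT G hH)), v ∈ c z ↔ ((Additive.toMul v : TT G hH) : G) ∈ CC G L z :=
    fun z v => Iff.rfl
  have sup1 : ∀ {i j k : H}, i ≠ j → ∀ {x}, x ∈ c k → x ≠ 0 → x ∈ c i ⊔ c j → (k : X) ∈ L.ln i j := by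
    intro i j k hij x hx hx0 hs
    obtain ⟨a, ha, b, hb, rfl⟩ := AddSubgroup.mem_sup.1 hs
    exact cen_mul i.2 j.2 k.2 (fun e => hij (Subtype.ext e)) (Additive.toMul a).2 (Additive.toMul b).2
      ha hb (fun e => hx0 (Subtype.ext e)) hx
  let Sp : Spr (Additive (TT G hH)) H :=
    { c := c
      disj := fun {i j} hij {x} h1 h2 =>
        Subtype.ext (S.cc_disj (fun e => hij (Subtype.ext e)) h1 h2)
      cover := fun x => by
        obtain ⟨z, hz, h⟩ := tt_cen (Additive.toMul x).2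
        exact ⟨⟨z, hz⟩, h⟩
      card_eq := fun i j => by
        have : ∀ z : H, Nat.card (c z) = Nat.card ↥(TT G hH ⊓ CC G L z) := fun z =>
          Nat.card_congr
            { toFun := fun v => ⟨(Additive.toMul v.1 : TT G hH), (Additive.toMul v.1).2, v.2⟩
              invFun := fun v => ⟨Additive.ofMul ⟨v.1, v.2.1⟩, v.2.2⟩
              left_inv := fun _ => rfl
              right_inv := fun _ => rfl }
        rw [this, this]; exact S.card_TZ hH i.2 j.2
      ne_bot := fun i => by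
        obtain ⟨t, ht, h1, h2⟩ := ex_ne hr i.2
        exact ⟨Additive.ofMul ⟨t, ht⟩, h1, fun e => h2 (congrArg Subtype.val e)⟩
      clos := fun {i j k} hij {x} hx hx0 hs y hy => by
        obtain ⟨s, hs1, s', hs2, h1, h2, e⟩ := decomp hr i.2 j.2 (fun e => hij (Subtype.ext e))
          (sup1 hij hx hx0 hs) (Additive.toMul y).2 hy
        exact AddSubgroup.mem_sup.2 ⟨Additive.ofMul ⟨s, hs1⟩, h1, Additive.ofMul ⟨s', hs2⟩, h2,
          Subtype.ext e⟩
      two := by
        obtain ⟨z, hz, -⟩ := tt_cen (one_mem (TT G hH))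
        obtain ⟨w, hw, h⟩ := ex_two hH hz
        exact ⟨⟨w, hw⟩, ⟨z, hz⟩, fun e => h (congrArg Subtype.val e)⟩ }
  have full : Sp.Full := by
    obtain ⟨x, y, hxy⟩ := Sp.two
    by_cases htop : Sp.c x ⊔ Sp.c y = ⊤
    swap
    · exact Sp.full_of_big ⟨x, y, hxy, htop⟩
    have hxy' : (x : X) ≠ y := fun e => hxy (Subtype.ext e)
    have hline : ∀ z : H, (z : X) ∈ L.ln x y := by
      intro z
      obtain ⟨v, hv, hv0⟩ := Sp.ne_bot z
      exact sup1 hxy hv hv0 (htop ▸ AddSubgroup.mem_top v)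
    obtain ⟨O, hO⟩ := hH.ne
    have nO : ∀ z : H, (z : X) ≠ O := fun z e => hO (e ▸ z.2)
    refine Sp.full_of_plane hxy htop ?_ ?_
    · intro i j k hij hik
      have hij' : (i : X) ≠ j := fun e => hij (Subtype.ext e)
      have hik' : (i : X) ≠ k := fun e => hik (Subtype.ext e)
      obtain ⟨v, hv, e1, e2⟩ := S.tr (x := i) (a := O) (b := j) (a' := O) (b' := k) (nO j).symm
        (fun h => hij' (hH.uniq (nO j).symm (L.l_left (nO j).symm) hO h (L.l_right (nO j).symm)
          i.2 j.2)) (L.l_right (nO i)) (nO i).symm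
        (by rw [L.l_eq hxy' hij' (hline i) (hline j)]; exact hline k) hik'.symm
      have him := S.image_eq hH i.2 hv
      have evO : ∀ t : G, (v * t * v⁻¹) • O = v • t • O := fun t => by
        rw [mul_smul, mul_smul, inv_smul_eq_iff.2 e1.symm]
      let ψ : TT G hH →* TT G hH :=
        { toFun := fun t => ⟨v * t * v⁻¹, S.conj_TT hH him t.2⟩
          map_one' := Subtype.ext (by simp)
          map_mul' := fun a b => Subtype.ext (by simp) }
      refine ⟨MonoidHom.toAdditive ψ, ?_, ?_, ?_, ?_⟩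
      · intro t ht
        refine Subtype.ext (tt_eq (S.conj_TT hH him (Additive.toMul t).2) (Additive.toMul t).2 hO ?_)
        exact (evO _).trans
          (S.fixline hv (nO i).symm e1 ((cc_iff hH (Additive.toMul t).2 hO i.2).1 ht))
      · intro t
        have hO1 := tt_out (Additive.toMul t).2 hO
        refine (cc_iff hH (Additive.toMul _ : TT G hH).2 hO1 i.2).2 ?_
        have : ((Additive.toMul (MonoidHom.toAdditive ψ t - t) : TT G hH) : G) =
            v * (Additive.toMul t : TT G hH) * v⁻¹ * ((Additive.toMul t : TT G hH) : G)⁻¹ := by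
          rw [sub_eq_add_neg]; rfl
        rw [this, mul_smul, inv_smul_smul, evO]
        exact (S.cen hv).2 _ (fun e => hO1 (e ▸ i.2))
      · intro t ht
        have := S.conj_CC (g := v) ht
        rwa [e2] at this
      · intro l
        exact ⟨⟨v • (l : X), him.subset ⟨l, l.2, rfl⟩⟩, fun t ht => S.conj_CC (g := v) ht⟩
    · intro e he he0
      have eT := (Additive.toMul e).2
      have eO := tt_out eT hO
      have eO' : ((Additive.toMul e : TT G hH) : G) • O ≠ O := fun h => he0 (Subtype.ext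
        (tt_eq eT (one_mem _) hO (h.trans (one_smul G O).symm)))
      have eL := (cc_iff hH eT hO x.2).1 he
      obtain ⟨n, hn, n1, n2⟩ := S.tr (x := O) (a := y) (b := x) (a' := y)
        (b' := ((Additive.toMul e : TT G hH) : G) • O) hxy'.symm
        (fun h => hO (hH.sub y.2 x.2 hxy'.symm h)) (L.l_right (nO y).symm) (nO y)
        (by rw [L.comm (nO x).symm]; exact eL) eO'
      have cn := S.cen hn
      have lx : ∀ P, P ∈ L.ln x O → P ≠ x → P ∉ H := fun P h1 h2 h3 =>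
        h2 (hH.uniq (nO x) (L.l_right (nO x)) hO h1 (L.l_left (nO x)) h3 x.2)
      have hd0 : n⁻¹ • (x : X) ∉ H := by
        refine lx _ (by
          have := cn.inv.line (nO x) (L.l_right (nO x)) (L.l_left (nO x))
          rwa [← toPerm_inv'] at this) (fun h => eO ?_)
        rw [← n2, ← inv_smul_eq_iff.1 h]; exact x.2
      obtain ⟨d, hd, ed⟩ := hr O _ hO hd0
      refine ⟨Additive.ofMul ⟨d, hd⟩, fun a ha ha0 had => ?_⟩
      have aT := (Additive.toMul a).2
      set a' : G := ((Additive.toMul a : TT G hH) : G) with ha'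
      have aL := (cc_iff hH aT hO x.2).1 ha
      have aO := tt_out aT hO
      have m1 : n • a' • O ∈ L.ln x O := cn.line (nO x) (L.l_right (nO x)) aL
      have m2 : n • a' • O ∉ H := lx _ m1 (fun h => had (Subtype.ext (tt_eq aT hd hO
        (show a' • O = d • O by rw [ed, ← h, inv_smul_smul]))))
      obtain ⟨α, hα, eα⟩ := hr O _ hO m2
      refine ⟨Additive.ofMul ⟨α, hα⟩, (cc_iff hH hα hO x.2).2 (eα ▸ m1), fun b hb z hz => ?_⟩
      have bT := (Additive.toMul b).2
      set b' : G := ((Additive.toMul b : TT G hH) : G) with hb'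
      have abT : a' * b' ∈ TT G hH := mul_mem aT bT
      have hz' : a' * b' ∈ CC G L z := hz
      have QO := tt_out abT hO
      have Qy : (a' * b') • O ∈ L.ln y (a' • O) := by
        rw [S.comm hr aT bT, mul_smul]; exact (cc_iff hH bT aO y.2).1 hb
      have ya : (y : X) ≠ a' • O := fun e => aO (e ▸ y.2)
      have m3 := S.col n _ _ _ ya Qy
      simp only [toPerm_apply] at m3
      rw [n1] at m3
      have yn : (y : X) ≠ n • a' • O := fun e => m2 (e ▸ y.2)
      have m4 : n • (a' * b') • O ∉ H := fun h => QO (by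
        have h1 := hH.uniq yn (L.l_right yn) m2 m3 (L.l_left yn) h y.2
        rw [← n1, smul_left_cancel_iff] at h1
        rw [h1]; exact y.2)
      obtain ⟨β, hβ, eβ⟩ := hr _ _ m2 m4
      have αβ : (α * β) • O = n • (a' * b') • O := by rw [S.comm hr hα hβ, mul_smul, eα, eβ]
      refine ⟨Additive.ofMul ⟨β, hβ⟩, (cc_iff hH hβ m2 y.2).2 (eβ ▸ m3), ?_, ?_⟩
      · refine (cc_iff hH (mul_mem hα hβ) hO z.2).2 ?_
        rw [αβ]
        exact cn.line (nO z) (L.l_right (nO z)) ((cc_iff hH abT hO z.2).1 hz')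
      · have bO := tt_out bT hO
        have bL := (cc_iff hH bT hO y.2).1 hb
        have nB : n • b' • O = b' • O := S.fixline hn (nO y) n1 (by rw [L.comm (nO y).symm]; exact bL)
        have xB : (x : X) ≠ b' • O := fun e => bO (e ▸ x.2)
        have Qx : (a' * b') • O ∈ L.ln x (b' • O) := by
          rw [mul_smul]; exact (cc_iff hH aT bO x.2).1 ha
        have m5 := S.col n _ _ _ xB Qx
        simp only [toPerm_apply] at m5
        rw [n2, nB] at m5
        have eB : ((Additive.toMul e : TT G hH) : G) • O ≠ b' • O := fun h =>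
          xB (smul_left_cancel n (by rw [n2, nB, h]))
        obtain ⟨w, w1, w2⟩ := hH.meet eB
        have wB : w ≠ b' • O := fun e => bO (e ▸ w2)
        have lw := L.l_eq eB wB w1 (L.l_right eB)
        refine ⟨⟨w, w2⟩, ?_, ?_⟩
        · refine (cc_iff hH (Additive.toMul _ : TT G hH).2 bO w2).2 ?_
          have : ((Additive.toMul (Additive.ofMul (⟨α, hα⟩ : TT G hH) + Additive.ofMul ⟨β, hβ⟩ - b) :
              TT G hH) : G) = α * β * b'⁻¹ := by
            rw [sub_eq_add_neg]; rfl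
          rw [this, mul_smul, inv_smul_smul, αβ, lw]; exact m5
        · refine (cc_iff hH (Additive.toMul _ : TT G hH).2 bO w2).2 ?_
          have : ((Additive.toMul (e - b) : TT G hH) : G) =
              ((Additive.toMul e : TT G hH) : G) * b'⁻¹ := by
            rw [sub_eq_add_neg]; rfl
          rw [this, mul_smul, inv_smul_smul, lw]; exact L.l_left eB
  obtain ⟨F, _, _, _, h⟩ := Sp.field_of_full full
  refine ⟨F, inferInstance, inferInstance, inferInstance, fun z hz s hs hs1 x => ?_⟩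
  exact h ⟨z, hz⟩ (Additive.ofMul s) hs hs1 (Additive.ofMul x)

end PS

end Cfsg.Agent.PG
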