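import Mathlib
import Cfsg.Agent.PG.Geo3

/-! Homogeneous coordinates for a projective system. -/

set_option autoImplicit false

namespace Cfsg.Agent.PG

open MulAction Submodule

/-- homogeneous coordinates -/
structure Coord {X : Type*} (L : LS X) (F : Type*) {V : Type*} [Field F] [AddCommGroup V]
    [Module F V] (r : X → V) : Prop where
  ne : ∀ x, r x ≠ 0
  inj : ∀ {a b : X}, r a ∈ span F {r b} → a = b
  surj : ∀ v, v ≠ 0 → ∃ x, v ∈ span F {r x}
  line : ∀ {a b : X} (c : X), a ≠ b → (c ∈ L.ln a b ↔ r c ∈ span F {r a, r b})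

theorem finrank_pair {F V : Type*} [Field F] [AddCommGroup V] [Module F V] {x y : V} (hy : y ≠ 0)
    (hx : x ∉ span F {y}) : Module.finrank F (span F {x, y}) = 2 := by
  have h : LinearIndependent F ![y, x] := by
    rw [LinearIndependent.pair_iff' hy]
    intro a ha
    exact hx (mem_span_singleton.2 ⟨a, ha⟩)
  have := finrank_span_eq_card h
  rw [show Set.range ![y, x] = {x, y} by ext; simp [or_comm, eq_comm]] at this
  simpa using this

theorem Coord.map {X : Type*} {L : LS X} {F V W : Type*} [Field F] [AddCommGroup V] [Module F V]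
    [AddCommGroup W] [Module F W] {r : X → V} (h : Coord L F r) (e : V ≃ₗ[F] W) :
    Coord L F (e ∘ r) := by
  refine ⟨fun x => by simpa using h.ne x, fun {a b} hab => h.inj ?_, fun v hv => ?_,
    fun {a b} c hab => ?_⟩
  · obtain ⟨t, ht⟩ := mem_span_singleton.1 hab
    exact mem_span_singleton.2 ⟨t, e.injective (by simpa using ht)⟩
  · obtain ⟨x, hx⟩ := h.surj (e.symm v) (by simpa using hv)
    obtain ⟨t, ht⟩ := mem_span_singleton.1 hx
    exact ⟨x, mem_span_singleton.2 ⟨t, by simpa using congrArg e ht⟩⟩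
  · rw [h.line c hab, mem_span_pair, mem_span_pair]
    refine exists_congr fun s => exists_congr fun t => ?_
    rw [← e.injective.eq_iff]; simp

theorem Coord.three_le {X : Type*} {L : LS X} {F V : Type*} [Field F] [AddCommGroup V] [Module F V]
    [FiniteDimensional F V] {r : X → V} (h : Coord L F r) : 3 ≤ Module.finrank F V := by
  obtain ⟨a, b, c, hab, hc⟩ := L.nondeg
  have h1 := finrank_pair (h.ne b) (fun e => hab (h.inj e))
  have h2 : span F {r a, r b} ≠ ⊤ := fun e => hc ((h.line c hab).2 (e ▸ mem_top))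
  have := finrank_lt h2
  omega

variable {G X : Type*} [Group G] [MulAction G X] {L : LS X}

theorem PS.coord (S : PS G L) [Finite X] [Finite G] [FaithfulSMul G X] {H : Set X} {hH : L.Hyp H}
    (hr : Reg G hH) : ∃ (F : Type) (_ : Field F) (_ : Fintype F) (n : ℕ) (r : X → Fin n → F),
      3 ≤ n ∧ Coord L F r := by
  classical
  letI : CommGroup (TT G hH) := { (inferInstance : Group (TT G hH)) with
      mul_comm := fun a b => Subtype.ext (S.comm hr a.2 b.2) }
  obtain ⟨F, _, _, _, hF⟩ := S.exists_field hr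
  obtain ⟨O, hO⟩ := hH.ne
  have e1 : ∀ x : X, ∃ t : TT G hH, (x ∈ H → (t : G) ∈ CC G L x ∧ t ≠ 1) ∧ (x ∉ H → (t : G) • O = x) := by
    intro x
    by_cases hx : x ∈ H
    · obtain ⟨t, ht, h1, h2⟩ := PS.ex_ne hr hx
      exact ⟨⟨t, ht⟩, fun _ => ⟨h1, fun e => h2 (congrArg Subtype.val e)⟩, fun h => (h hx).elim⟩
    · obtain ⟨t, ht, h1⟩ := hr O x hO hx
      exact ⟨⟨t, ht⟩, fun h => (hx h).elim, fun _ => h1⟩
  choose τ τ1 τ2 using e1
  let r : X → F × Additive (TT G hH) := fun x => (if x ∈ H then 0 else 1, Additive.ofMul (τ x))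
  have r1 : ∀ x ∈ H, r x = (0, Additive.ofMul (τ x)) := fun x hx => by simp [r, hx]
  have r2 : ∀ x, x ∉ H → r x = (1, Additive.ofMul (τ x)) := fun x hx => by simp [r, hx]
  have mem : ∀ z ∈ H, ∀ a : F, ((Additive.toMul (a • Additive.ofMul (τ z)) : TT G hH) : G) ∈ CC G L z :=
    fun z hz a => (hF z hz (τ z) (τ1 z hz).1 (τ1 z hz).2 _).2 ⟨a, rfl⟩
  have eqc : ∀ c ∈ H, ∀ z ∈ H, ∀ a : F, Additive.ofMul (τ c) = a • Additive.ofMul (τ z) → c = z := by
    intro c hc z hz a h
    by_contra hne
    refine (τ1 c hc).2 (Subtype.ext (S.cc_disj hne (τ1 c hc).1 ?_))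
    have := mem z hz a
    rwa [← h] at this
  have main : ∀ z ∈ H, ∀ P, P ∉ H → ∀ c, c ∈ L.ln z P ↔ r c ∈ span F {r z, r P} := by
    intro z hz P hP c
    have hzP : z ≠ P := fun e => hP (e ▸ hz)
    rw [mem_span_pair, r1 z hz, r2 P hP]
    by_cases hc : c ∈ H
    · rw [r1 c hc]
      constructor
      · intro h
        rw [hH.uniq hzP (L.l_right hzP) hP h (L.l_left hzP) hc hz]
        exact ⟨1, 0, by simp⟩
      · rintro ⟨a, b, h⟩
        simp only [Prod.smul_mk, smul_eq_mul, mul_zero, mul_one, Prod.mk_add_mk, zero_add,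
          Prod.mk.injEq] at h
        rw [h.1, zero_smul, add_zero] at h
        rw [eqc c hc z hz a h.2.symm]; exact L.l_left hzP
    · rw [r2 c hc]
      constructor
      · intro h
        have h1 : ((τ c * (τ P)⁻¹ : TT G hH) : G) ∈ CC G L z := (cc_iff hH (τ c * (τ P)⁻¹).2 hP hz).2 (by
          rw [Subgroup.coe_mul, mul_smul, Subgroup.coe_inv, inv_smul_eq_iff.2 (τ2 P hP).symm, τ2 c hc]
          exact h)
        obtain ⟨a, ha⟩ := (hF z hz (τ z) (τ1 z hz).1 (τ1 z hz).2 _).1 h1
        refine ⟨a, 1, ?_⟩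
        simp only [Prod.smul_mk, smul_eq_mul, mul_zero, mul_one, Prod.mk_add_mk, zero_add, one_smul,
          ← ha, ofMul_mul, ofMul_inv]
        simp
      · rintro ⟨a, b, h⟩
        simp only [Prod.smul_mk, smul_eq_mul, mul_zero, mul_one, Prod.mk_add_mk, zero_add,
          Prod.mk.injEq] at h
        rw [h.1, one_smul] at h
        have h1 := (cc_iff hH (Additive.toMul (a • Additive.ofMul (τ z))).2 hP hz).1 (mem z hz a)
        have h2 : τ c = Additive.toMul (a • Additive.ofMul (τ z)) * τ P := by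
          have := congrArg Additive.toMul h.2
          simpa using this.symm
        rw [← τ2 c hc, h2, Subgroup.coe_mul, mul_smul, τ2 P hP]
        exact h1
  have hne : ∀ x, r x ≠ 0 := by
    intro x h
    by_cases hx : x ∈ H
    · rw [r1 x hx] at h
      exact (τ1 x hx).2 (congrArg Prod.snd h)
    · rw [r2 x hx] at h
      exact one_ne_zero (congrArg Prod.fst h)
  have hinj : ∀ {a b : X}, r a ∈ span F {r b} → a = b := by
    intro a b h
    obtain ⟨t, ht⟩ := mem_span_singleton.1 h
    by_cases ha : a ∈ H <;> by_cases hb : b ∈ H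
    · rw [r1 a ha, r1 b hb] at ht
      exact eqc a ha b hb t (congrArg Prod.snd ht).symm
    · rw [r1 a ha, r2 b hb] at ht
      have : t = 0 := by simpa using congrArg Prod.fst ht
      rw [this, zero_smul, ← r1 a ha] at ht
      exact (hne a ht.symm).elim
    · rw [r2 a ha, r1 b hb] at ht
      simpa using congrArg Prod.fst ht
    · rw [r2 a ha, r2 b hb] at ht
      have : t = 1 := by simpa using congrArg Prod.fst ht
      rw [this, one_smul] at ht
      have h2 : τ b = τ a := congrArg Prod.snd ht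
      rw [← τ2 a ha, ← τ2 b hb, h2]
  have C : Coord L F r := by
    refine ⟨hne, hinj, ?_, ?_⟩
    · rintro ⟨a, v⟩ hv
      by_cases ha : a = 0
      · subst ha
        obtain ⟨z, hz, h⟩ := tt_cen (Additive.toMul v).2
        obtain ⟨b, hb⟩ := (hF z hz (τ z) (τ1 z hz).1 (τ1 z hz).2 _).1 h
        exact ⟨z, mem_span_singleton.2 ⟨b, by rw [r1 z hz, Prod.smul_mk, ← hb]; simp⟩⟩
      · let t : TT G hH := Additive.toMul (a⁻¹ • v)
        have hP := tt_out t.2 hO
        have h1 : τ ((t : G) • O) = t := Subtype.ext (tt_eq (τ _).2 t.2 hO (τ2 _ hP))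
        refine ⟨(t : G) • O, mem_span_singleton.2 ⟨a, ?_⟩⟩
        rw [r2 _ hP, h1]
        simp [t, smul_smul, ha]
    · intro a b c hab
      by_cases hH2 : a ∈ H ∧ b ∈ H
      · obtain ⟨ha, hb⟩ := hH2
        rw [mem_span_pair, r1 a ha, r1 b hb]
        constructor
        · intro h
          have hc := hH.sub ha hb hab h
          obtain ⟨s, hs, s', hs', h1, h2, e⟩ := PS.decomp hr ha hb hab h (τ c).2 (τ1 c hc).1
          obtain ⟨α, hα⟩ := (hF a ha (τ a) (τ1 a ha).1 (τ1 a ha).2 ⟨s, hs⟩).1 h1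
          obtain ⟨β, hβ⟩ := (hF b hb (τ b) (τ1 b hb).1 (τ1 b hb).2 ⟨s', hs'⟩).1 h2
          refine ⟨α, β, ?_⟩
          rw [r1 c hc]
          simp only [Prod.smul_mk, smul_eq_mul, mul_zero, Prod.mk_add_mk, add_zero, ← hα, ← hβ,
            Prod.mk.injEq, true_and]
          exact Subtype.ext e
        · rintro ⟨α, β, h⟩
          simp only [Prod.smul_mk, smul_eq_mul, mul_zero, Prod.mk_add_mk, add_zero] at h
          have hc : c ∈ H := by
            by_contra hc
            rw [r2 c hc] at h
            exact zero_ne_one (congrArg Prod.fst h)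
          rw [r1 c hc] at h
          have h2 : ((Additive.toMul (α • Additive.ofMul (τ a)) : TT G hH) : G) *
              ((Additive.toMul (β • Additive.ofMul (τ b)) : TT G hH) : G) = τ c :=
            congrArg (fun v : F × Additive (TT G hH) => ((Additive.toMul v.2 : TT G hH) : G)) h
          exact PS.cen_mul ha hb hc hab (Subtype.prop _) (Subtype.prop _) (mem a ha α) (mem b hb β)
            (by rw [h2]; exact fun e => (τ1 c hc).2 (Subtype.ext e)) (by rw [h2]; exact (τ1 c hc).1)
      · obtain ⟨P, hP, hPl⟩ : ∃ P, P ∉ H ∧ P ∈ L.ln a b := by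
          by_cases ha : a ∈ H
          · exact ⟨b, fun hb => hH2 ⟨ha, hb⟩, L.l_right hab⟩
          · exact ⟨a, ha, L.l_left hab⟩
        obtain ⟨z, hz, hzH⟩ := hH.meet hab
        have hzP : z ≠ P := fun e => hP (e ▸ hzH)
        have el := L.l_eq hab hzP hz hPl
        have es : span F {r a, r b} = span F {r z, r P} := by
          refine eq_of_le_of_finrank_le ?_ ?_
          · rw [span_le]
            rintro _ (rfl | rfl)
            · exact (main z hzH P hP a).1 (el ▸ L.l_left hab)
            · exact (main z hzH P hP b).1 (el ▸ L.l_right hab)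
          · rw [finrank_pair (hne b) (fun e => hab (hinj e)), finrank_pair (hne P) (fun e => hzP (hinj e))]
        rw [es, ← el]; exact main z hzH P hP c
  exact ⟨F, inferInstance, inferInstance, _, _, C.three_le,
    C.map (Module.finBasis F _).equivFun⟩

end Cfsg.Agent.PG
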