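import Mathlib
import Cfsg.Agent.PG.Geo4
import Cfsg.Agent.Classical.Transv

/-! The elations of a projective system generate `PSL_n`. -/

set_option autoImplicit false

namespace Cfsg.Agent.PG

open MulAction Submodule Matrix Cfsg.Agent.Classical.Transv
open scoped LinearAlgebra.Projectivization

theorem exists_dot {F : Type*} [Field F] {n : ℕ} (f : (Fin n → F) →ₗ[F] F) :
    ∃ w : Fin n → F, ∀ v, f v = w ⬝ᵥ v :=
  ⟨fun i => f (Pi.single i 1), fun v => by
    rw [LinearMap.pi_apply_eq_sum_univ, dotProduct]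
    refine Finset.sum_congr rfl fun i _ => ?_
    rw [smul_eq_mul, mul_comm]
    congr 2
    ext j
    simp [Pi.single_apply, eq_comm]⟩

namespace Coord

variable {X : Type*} {L : LS X} {F : Type*} [Field F] {n : ℕ} {r : X → Fin n → F}
  (C : Coord L F r)

/-- the bijection with the projective space -/
noncomputable def φ : X ≃ ℙ F (Fin n → F) :=
  Equiv.ofBijective (fun x => Projectivization.mk F (r x) (C.ne x)) ⟨fun a b h => by
    obtain ⟨c, hc⟩ := (Projectivization.mk_eq_mk_iff' F _ _ _ _).1 h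
    exact C.inj (mem_span_singleton.2 ⟨c, hc⟩), fun p => by
    induction p using Projectivization.ind with | _ v hv =>
    obtain ⟨x, hx⟩ := C.surj v hv
    obtain ⟨c, hc⟩ := mem_span_singleton.1 hx
    exact ⟨x, ((Projectivization.mk_eq_mk_iff' F _ _ _ _).2 ⟨c, hc⟩).symm⟩⟩

theorem φ_apply (x : X) : C.φ x = Projectivization.mk F (r x) (C.ne x) := rfl

/-- the action of `PSL` on the points -/
noncomputable def π : ProjectiveSpecialLinearGroup (Fin n) F →* Equiv.Perm X :=
  (C.φ.symm.permCongrHom : _ →* _).comp Projectivization.PSLAction.toPermHom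

theorem π_inj : Function.Injective C.π :=
  C.φ.symm.permCongrHom.injective.comp ProjectiveSpecialLinearGroup.toPermHom_injective

theorem φ_π (A : SpecialLinearGroup (Fin n) F) (x : X) : C.φ (C.π A x) = A • C.φ x := by
  simp [π, Equiv.permCongrHom, Projectivization.PSLAction.toPermHom]

theorem π_spec (A : SpecialLinearGroup (Fin n) F) (x : X) :
    ∃ c : F, c ≠ 0 ∧ r (C.π A x) = c • (A.1 *ᵥ r x) := by
  have h := C.φ_π A x
  rw [φ_apply, φ_apply, Projectivization.smul_mk] at h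
  obtain ⟨c, hc⟩ := (Projectivization.mk_eq_mk_iff' F _ _ _ _).1 h
  refine ⟨c, fun e => C.ne (C.π A x) (by rw [← hc, e, zero_smul]), hc.symm⟩

theorem π_eq (A : SpecialLinearGroup (Fin n) F) {x y : X} (h : A.1 *ᵥ r x ∈ span F {r y}) :
    C.π A x = y := by
  obtain ⟨c, -, hc⟩ := C.π_spec A x
  exact C.inj (hc ▸ smul_mem _ c h)

theorem col_π (A : SpecialLinearGroup (Fin n) F) : L.Col (C.π A) := by
  intro x y z hxy hz
  rw [C.line _ ((C.π A).injective.ne hxy)]
  obtain ⟨s, t, h⟩ := mem_span_pair.1 ((C.line z hxy).1 hz)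
  obtain ⟨a, ha, ea⟩ := C.π_spec A x
  obtain ⟨b, hb, eb⟩ := C.π_spec A y
  obtain ⟨c, hc, ec⟩ := C.π_spec A z
  refine mem_span_pair.2 ⟨c * s * a⁻¹, c * t * b⁻¹, ?_⟩
  rw [ea, eb, ec, ← h, mulVec_add, mulVec_smul, mulVec_smul, smul_add, smul_smul, smul_smul,
    smul_smul, smul_smul, inv_mul_cancel_right₀ ha, inv_mul_cancel_right₀ hb]

variable (r) in
/-- a linear hyperplane -/
def Hf (f : Fin n → F) : Set X := {x | f ⬝ᵥ r x = 0}

include C

theorem hyp_f {f : Fin n → F} (hf : f ≠ 0) : L.Hyp (Hf r f) := by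
  refine ⟨fun {a b} ha hb hab c hc => ?_, fun {a b} hab => ?_, ?_⟩
  · obtain ⟨s, t, h⟩ := mem_span_pair.1 ((C.line c hab).1 hc)
    show f ⬝ᵥ r c = 0
    rw [← h, dotProduct_add, dotProduct_smul, dotProduct_smul, show f ⬝ᵥ r a = 0 from ha,
      show f ⬝ᵥ r b = 0 from hb]
    simp
  · by_cases ha : f ⬝ᵥ r a = 0
    · exact ⟨a, L.l_left hab, ha⟩
    have hv : (f ⬝ᵥ r a) • r b - (f ⬝ᵥ r b) • r a ≠ 0 := fun e => hab (C.inj
      (mem_span_singleton.2 ⟨(f ⬝ᵥ r a)⁻¹ * (f ⬝ᵥ r b), by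
        rw [← smul_smul, ← sub_eq_zero.1 e, smul_smul, inv_mul_cancel₀ ha, one_smul]⟩)).symm
    obtain ⟨x, hx⟩ := C.surj _ hv
    obtain ⟨c, hc⟩ := mem_span_singleton.1 hx
    have hc0 : c ≠ 0 := fun e => hv (by rw [← hc, e, zero_smul])
    have e : r x = c⁻¹ • ((f ⬝ᵥ r a) • r b - (f ⬝ᵥ r b) • r a) := by
      rw [← hc, smul_smul, inv_mul_cancel₀ hc0, one_smul]
    refine ⟨x, (C.line x hab).2 ?_, ?_⟩
    · rw [e]
      exact smul_mem _ _ (sub_mem (smul_mem _ _ (subset_span (by simp)))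
        (smul_mem _ _ (subset_span (by simp))))
    · show f ⬝ᵥ r x = 0
      rw [e, dotProduct_smul, dotProduct_sub, dotProduct_smul, dotProduct_smul, smul_eq_mul,
        smul_eq_mul, smul_eq_mul, mul_comm (f ⬝ᵥ r a), sub_self, mul_zero]
  · obtain ⟨v, hv⟩ := exists_dot_ne_zero hf
    obtain ⟨x, hx⟩ := C.surj v (fun e => hv (by simp [e]))
    obtain ⟨c, hc⟩ := mem_span_singleton.1 hx
    refine ⟨x, fun h => hv ?_⟩
    rw [dotProduct_comm, ← hc, dotProduct_smul, show f ⬝ᵥ r x = 0 from h, smul_zero]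

theorem hyp_eq {H : Set X} (hH : L.Hyp H) : ∃ f : Fin n → F, f ≠ 0 ∧ H = Hf r f := by
  let W : Submodule F (Fin n → F) :=
    { carrier := {v | v = 0 ∨ ∃ x ∈ H, v ∈ span F {r x}}
      zero_mem' := Or.inl rfl
      smul_mem' := by
        rintro c v (rfl | ⟨x, hx, h⟩)
        · left; simp
        · exact Or.inr ⟨x, hx, smul_mem _ c h⟩
      add_mem' := by
        rintro v w (rfl | ⟨x, hx, h⟩) hw
        · simpa using hw
        rcases hw with rfl | ⟨y, hy, h'⟩
        · exact Or.inr ⟨x, hx, by simpa using h⟩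
        by_cases hxy : x = y
        · subst hxy; exact Or.inr ⟨x, hx, add_mem h h'⟩
        by_cases h0 : v + w = 0
        · exact Or.inl h0
        obtain ⟨z, hz⟩ := C.surj _ h0
        refine Or.inr ⟨z, hH.sub hx hy hxy ((C.line z hxy).2 ?_), hz⟩
        obtain ⟨c, hc⟩ := mem_span_singleton.1 hz
        have hc0 : c ≠ 0 := fun e => h0 (by rw [← hc, e, zero_smul])
        have e : r z = c⁻¹ • (v + w) := by rw [← hc, smul_smul, inv_mul_cancel₀ hc0, one_smul]
        rw [e]
        exact smul_mem _ _ (add_mem (span_mono (by simp) h) (span_mono (by simp) h')) }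
  obtain ⟨O, hO⟩ := hH.ne
  have hOW : r O ∉ W := by
    rintro (h | ⟨x, hx, h⟩)
    · exact C.ne O h
    · exact hO (C.inj h ▸ hx)
  obtain ⟨f, hf1, hf2⟩ := exists_le_ker_of_notMem hOW
  obtain ⟨w, hw⟩ := exists_dot f
  refine ⟨w, fun e => hf1 (by rw [hw, e, zero_dotProduct]), ?_⟩
  ext x
  show x ∈ H ↔ w ⬝ᵥ r x = 0
  rw [← hw]
  refine ⟨fun h => hf2 (Or.inr ⟨x, h, mem_span_singleton_self _⟩), fun h => ?_⟩
  have hx : O ≠ x := fun e => hf1 (e ▸ h)
  obtain ⟨c, hc, hcH⟩ := hH.meet hx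
  obtain ⟨s, t, e⟩ := mem_span_pair.1 ((C.line c hx).1 hc)
  have h1 : f (r c) = 0 := hf2 (Or.inr ⟨c, hcH, mem_span_singleton_self _⟩)
  rw [← e, map_add, map_smul, map_smul, h, smul_zero, add_zero, smul_eq_zero] at h1
  rw [h1.resolve_right hf1, zero_smul, zero_add] at e
  exact C.inj (mem_span_singleton.2 ⟨t, e⟩) ▸ hcH

theorem el_tv {u f : Fin n → F} (h : f ⬝ᵥ u = 0) : L.El (Hf r f) (C.π (tv u f h)) := by
  refine ⟨C.col_π _, fun x hx => C.π_eq _ ?_, ?_⟩
  · rw [tv_mulVec, show f ⬝ᵥ r x = 0 from hx, zero_smul, add_zero]; exact mem_span_singleton_self _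
  by_cases hu : u = 0
  · left
    rw [tv_eq_one_iff.2 (Or.inl hu)]; exact map_one C.π
  right
  intro P hP e
  obtain ⟨c, hc, ec⟩ := C.π_spec (tv u f h) P
  rw [e, tv_mulVec] at ec
  have h1 := congrArg (f ⬝ᵥ ·) ec
  simp only [dotProduct_smul, dotProduct_add, h, mul_zero, add_zero, smul_eq_mul] at h1
  have h2 : c = 1 := by
    have hP' : f ⬝ᵥ r P ≠ 0 := hP
    exact mul_right_cancel₀ hP' (h1.symm.trans (one_mul _).symm)
  rw [h2, one_smul, left_eq_add, smul_eq_zero] at ec
  exact hu (ec.resolve_left hP)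

theorem el_mem [Finite X] {H : Set X} (hH : L.Hyp H) {σ : Equiv.Perm X} (hσ : L.El H σ) :
    σ ∈ C.π.range := by
  obtain ⟨f, hf, rfl⟩ := C.hyp_eq hH
  obtain ⟨O, hO⟩ := hH.ne
  have hP := hσ.not_mem hO
  have hO' : f ⬝ᵥ r O ≠ 0 := hO
  have hP' : f ⬝ᵥ r (σ O) ≠ 0 := hP
  have h : f ⬝ᵥ ((f ⬝ᵥ r (σ O))⁻¹ • r (σ O) - (f ⬝ᵥ r O)⁻¹ • r O) = 0 := by
    rw [dotProduct_sub, dotProduct_smul, dotProduct_smul, smul_eq_mul, smul_eq_mul,
      inv_mul_cancel₀ hO', inv_mul_cancel₀ hP', sub_self]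
  refine ⟨_, LS.El.uniq hH (C.el_tv h) hσ hO (C.π_eq _ ?_)⟩
  rw [tv_mulVec, smul_sub, smul_smul, smul_smul, mul_inv_cancel₀ hO', one_smul, add_sub_cancel]
  exact smul_mem _ _ (mem_span_singleton_self _)

end Coord

variable {G X : Type*} [Group G] [MulAction G X] {L : LS X}

theorem PS.trans (S : PS G L) (x y : X) : ∃ g : G, g • x = y := by
  by_cases h : x = y
  · exact ⟨1, by rw [one_smul, h]⟩
  obtain ⟨z, hz, h1, h2⟩ := L.three h
  obtain ⟨n, -, e⟩ := S.tr1 h1.symm
    (by rw [L.l_eq h h1 hz (L.l_left h)]; exact L.l_right h) h2.symm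
  exact ⟨n, e⟩

theorem PS.range_le (S : PS G L) [Finite X] {H : Set X} {hH : L.Hyp H}
    (hr : Reg G hH) {F : Type*} [Field F] {n : ℕ} {r : X → Fin n → F} (C : Coord L F r) :
    C.π.range ≤ (toPermHom G X).range := by
  let Gd : Set X → Prop := fun K => ∀ σ, L.El K σ → σ ∈ (toPermHom G X).range
  have g0 : Gd H := by
    intro σ hσ
    obtain ⟨O, hO⟩ := hH.ne
    obtain ⟨t, ht, e⟩ := hr O _ hO (hσ.not_mem hO)
    exact ⟨t, LS.El.uniq hH ht hσ hO e⟩
  have g1 : ∀ K, Gd K → ∀ g : G, Gd ((toPerm g : Equiv.Perm X) '' K) := by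
    intro K hK g σ hσ
    have h1 := hσ.conj (S.col g).inv
    rw [Set.image_image] at h1
    simp only [Equiv.Perm.coe_inv, Equiv.symm_apply_apply, Set.image_id'] at h1
    have h2 := hK _ h1
    have h3 : (toPerm g : Equiv.Perm X) ∈ (toPermHom G X).range := ⟨g, rfl⟩
    have := mul_mem (mul_mem h3 h2) (inv_mem h3)
    rwa [show toPerm g * ((toPerm g)⁻¹ * σ * (toPerm g)⁻¹⁻¹) * (toPerm g)⁻¹ = σ by group] at this
  have sm : ∀ (c : F) (f : Fin n → F), c ≠ 0 → Coord.Hf r (c • f) = Coord.Hf r f := by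
    intro c f hc
    ext x
    simp [Coord.Hf, hc]
  let W : Submodule F (Fin n → F) :=
    { carrier := {f | f = 0 ∨ Gd (Coord.Hf r f)}
      zero_mem' := Or.inl rfl
      smul_mem' := by
        rintro c f (rfl | h)
        · left; simp
        by_cases hc : c = 0
        · left; simp [hc]
        · right; rwa [sm c f hc]
      add_mem' := by
        rintro f1 f2 (rfl | h1) h2
        · simpa using h2
        rcases h2 with rfl | h2
        · right; simpa using h1
        by_cases hd : f2 ∈ span F {f1}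
        · obtain ⟨c, rfl⟩ := mem_span_singleton.1 hd
          have e : f1 + c • f1 = (1 + c) • f1 := by rw [add_smul, one_smul]
          by_cases hc : 1 + c = 0
          · left; rw [e, hc, zero_smul]
          · right; rwa [e, sm _ _ hc]
        obtain ⟨l, hl1, hl2⟩ := exists_le_ker_of_notMem hd
        obtain ⟨w0, hw0⟩ := exists_dot l
        have k1 : f1 ⬝ᵥ (-(l f2)⁻¹ • w0) = 0 := by
          rw [dotProduct_smul, dotProduct_comm, ← hw0, show l f1 = 0 from
            hl2 (mem_span_singleton_self _), smul_zero]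
        have k2 : f2 ⬝ᵥ (-(l f2)⁻¹ • w0) = -1 := by
          rw [dotProduct_smul, dotProduct_comm, ← hw0, smul_eq_mul, neg_mul, inv_mul_cancel₀ hl1]
        obtain ⟨g, hg⟩ := h1 _ (C.el_tv k1)
        have key : ∀ x, C.π (tv _ _ k1) x ∈ Coord.Hf r (f1 + f2) ↔ x ∈ Coord.Hf r f2 := by
          intro x
          obtain ⟨c, hc, e⟩ := C.π_spec (tv _ _ k1) x
          show (f1 + f2) ⬝ᵥ _ = 0 ↔ f2 ⬝ᵥ _ = 0
          rw [e, tv_mulVec, dotProduct_smul, smul_eq_zero, dotProduct_add, dotProduct_smul,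
            add_dotProduct, add_dotProduct, k1, k2]
          simp [hc]
        right
        have e : Coord.Hf r (f1 + f2) = (toPerm g : Equiv.Perm X) '' Coord.Hf r f2 := by
          rw [show (toPerm g : Equiv.Perm X) = _ from hg]
          ext y
          obtain ⟨x, rfl⟩ := (C.π (tv _ _ k1)).surjective y
          rw [key, (C.π (tv _ _ k1)).injective.mem_set_image]
        rw [e]; exact g1 _ h2 g }
  have hW : W = ⊤ := by
    by_contra hne
    obtain ⟨l, hl1, hl2⟩ := exists_le_ker_of_lt_top W (lt_top_iff_ne_top.2 hne)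
    obtain ⟨w, hw⟩ := exists_dot l
    have hw0 : w ≠ 0 := fun e => hl1 (LinearMap.ext fun v => by rw [hw, e]; simp)
    obtain ⟨x, hx⟩ := C.surj w hw0
    obtain ⟨c, hc⟩ := mem_span_singleton.1 hx
    obtain ⟨O, hO⟩ := hH.ne
    obtain ⟨g, hg⟩ := S.trans O x
    obtain ⟨f, -, e⟩ := C.hyp_eq (hH.image (S.col g))
    have h1 : l f = 0 := hl2 (Or.inr (e ▸ g1 H g0 g))
    rw [hw, ← hc, smul_dotProduct, smul_eq_zero, dotProduct_comm] at h1
    have h2 : x ∈ Coord.Hf r f := h1.resolve_left (fun e => hw0 (by rw [← hc, e, zero_smul]))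
    rw [← e] at h2
    obtain ⟨y, hy, e2⟩ := h2
    exact hO (smul_left_cancel g (e2.trans hg.symm) ▸ hy)
  rintro _ ⟨A, rfl⟩
  induction A using QuotientGroup.induction_on with | _ A =>
  have hn := C.three_le
  rw [Module.finrank_fin_fun] at hn
  haveI : Nontrivial (Fin n) := Fin.nontrivial_iff_two_le.2 (by omega)
  induction A using Cfsg.Agent.Classical.SLBasic.transvection_induction with
  | htransvec i j h c =>
    rw [transvection_eq]
    rcases (hW ▸ mem_top : Pi.single j c ∈ W) with h0 | h0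
    · rw [tv_eq_one_iff.2 (Or.inr h0), QuotientGroup.mk_one, map_one]; exact one_mem _
    · exact h0 _ (C.el_tv _)
  | hmul A B hA hB => rw [QuotientGroup.mk_mul, map_mul]; exact mul_mem hA hB

theorem PS.conj_mem (S : PS G L) [Finite X] {F : Type*} [Field F] {n : ℕ} {r : X → Fin n → F}
    (C : Coord L F r) (g : G) {σ : Equiv.Perm X} (hσ : σ ∈ C.π.range) :
    toPerm g * σ * (toPerm g)⁻¹ ∈ C.π.range := by
  obtain ⟨A, rfl⟩ := hσ
  induction A using QuotientGroup.induction_on with | _ A =>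
  have hn := C.three_le
  rw [Module.finrank_fin_fun] at hn
  haveI : Nontrivial (Fin n) := Fin.nontrivial_iff_two_le.2 (by omega)
  induction A using Cfsg.Agent.Classical.SLBasic.transvection_induction with
  | htransvec i j h c =>
    rw [transvection_eq]
    by_cases h0 : (Pi.single j c : Fin n → F) = 0
    · rw [tv_eq_one_iff.2 (Or.inr h0)]; exact ⟨1, by simp⟩
    · exact C.el_mem ((C.hyp_f h0).image (S.col g)) ((C.el_tv _).conj (S.col g))
  | hmul A B hA hB =>
    have := mul_mem hA hB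
    rw [QuotientGroup.mk_mul, map_mul]
    convert this using 1; group

/-- recognition of projective spaces and their linear groups -/
theorem PS.main (S : PS G L) [Finite X] [Finite G] [FaithfulSMul G X] :
    ∃ (F : Type) (_ : Field F) (_ : Fintype F) (n : ℕ) (φ : X ≃ ℙ F (Fin n → F)), 3 ≤ n ∧
      (∀ a b c : X, a ≠ b → (c ∈ L.ln a b ↔
        (φ c).submodule ≤ (φ a).submodule ⊔ (φ b).submodule)) ∧
      ∃ K : Subgroup G, K.Normal ∧ Subgroup.centralizer (K : Set G) = ⊥ ∧
        Nonempty (K ≃* ProjectiveSpecialLinearGroup (Fin n) F) := by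
  obtain ⟨H, g, hH, hg, hg1⟩ := S.exists_hyp
  have hr : Reg G hH := fun O P hO hP => S.regular hH hg hg1 hO hP
  obtain ⟨F, _, _, n, r, hn, C⟩ := S.coord hr
  refine ⟨F, inferInstance, inferInstance, n, C.φ, hn, fun a b c hab => ?_,
    C.π.range.comap (toPermHom G X), ⟨fun k hk g => ?_⟩, ?_, ?_⟩
  · rw [C.line c hab, C.φ_apply, C.φ_apply, C.φ_apply, Projectivization.submodule_mk,
      Projectivization.submodule_mk, Projectivization.submodule_mk, span_singleton_le_iff_mem,
      ← span_union]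
    rfl
  · rw [Subgroup.mem_comap, map_mul, map_mul, map_inv]
    exact S.conj_mem C g hk
  · rw [eq_bot_iff]
    intro c hc
    rw [Subgroup.mem_bot]
    refine toPerm_eq_one (X := X) (Equiv.ext fun x => ?_)
    show c • x = x
    by_contra hx
    obtain ⟨z, -, h1, h2⟩ := L.three hx
    have h2t : IsMultiplyPretransitive (SpecialLinearGroup (Fin n) F) (ℙ F (Fin n → F)) 2 :=
      inferInstance
    obtain ⟨A, a1, a2⟩ := is_two_pretransitive_iff.1 h2t (C.φ.injective.ne (Ne.symm hx))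
      (C.φ.injective.ne h2.symm)
    rw [← C.φ_π] at a1 a2
    obtain ⟨k, hk⟩ := S.range_le hr C ⟨(A : ProjectiveSpecialLinearGroup (Fin n) F), rfl⟩
    have hk' : k ∈ C.π.range.comap (toPermHom G X) := ⟨_, hk.symm⟩
    have e := Subgroup.mem_centralizer_iff.1 hc k hk'
    have b1 : k • x = x := by
      have := C.φ.injective a1
      rwa [← hk] at this
    have b2 : k • c • x = z := by
      have := C.φ.injective a2
      rwa [← hk] at this
    rw [← mul_smul, e, mul_smul, b1] at b2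
    exact h1 b2.symm
  · have hi : Function.Injective (toPermHom G X) := toPerm_injective
    refine ⟨((C.π.range.comap (toPermHom G X)).equivMapOfInjective _ hi).trans
      ((MulEquiv.subgroupCongr (Subgroup.map_comap_eq_self (S.range_le hr C))).trans
        (MonoidHom.ofInjective C.π_inj).symm)⟩

end Cfsg.Agent.PG
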