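import Mathlib
import Cfsg.Agent.PG.Lin

/-! O'Nan's characterisation of `PSL_n(q)` as a doubly transitive group. -/

set_option autoImplicit false

namespace Cfsg.Agent.PG

open MulAction

/-- a `p`-group normalising a nontrivial `p`-group centralises a nontrivial element -/
theorem exists_comm_fixed {G : Type*} [Group G] [Finite G] {p : ℕ} [Fact p.Prime] {U V : Subgroup G}
    (hU : IsPGroup p U) (hV : IsPGroup p V) (hn : ∀ u ∈ U, ∀ v ∈ V, u * v * u⁻¹ ∈ V)
    (h1 : V ≠ ⊥) : ∃ t ∈ V, t ≠ 1 ∧ ∀ u ∈ U, u * t = t * u := by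
  letI : MulAction U V :=
    { smul := fun u v => ⟨u * v * (u : G)⁻¹, hn u u.2 v v.2⟩
      one_smul := fun v => Subtype.ext (by
        show ((1 : U) : G) * v * ((1 : U) : G)⁻¹ = v
        simp)
      mul_smul := fun a b v => Subtype.ext (by
        show ((a * b : U) : G) * v * ((a * b : U) : G)⁻¹ = a * (b * v * (b : G)⁻¹) * (a : G)⁻¹
        simp [mul_assoc]) }
  have h2 : p ∣ Nat.card V := by
    obtain ⟨k, hk⟩ := IsPGroup.iff_card.1 hV
    rcases k with _ | k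
    · exact (h1 (Subgroup.card_eq_one.1 (by simpa using hk))).elim
    · rw [hk]; exact dvd_pow_self p (by omega)
  obtain ⟨t, ht, ht1⟩ := hU.exists_fixed_point_of_prime_dvd_card_of_fixed_point V h2 (a := 1)
    (fun u => Subtype.ext (by
      show (u : G) * ((1 : V) : G) * (u : G)⁻¹ = ((1 : V) : G)
      simp))
  refine ⟨t, t.2, fun e => ht1 (Subtype.ext e.symm), fun u hu => ?_⟩
  have : u * t * u⁻¹ = t := congrArg Subtype.val (ht ⟨u, hu⟩)
  exact mul_inv_eq_iff_eq_mul.1 this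

theorem card_stab {G X : Type*} [Group G] [MulAction G X] (A : Subgroup G) (a : X) :
    Nat.card (stabilizer A a) = Nat.card ↥(A ⊓ stabilizer G a) :=
  Nat.card_congr
    { toFun := fun v => ⟨v.1, v.1.2, v.2⟩
      invFun := fun v => ⟨⟨v.1, v.2.1⟩, v.2.2⟩
      left_inv := fun _ => rfl
      right_inv := fun _ => rfl }

theorem orbit_full {G X : Type*} [Group G] [Finite G] [MulAction G X] (A : Subgroup G) (a : X)
    {B : Set X} (hB : B.Finite) (h1 : ∀ n ∈ A, n • a ∈ B)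
    (h2 : Nat.card A = B.ncard * Nat.card ↥(A ⊓ stabilizer G a)) : ∀ b ∈ B, ∃ n ∈ A, n • a = b := by
  have h3 : orbit A a ⊆ B := by
    rintro _ ⟨n, rfl⟩; exact h1 n n.2
  have h4 := (stabilizer A a).index_mul_card
  rw [index_stabilizer, card_stab, h2] at h4
  have h5 := Nat.eq_of_mul_eq_mul_right Nat.card_pos h4
  have h6 := Set.eq_of_subset_of_ncard_le h3 h5.ge hB
  intro b hb
  obtain ⟨n, hn⟩ : b ∈ orbit A a := h6 ▸ hb
  exact ⟨n, n.2, hn⟩

theorem dvd_of_stab {G X : Type*} [Group G] [Finite G] [MulAction G X] [Finite X] (A : Subgroup G)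
    {B : Set X} (h1 : ∀ n ∈ A, ∀ b ∈ B, n • b ∈ B) {k : ℕ}
    (h2 : ∀ b ∈ B, Nat.card A = k * Nat.card ↥(A ⊓ stabilizer G b)) : k ∣ B.ncard := by
  classical
  let S : SubMulAction A X := { carrier := B, smul_mem' := fun n b hb => h1 n n.2 b hb }
  have h3 : B.ncard = Nat.card S := rfl
  rw [h3, Nat.card_congr (selfEquivSigmaOrbits A S)]
  cases nonempty_fintype (orbitRel.Quotient A S)
  rw [Nat.card_sigma]
  refine Finset.dvd_sum fun ω _ => ?_
  have h4 := (stabilizer A ω.out).index_mul_card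
  have h5 : stabilizer A ω.out = stabilizer A (ω.out : X) := by
    ext n; simp [mem_stabilizer_iff, Subtype.ext_iff]
  rw [index_stabilizer, h5, card_stab, h2 _ ω.out.2] at h4
  have h6 := Nat.eq_of_mul_eq_mul_right Nat.card_pos h4
  rw [← h6]; exact dvd_rfl

/-- an invariant family of abelian normal `p`-subgroups of the point stabilisers -/
structure Fam (G X : Type*) [Group G] [MulAction G X] (p : ℕ) where
  N : X → Subgroup G
  conj : ∀ {x : X} {n : G} (g : G), n ∈ N x → g * n * g⁻¹ ∈ N (g • x)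
  fix : ∀ {x : X} {n : G}, n ∈ N x → n • x = x
  comm : ∀ {x : X} {a b : G}, a ∈ N x → b ∈ N x → a * b = b * a
  pg : ∀ x, IsPGroup p (N x)
  two : ∀ {a b c d : X}, a ≠ b → c ≠ d → ∃ g : G, g • a = c ∧ g • b = d
  nsr : ∃ x y : X, x ≠ y ∧ ∃ n ∈ N x, n ≠ 1 ∧ n • y = y

namespace Fam

variable {G X : Type*} [Group G] [MulAction G X] {p : ℕ} (S : Fam G X p)
include S

theorem card_eq [Finite G] (Φ : X → X → Subgroup G)
    (h : ∀ (x y : X) (n g : G), n ∈ Φ x y → g * n * g⁻¹ ∈ Φ (g • x) (g • y)) {x y a b : X}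
    (hxy : x ≠ y) (hab : a ≠ b) : Nat.card (Φ x y) = Nat.card (Φ a b) := by
  have key : ∀ {x y a b : X}, x ≠ y → a ≠ b → Nat.card (Φ x y) ≤ Nat.card (Φ a b) := by
    intro x y a b hxy hab
    obtain ⟨g, rfl, rfl⟩ := S.two hxy hab
    refine Nat.card_le_card_of_injective (fun t => ⟨g * t * g⁻¹, h x y t g t.2⟩) ?_
    intro s t hst
    have : g * s * g⁻¹ = g * t * g⁻¹ := congrArg Subtype.val hst
    exact Subtype.ext (by simpa using this)
  exact le_antisymm (key hxy hab) (key hab hxy)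

/-- the stabiliser of `y` in `N x` -/
def U (x y : X) : Subgroup G := S.N x ⊓ stabilizer G y

theorem mem_U {x y : X} {n : G} : n ∈ S.U x y ↔ n ∈ S.N x ∧ n • y = y := Iff.rfl

theorem conj_U {x y : X} {n : G} (g : G) (h : n ∈ S.U x y) : g * n * g⁻¹ ∈ S.U (g • x) (g • y) :=
  ⟨S.conj g h.1, by
    show (g * n * g⁻¹) • g • y = g • y
    rw [mul_smul, mul_smul, inv_smul_smul, show n • y = y from h.2]⟩

theorem card_U [Finite G] {x y a b : X} (hxy : x ≠ y) (hab : a ≠ b) :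
    Nat.card (S.U x y) = Nat.card (S.U a b) :=
  S.card_eq S.U (fun _ _ _ g h => S.conj_U g h) hxy hab

theorem s0 {x y : X} (h : x ≠ y) : ∃ n ∈ S.U x y, n ≠ 1 := by
  obtain ⟨a, b, hab, n, h1, h2, h3⟩ := S.nsr
  obtain ⟨g, rfl, rfl⟩ := S.two hab h
  exact ⟨_, S.conj_U g ⟨h1, h3⟩, fun e => h2 (by simpa using e)⟩

theorem conj' {x : X} {n g : G} (hg : g • x = x) (h : n ∈ S.N x) : g * n * g⁻¹ ∈ S.N x := by
  have := S.conj g h
  rwa [hg] at this

variable [FaithfulSMul G X]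

theorem s0' {x y : X} (h : x ≠ y) : ∃ n ∈ S.N x, n • y ≠ y := by
  by_contra hc
  push Not at hc
  obtain ⟨n, hn, h1⟩ := S.s0 h
  refine h1 (eq_of_smul_eq_smul (α := X) fun z => ?_)
  rw [one_smul]
  by_cases hz : z = x
  · rw [hz]; exact S.fix hn.1
  obtain ⟨g, g1, g2⟩ := S.two (Ne.symm hz) h
  have := hc _ (S.conj' g1 hn.1)
  rw [← g2, mul_smul, mul_smul, inv_smul_smul, smul_left_cancel_iff] at this
  exact this

variable [Finite G]

theorem s1 {x y : X} (h : x ≠ y) {g : G} (h1 : g ∈ S.N x) (h2 : g ∈ S.N y) : g = 1 := by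
  have cM := fun {x y a b : X} => S.card_eq (fun x y => S.N x ⊓ S.N y)
    (fun _ _ _ g h => ⟨S.conj g h.1, S.conj g h.2⟩) (x := x) (y := y) (a := a) (b := b)
  have eqM : ∀ {x y z w : X}, x ≠ y → z ≠ w → S.N x ⊓ S.N y ≤ S.N z → S.N x ⊓ S.N y ≤ S.N w →
      S.N x ⊓ S.N y = S.N z ⊓ S.N w := fun hxy hzw a b =>
    Subgroup.eq_of_le_of_card_ge (le_inf a b) (cM hzw hxy).le
  have mv : ∀ {x w : X} {n : G}, n ∈ S.N x → S.N x ⊓ S.N w ≤ S.N (n • w) := by
    intro x w n hn m hm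
    have := S.conj n hm.2
    rwa [S.comm hn hm.1, mul_inv_cancel_right] at this
  refine eq_of_smul_eq_smul (α := X) fun w => ?_
  rw [one_smul]
  by_cases hw : S.N x ⊓ S.N y ≤ S.N w
  · exact S.fix (hw ⟨h1, h2⟩)
  have hxw : x ≠ w := fun e => hw (e ▸ inf_le_left)
  have hyw : y ≠ w := fun e => hw (e ▸ inf_le_right)
  by_contra hne
  have e1 := eqM hxw (Ne.symm hne) inf_le_right (mv h1)
  have e2 := eqM hyw (Ne.symm hne) inf_le_right (mv h2)
  have e3 := eqM hxw h inf_le_left (by rw [e1, ← e2]; exact inf_le_left)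
  exact hw (e3 ▸ inf_le_right)

theorem s2 {x y : X} (h : x ≠ y) {u v : G} (hu : u ∈ S.U x y) (hv : v ∈ S.U y x) :
    u * v = v * u := by
  have h3 := S.s1 h (g := u * v * u⁻¹ * v⁻¹)
    (by rw [show u * v * u⁻¹ * v⁻¹ = u * (v * u⁻¹ * v⁻¹) by group]
        exact mul_mem hu.1 (S.conj' hv.2 (inv_mem hu.1)))
    (mul_mem (S.conj' hu.2 hv.1) (inv_mem hv.1))
  calc u * v = u * v * u⁻¹ * v⁻¹ * (v * u) := by group
    _ = v * u := by rw [h3, one_mul]

theorem s3 {y : X} {v c : G} (hv : v ∈ S.N y) (h1 : v ≠ 1) (h : c * v = v * c) : c • y = y := by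
  by_contra hne
  have := S.conj c hv
  rw [h, mul_inv_cancel_right] at this
  exact h1 (S.s1 hne this hv)

variable [Fact p.Prime]

theorem s4 {x y : X} (h : x ≠ y) {v n : G} (hv : v ∈ S.U y x) (hn : n ∈ S.N x) :
    v • n • y = n • y := by
  by_cases h0 : n⁻¹ • y = y
  · rw [← inv_smul_eq_iff.1 h0]; exact S.fix hv.1
  obtain ⟨t, ht, ht1, htc⟩ := exists_comm_fixed (p := p) (U := S.U x y) (V := S.U y (n⁻¹ • y))
    ((S.pg x).to_le inf_le_left) ((S.pg y).to_le inf_le_left) (fun u hu w hw => by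
      have := S.conj_U u hw
      rwa [show u • y = y from hu.2, ← mul_smul, S.comm hu.1 (inv_mem hn), mul_smul,
        show u • y = y from hu.2] at this)
    (by
      obtain ⟨m, hm, hm1⟩ := S.s0 (Ne.symm h0)
      exact fun e => hm1 (by rwa [e, Subgroup.mem_bot] at hm))
  obtain ⟨u, hu, hu1⟩ := S.s0 h
  have tx : t • x = x := S.s3 hu.1 hu1 (htc u hu).symm
  have c1 : n * t * n⁻¹ * t⁻¹ ∈ S.U x y := ⟨by
    rw [show n * t * n⁻¹ * t⁻¹ = n * (t * n⁻¹ * t⁻¹) by group]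
    exact mul_mem hn (S.conj' tx (inv_mem hn)), by
    show _ • y = y
    rw [mul_smul, mul_smul, mul_smul, inv_smul_eq_iff.2 (S.fix ht.1).symm,
      show t • n⁻¹ • y = n⁻¹ • y from ht.2, smul_inv_smul]⟩
  refine S.s3 (S.conj n ht.1) (fun e => ht1 (by simpa using e)) ?_
  have e1 := S.s2 h c1 hv
  have e2 := S.comm ht.1 hv.1
  calc v * (n * t * n⁻¹) = v * (n * t * n⁻¹ * t⁻¹) * t := by group
    _ = (n * t * n⁻¹ * t⁻¹) * (v * t) := by rw [← e1, mul_assoc]
    _ = n * t * n⁻¹ * v := by rw [← e2]; group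

theorem s6 {x a : X} (h : x ≠ a) {n u : G} (hn : n ∈ S.N x) (hna : n • a ≠ a) (hu : u ∈ S.U x a) :
    ∃ v ∈ S.U a x, v * n * v⁻¹ = n * u := by
  let c : S.U a x → S.U x a := fun v => ⟨n⁻¹ * (v * n * (v : G)⁻¹),
    S.mem_U.2 ⟨mul_mem (inv_mem hn) (S.conj' v.2.2 hn), by
      rw [mul_smul, mul_smul, mul_smul, inv_smul_eq_iff.2 (S.fix v.2.1).symm, S.s4 h v.2 hn,
        inv_smul_smul]⟩⟩
  have hc : Function.Bijective c := by
    rw [Nat.bijective_iff_injective_and_card]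
    refine ⟨fun v w e => ?_, S.card_U h.symm h⟩
    have e1 : (v : G) * n * (v : G)⁻¹ = w * n * (w : G)⁻¹ := mul_left_cancel (congrArg Subtype.val e)
    by_contra hne
    refine hna (S.s3 (v := (w : G)⁻¹ * v) (mul_mem (inv_mem w.2.1) v.2.1)
      (fun e => hne (Subtype.ext (inv_mul_eq_one.1 e).symm)) ?_)
    calc n * ((w : G)⁻¹ * v) = (w : G)⁻¹ * (w * n * (w : G)⁻¹) * v := by group
      _ = (w : G)⁻¹ * v * n := by rw [← e1]; group
  obtain ⟨v, hv⟩ := hc.2 ⟨u, hu⟩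
  exact ⟨v, v.2, inv_mul_eq_iff_eq_mul.1 (congrArg Subtype.val hv)⟩

/-- the lines -/
def ln (x y : X) : Set X := {z | ∀ u ∈ S.U x y, u • z = z}

omit [FaithfulSMul G X] [Finite G] [Fact p.Prime] in
theorem l_left (x y : X) : x ∈ S.ln x y := fun _ hu => S.fix hu.1

omit [FaithfulSMul G X] [Finite G] [Fact p.Prime] in
theorem l_right (x y : X) : y ∈ S.ln x y := fun _ hu => hu.2

omit [FaithfulSMul G X] [Fact p.Prime] in
theorem U_eq {x y z : X} (h : x ≠ y) (hz : z ∈ S.ln x y) (hzx : z ≠ x) : S.U x z = S.U x y :=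
  (Subgroup.eq_of_le_of_card_ge (H := S.U x y) (K := S.U x z)
    (fun u hu => S.mem_U.2 ⟨hu.1, hz u hu⟩) (S.card_U hzx.symm h).le).symm

theorem s5 {x y : X} (h : x ≠ y) : S.ln x y ⊆ S.ln y x := by
  intro z hz
  by_cases hzy : z = y
  · rw [hzy]; exact S.l_left y x
  by_cases hle : S.U y z ≤ S.U y x
  · rw [ln, ← Subgroup.eq_of_le_of_card_ge hle (S.card_U h.symm (Ne.symm hzy)).le]
    exact fun u hu => hu.2
  obtain ⟨n, hn, hn'⟩ := SetLike.not_le_iff_exists.1 hle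
  intro v hv
  obtain ⟨u, hu, e⟩ := S.s6 h.symm hn.1 (fun e => hn' ⟨hn.1, e⟩) hv
  have hz' : u • z = z := hz u hu
  rw [← inv_mul_eq_iff_eq_mul.2 e, mul_smul, mul_smul, mul_smul, inv_smul_eq_iff.2 hz'.symm,
    show n • z = z from hn.2, hz', inv_smul_eq_iff, show n • z = z from hn.2]

theorem l_comm {x y : X} (h : x ≠ y) : S.ln x y = S.ln y x := (S.s5 h).antisymm (S.s5 h.symm)

theorem l_eq {x y a b : X} (h : x ≠ y) (hab : a ≠ b) (ha : a ∈ S.ln x y) (hb : b ∈ S.ln x y) :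
    S.ln a b = S.ln x y := by
  have key : ∀ {x y z : X}, x ≠ y → z ∈ S.ln x y → z ≠ x → S.ln x z = S.ln x y :=
    fun h hz hzx => by rw [ln, ln, S.U_eq h hz hzx]
  by_cases hax : a = x
  · subst hax; exact key h hb hab.symm
  have e1 : S.ln a x = S.ln x y := (S.l_comm hax).trans (key h ha hax)
  rw [← e1]
  exact key hax (e1 ▸ hb) hab.symm

omit [FaithfulSMul G X] [Finite G] [Fact p.Prime] in
theorem l_smul (g : G) {x y z : X} (hz : z ∈ S.ln x y) : g • z ∈ S.ln (g • x) (g • y) := by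
  intro u hu
  have h1 := S.conj_U g⁻¹ hu
  rw [inv_smul_smul, inv_smul_smul] at h1
  have h2 := hz _ h1
  rw [mul_smul, mul_smul, inv_inv, inv_smul_eq_iff] at h2
  exact h2

omit [FaithfulSMul G X] [Finite G] [Fact p.Prime] in
theorem cen {x y : X} {n : G} (hn : n ∈ S.N x) : n • y ∈ S.ln x y := fun u hu => by
  rw [← mul_smul, S.comm hu.1 hn, mul_smul, show u • y = y from hu.2]

omit [FaithfulSMul G X] [Finite G] [Fact p.Prime] in
theorem l_card [Finite X] {x y a b : X} (h : x ≠ y) (hab : a ≠ b) :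
    (S.ln x y).ncard = (S.ln a b).ncard := by
  have key : ∀ {x y a b : X}, x ≠ y → a ≠ b → (S.ln x y).ncard ≤ (S.ln a b).ncard := by
    intro x y a b h hab
    obtain ⟨g, rfl, rfl⟩ := S.two h hab
    exact Set.ncard_le_ncard_of_injOn (g • ·) (fun z hz => S.l_smul g hz)
      (fun _ _ _ _ e => smul_left_cancel g e)
  exact le_antisymm (key h hab) (key hab h)

theorem fixL {x a b c : X} (hab : a ≠ b) (hx : x ∉ S.ln a b) {n : G} (hn : n ∈ S.N x)
    (h1 : n • a = a) (h2 : n • b = b) (hc : c ∈ S.ln a b) : n • c = c := by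
  by_contra hne
  have hxc : x ≠ c := fun e => hx (e ▸ hc)
  have h3 := S.l_smul n hc
  rw [h1, h2] at h3
  refine hx ?_
  rw [← S.l_eq hab hne h3 hc, S.l_eq hxc hne (S.cen hn) (S.l_right x c)]
  exact S.l_left x c

theorem s7 [Finite X] {x a b : X} (hab : a ≠ b) (hx : x ∉ S.ln a b) :
    (∀ n ∈ S.N x, ∃ c ∈ S.ln a b, n • c = c) ∧
    Nat.card (S.N x) = ((S.ln a b).ncard - 1) * Nat.card (S.U x a) ∧
    Nat.card (S.U x a) = ((S.ln a b).ncard - 1) * Nat.card ↥(S.U x a ⊓ stabilizer G b) := by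
  classical
  cases nonempty_fintype X
  cases nonempty_fintype G
  have nx : ∀ c ∈ S.ln a b, x ≠ c := fun c hc e => hx (e ▸ hc)
  have hxa := nx a (S.l_left a b)
  let D : Subgroup G :=
    { carrier := {n | n ∈ S.N x ∧ ∃ c ∈ S.ln a b, n • c = c}
      one_mem' := ⟨one_mem _, a, S.l_left a b, one_smul _ _⟩
      inv_mem' := fun {n} ⟨h1, c, hc, e⟩ => ⟨inv_mem h1, c, hc, inv_smul_eq_iff.2 e.symm⟩
      mul_mem' := by
        rintro t s ⟨ht, d, hd, et⟩ ⟨hs, c, hc, es⟩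
        refine ⟨mul_mem ht hs, ?_⟩
        by_cases h0 : t • c = c
        · exact ⟨c, hc, by rw [mul_smul, es, h0]⟩
        have hcd : c ≠ d := fun e => h0 (e ▸ et)
        obtain ⟨v, hv, e⟩ := S.s6 (nx c hc) ht h0 ⟨hs, es⟩
        refine ⟨v • d, S.l_eq hab hcd hc hd ▸ S.cen hv.1, ?_⟩
        rw [← e, mul_smul, mul_smul, inv_smul_smul, et] }
  set K := S.U x a ⊓ stabilizer G b with hK
  have mK : ∀ n, n ∈ K ↔ n ∈ S.N x ∧ ∀ c ∈ S.ln a b, n • c = c := fun n =>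
    ⟨fun h => ⟨h.1.1, fun c hc => S.fixL hab hx h.1.1 h.1.2 h.2 hc⟩,
      fun h => ⟨⟨h.1, h.2 a (S.l_left a b)⟩, h.2 b (S.l_right a b)⟩⟩
  have cK : ∀ A : Subgroup G, K ≤ A →
      (Finset.univ.filter (fun n => n ∈ A ∧ n ∉ K)).card + Nat.card K = Nat.card A := by
    intro A hA
    rw [Nat.card_eq_fintype_card, Nat.card_eq_fintype_card, Fintype.card_subtype,
      Fintype.card_subtype, ← Finset.card_union_of_disjoint (by
        rw [Finset.disjoint_filter]; tauto)]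
    congr 1
    ext n
    simp only [Finset.mem_union, Finset.mem_filter, Finset.mem_univ, true_and]
    have := @hA n
    tauto
  have KU : ∀ c ∈ S.ln a b, K ≤ S.U x c := fun c hc n hn => ⟨((mK n).1 hn).1, ((mK n).1 hn).2 c hc⟩
  have UD : S.U x a ≤ D := fun n hn => ⟨hn.1, a, S.l_left a b, hn.2⟩
  have c1 : (Finset.univ.filter (fun n => n ∈ D ∧ n ∉ K)).card * 1 =
      (S.ln a b).toFinset.card * (Nat.card (S.U x a) - Nat.card K) := by
    refine Finset.card_mul_eq_card_mul (fun n c => n • c = c) ?_ ?_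
    · intro n hn
      simp only [Finset.mem_filter, Finset.mem_univ, true_and] at hn
      obtain ⟨⟨h1, c, hc, e⟩, h2⟩ := hn
      rw [Finset.card_eq_one]
      refine ⟨c, Finset.eq_singleton_iff_unique_mem.2
        ⟨(Finset.mem_bipartiteAbove _).2 ⟨by simpa using hc, e⟩, ?_⟩⟩
      intro d hd
      simp only [Finset.mem_bipartiteAbove, Set.mem_toFinset] at hd
      by_contra hne
      refine h2 ((mK n).2 ⟨h1, fun w hw => ?_⟩)
      have e1 := S.l_eq hab hne hd.1 hc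
      exact S.fixL hne (e1 ▸ hx) h1 hd.2 e (e1 ▸ hw)
    · intro c hc
      simp only [Set.mem_toFinset] at hc
      rw [S.card_U hxa (nx c hc), ← cK _ (KU c hc), Nat.add_sub_cancel]
      congr 1
      ext n
      simp only [Finset.mem_bipartiteBelow, Finset.mem_filter, Finset.mem_univ, true_and]
      exact ⟨fun h => ⟨⟨h.1.1.1, h.2⟩, h.1.2⟩, fun h => ⟨⟨⟨h.1.1, c, hc, h.1.2⟩, h.2⟩, h.1.2⟩⟩
  rw [← Set.ncard_eq_toFinset_card', mul_one] at c1
  have c2 := cK D ((KU a (S.l_left a b)).trans UD)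
  obtain ⟨k, hk⟩ := Subgroup.card_dvd_of_le (inf_le_left : S.U x a ≤ S.N x)
  obtain ⟨k', hk'⟩ := Subgroup.card_dvd_of_le (KU a (S.l_left a b))
  obtain ⟨e, he⟩ := Subgroup.card_dvd_of_le UD
  have DN : D ≤ S.N x := fun n hn => hn.1
  obtain ⟨f, hf⟩ := Subgroup.card_dvd_of_le DN
  have hk0 : Nat.card (S.N x) = Nat.card (S.U x a) * k := hk
  have c3 : k ∣ (S.ln x a \ {x}).ncard := by
    refine dvd_of_stab (S.N x) (B := S.ln x a \ {x})
      (fun n hn c hc => ⟨?_, fun e => hc.2 ?_⟩) (fun c hc => ?_)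
    · rw [← S.l_eq hxa (Ne.symm hc.2) (S.l_left x a) hc.1]; exact S.cen hn
    · exact smul_left_cancel n (e.trans (S.fix hn).symm)
    · rw [hk0, mul_comm, S.card_U hxa (Ne.symm hc.2)]; rfl
  rw [Set.ncard_diff_singleton_of_mem (S.l_left x a), S.l_card hxa hab] at c3
  have c4 : 2 ≤ k' := by
    by_contra hlt
    have h1 : k' = 1 := by
      have : Nat.card (S.U x a) ≠ 0 := Nat.card_pos.ne'
      rcases k' with _ | _ | k'
      · omega
      · rfl
      · omega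
    rw [h1, mul_one] at hk'
    have h2 := Subgroup.eq_of_le_of_card_ge (KU a (S.l_left a b)) hk'.le
    refine hx ?_
    rw [S.l_eq hxa hab (S.l_right x a) (fun u hu => (h2 ▸ hu : u ∈ K).2)]
    exact S.l_left x a
  have c5 : 2 ≤ (S.ln a b).ncard := (Set.one_lt_ncard (Set.toFinite _)).2
    ⟨a, S.l_left a b, b, S.l_right a b, hab⟩
  obtain ⟨q, hq⟩ : ∃ q, (S.ln a b).ncard = q + 1 := ⟨(S.ln a b).ncard - 1, by omega⟩
  rw [hq] at c1 c3 c5 ⊢
  simp only [Nat.add_sub_cancel] at c3 ⊢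
  have κ0 : 0 < Nat.card K := Nat.card_pos
  have u0 : 0 < Nat.card (S.U x a) := Nat.card_pos
  set κ := Nat.card K
  have ek : k = e * f := by
    rw [he, hk0, mul_assoc] at hf
    exact Nat.eq_of_mul_eq_mul_left u0 hf
  obtain ⟨j, rfl⟩ : ∃ j, k' = j + 1 := ⟨k' - 1, by omega⟩
  have c6 : (q + 1) * j + 1 = (j + 1) * e := by
    rw [c1, he, hk'] at c2
    have : κ * (j + 1) - κ = κ * j := by rw [mul_add, mul_one, Nat.add_sub_cancel]
    rw [this] at c2
    exact Nat.eq_of_mul_eq_mul_left κ0 (by nlinarith)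
  obtain ⟨m, hm⟩ := c3
  have fm : f * m = 1 := by
    by_contra hne
    have h1 : f * m ≠ 0 := fun h0 => by
      rw [ek, mul_assoc, h0] at hm; omega
    have h2 : 2 * e ≤ q := by
      rw [hm, ek, mul_assoc, mul_comm 2]; exact Nat.mul_le_mul_left _ (by omega)
    nlinarith
  have f1 : f = 1 := Nat.eq_one_of_mul_eq_one_right fm
  have m1 : m = 1 := Nat.eq_one_of_mul_eq_one_left fm
  rw [f1, mul_one] at ek hf
  rw [m1, mul_one] at hm
  refine ⟨fun n hn => ((Subgroup.eq_of_le_of_card_ge DN hf.le).symm ▸ hn : n ∈ D).2,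
    by rw [hk0, hm, mul_comm], ?_⟩
  rw [← ek, ← hm] at c6
  have : j + 1 = q := by nlinarith
  rw [hk', this, mul_comm]

theorem tr [Finite X] {x a b a' b' : X} (hab : a ≠ b) (hx : x ∉ S.ln a b) (ha : a' ∈ S.ln x a)
    (ha' : a' ≠ x) (hb : b' ∈ S.ln x b) (hb' : b' ≠ x) : ∃ n ∈ S.N x, n • a = a' ∧ n • b = b' := by
  obtain ⟨-, h1, h2⟩ := S.s7 hab hx
  have hxa : x ≠ a := fun e => hx (e ▸ S.l_left x b)
  have hxb : x ≠ b := fun e => hx (e ▸ S.l_right a x)
  have mv : ∀ {c : X} {n : G}, n ∈ S.N x → c ≠ x → n • c ≠ x := fun {c n} hn hc e =>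
    hc (smul_left_cancel n (e.trans (S.fix hn).symm))
  obtain ⟨n, hn, e⟩ := orbit_full (S.N x) a (B := S.ln x a \ {x}) (Set.toFinite _)
    (fun n hn => ⟨S.cen hn, mv hn hxa.symm⟩) (by
      rw [Set.ncard_diff_singleton_of_mem (S.l_left x a), S.l_card hxa hab]; exact h1) a' ⟨ha, ha'⟩
  obtain ⟨u, hu, e'⟩ := orbit_full (S.U x a) b (B := S.ln x b \ {x}) (Set.toFinite _)
    (fun n hn => ⟨S.cen hn.1, mv hn.1 hxb.symm⟩) (by
      rw [Set.ncard_diff_singleton_of_mem (S.l_left x b), S.l_card hxb hab]; exact h2) (n⁻¹ • b')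
    ⟨by rw [← S.l_eq hxb hb'.symm (S.l_left x b) hb]; exact S.cen (inv_mem hn), mv (inv_mem hn) hb'⟩
  exact ⟨n * u, mul_mem hn hu.1, by rw [mul_smul, show u • a = a from hu.2, e],
    by rw [mul_smul, e', smul_inv_smul]⟩

/-- the linear space -/
def toLS [Finite X] : LS X where
  ln := S.ln
  l_left := fun {x y} _ => S.l_left x y
  l_right := fun {x y} _ => S.l_right x y
  l_eq := S.l_eq
  three := fun {x y} h => by
    obtain ⟨n, hn, e⟩ := S.s0' h
    exact ⟨n • y, S.cen hn, fun e => h.symm (smul_left_cancel n (e.trans (S.fix hn).symm)), e⟩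
  nondeg := by
    obtain ⟨x, y, h, n, h1, h2, h3⟩ := S.nsr
    by_contra hc
    push Not at hc
    exact h2 (eq_of_smul_eq_smul (α := X) fun z => by rw [one_smul]; exact hc x y z h n ⟨h1, h3⟩)
  vy := fun {x a b a' b'} hab hx ha ha' hb hb' => by
    obtain ⟨n, hn, e1, e2⟩ := S.tr hab hx ha ha' hb hb'
    obtain ⟨c, hc, e⟩ := (S.s7 hab hx).1 n hn
    have := S.l_smul n hc
    rw [e, e1, e2] at this
    exact ⟨c, hc, this⟩

/-- the projective system -/
def toPS [Finite X] : PS G S.toLS where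
  col := fun g _ _ _ _ hz => S.l_smul g hz
  N := S.N
  cen := fun hn => ⟨S.fix hn, fun _ _ => S.cen hn⟩
  fixline := fun hn _ h hc => hc _ ⟨hn, h⟩
  tr := S.tr
  fixpt := fun hab hx hn => (S.s7 hab hx).1 _ hn
  card := S.l_card

end Fam

/-- construction of the family from an abelian normal subgroup of a point stabiliser -/
theorem exists_fam {G X : Type*} [Group G] [Finite G] [MulAction G X]
    (h2 : IsMultiplyPretransitive G X 2) (x : X) (N : Subgroup G) (hle : N ≤ stabilizer G x)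
    (hn : ∀ g ∈ stabilizer G x, ∀ n ∈ N, g * n * g⁻¹ ∈ N) (hab : ∀ a ∈ N, ∀ b ∈ N, a * b = b * a)
    (hs : ∃ n ∈ N, n ≠ 1 ∧ ∃ y : X, y ≠ x ∧ n • y = y) :
    ∃ (p : ℕ) (_ : Fact p.Prime) (S : Fam G X p), S.N x ≤ N := by
  obtain ⟨n, hnN, hn1, y, hyx, hy⟩ := hs
  obtain ⟨p, hp, hd⟩ := Nat.exists_prime_and_dvd (n := orderOf n) (by simpa using hn1)
  haveI := Fact.mk hp
  let N1 : Subgroup G :=
    { carrier := {a | a ∈ N ∧ a ^ p = 1}
      one_mem' := ⟨one_mem _, one_pow _⟩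
      inv_mem' := fun h => ⟨inv_mem h.1, by rw [inv_pow, h.2, inv_one]⟩
      mul_mem' := fun {a b} ha hb => ⟨mul_mem ha.1 hb.1, by
        rw [Commute.mul_pow (hab a ha.1 b hb.1), ha.2, hb.2, one_mul]⟩ }
  have two : ∀ {a b c d : X}, a ≠ b → c ≠ d → ∃ g : G, g • a = c ∧ g • b = d :=
    is_two_pretransitive_iff.1 h2
  have tr : ∀ z : X, ∃ g : G, g • x = z := by
    intro z
    by_cases hz : z = x
    · exact ⟨1, by rw [one_smul, hz]⟩
    · obtain ⟨g, h, -⟩ := two (Ne.symm hz) hz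
      exact ⟨g, h⟩
  let M : X → Subgroup G := fun z =>
    { carrier := {a | ∀ g : G, g • x = z → g⁻¹ * a * g ∈ N1}
      one_mem' := fun g _ => by simp
      inv_mem' := fun {a} h g hg => by
        have := inv_mem (h g hg)
        rwa [show (g⁻¹ * a * g)⁻¹ = g⁻¹ * a⁻¹ * g by group] at this
      mul_mem' := fun {a b} ha hb g hg => by
        have := mul_mem (ha g hg) (hb g hg)
        rwa [show g⁻¹ * a * g * (g⁻¹ * b * g) = g⁻¹ * (a * b) * g by group] at this }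
  refine ⟨p, inferInstance, ⟨M, ?_, ?_, ?_, ?_, two, x, y, hyx.symm, n ^ (orderOf n / p), ?_, ?_, ?_⟩,
    fun a ha => by simpa using (ha 1 (one_smul _ _)).1⟩
  · intro z a g ha h hh
    have := ha (g⁻¹ * h) (by rw [mul_smul, hh, inv_smul_smul])
    rwa [show (g⁻¹ * h)⁻¹ * a * (g⁻¹ * h) = h⁻¹ * (g * a * g⁻¹) * h by group] at this
  · intro z a ha
    obtain ⟨g, hg⟩ := tr z
    have : (g⁻¹ * a * g) • x = x := hle (ha g hg).1
    rwa [mul_smul, mul_smul, inv_smul_eq_iff, hg] at this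
  · intro z a b ha hb
    obtain ⟨g, hg⟩ := tr z
    have := hab _ (ha g hg).1 _ (hb g hg).1
    have h1 : g⁻¹ * (a * b) * g = g⁻¹ * (b * a) * g := by
      calc _ = g⁻¹ * a * g * (g⁻¹ * b * g) := by group
        _ = _ := by rw [this]; group
    simpa using h1
  · intro z a
    obtain ⟨g, hg⟩ := tr z
    refine ⟨1, Subtype.ext ?_⟩
    have := (a.2 g hg).2
    rw [show g⁻¹ * (a : G) * g = g⁻¹ * a * g⁻¹⁻¹ by simp, conj_pow, conj_eq_one_iff] at this
    simpa using this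
  · intro g hg
    have := hn g⁻¹ (inv_mem (show g ∈ stabilizer G x from hg)) _ (pow_mem hnN (orderOf n / p))
    rw [inv_inv] at this
    refine ⟨this, ?_⟩
    rw [show g⁻¹ * n ^ (orderOf n / p) * g = g⁻¹ * n ^ (orderOf n / p) * g⁻¹⁻¹ by simp, conj_pow,
      ← pow_mul, Nat.div_mul_cancel hd, pow_orderOf_eq_one]
    simp
  · exact pow_ne_one_of_lt_orderOf (Nat.div_pos (Nat.le_of_dvd (orderOf_pos n) hd) hp.pos).ne'
      (Nat.div_lt_self (orderOf_pos n) hp.one_lt)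
  · exact pow_mem (show n ∈ stabilizer G y from hy) _

open scoped LinearAlgebra.Projectivization in
/-- O'Nan's theorem -/
theorem onan {G X : Type*} [Group G] [Finite G] [Finite X] [MulAction G X] [FaithfulSMul G X]
    (h2 : IsMultiplyPretransitive G X 2) (x : X) (N : Subgroup G) (hle : N ≤ stabilizer G x)
    (hn : ∀ g ∈ stabilizer G x, ∀ n ∈ N, g * n * g⁻¹ ∈ N) (hab : ∀ a ∈ N, ∀ b ∈ N, a * b = b * a)
    (hs : ∃ n ∈ N, n ≠ 1 ∧ ∃ y : X, y ≠ x ∧ n • y = y) :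
    ∃ (F : Type) (_ : Field F) (_ : Fintype F) (n : ℕ), 3 ≤ n ∧
      Nat.card X = Nat.card (ℙ F (Fin n → F)) ∧
      ∃ K : Subgroup G, K.Normal ∧ Subgroup.centralizer (K : Set G) = ⊥ ∧
        Nonempty (K ≃* Matrix.ProjectiveSpecialLinearGroup (Fin n) F) := by
  obtain ⟨p, _, S, -⟩ := exists_fam h2 x N hle hn hab hs
  obtain ⟨F, _, _, n, φ, h3, -, h⟩ := S.toPS.main
  exact ⟨F, inferInstance, inferInstance, n, h3, Nat.card_congr φ, h⟩

end Cfsg.Agent.PG
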