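import Mathlib
import Cfsg.Agent.PG.Baer
import Cfsg.Agent.PG.ONan

/-! The Ostrom-Wagner theorem. -/

set_option autoImplicit false

open scoped Classical

namespace Cfsg.Agent.PG

open MulAction Finset
open scoped LinearAlgebra.Projectivization

namespace Pl

variable {P L : Type*} [Fintype P] [Fintype L] {I : P → L → Prop} {n : ℕ} (Z : Pl I n)
  {G : Type*} [Group G] [Finite G] [MulAction G P] [MulAction G L]
  (hI : ∀ (g : G) p b, I (g • p) (g • b) ↔ I p b) (h2 : IsMultiplyPretransitive G P 2)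
include Z hI h2

theorem two_lines : IsMultiplyPretransitive G L 2 := by
  haveI : Nontrivial P := Fintype.one_lt_card_iff_nontrivial.1 (by
    rw [Z.card]; have := Z.two; omega)
  haveI : IsPretransitive G L := ⟨fun a b => by
    obtain ⟨A⟩ := Z.ne
    obtain ⟨B, h1, -⟩ := Z.third a A A
    obtain ⟨C, h3, h4, -⟩ := Z.third a B B
    obtain ⟨D, h5, -⟩ := Z.third b A A
    obtain ⟨E, h6, h7, -⟩ := Z.third b D D
    obtain ⟨g, rfl, rfl⟩ := (is_two_pretransitive_iff.1 h2) h4 h7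
    exact ⟨g, Z.leq h7 ((hI _ _ _).2 h3) ((hI _ _ _).2 h1) h6 h5⟩⟩
  exact Z.sd.two_trans hI h2

theorem anti_tr (Q : P) : TrOn (stabilizer G Q) {y | ¬ I Q y} := by
  intro a ha b hb
  by_contra hn
  push Not at hn
  cases nonempty_fintype G
  haveI : Nontrivial P := Fintype.one_lt_card_iff_nontrivial.1 (by
    rw [Z.card]; have := Z.two; omega)
  haveI : IsPretransitive G P := isPretransitive_of_is_two_pretransitive
  have h3 := (Char.card_orbits_prod_eq_two_iff P).2 h2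
  have h4 := Perm.sum_card_fixedBy (G := G) (α := P × P)
  have h5 := Perm.sum_card_fixedBy (G := G) (α := P × L)
  simp only [Char.card_fixedBy_prod, Z.sd.fixedBy_eq hI] at h4 h5
  rw [h4, h3] at h5
  have h6 := Nat.eq_of_mul_eq_mul_right Nat.card_pos h5
  obtain ⟨c, hc, -⟩ := Z.dual.third Q a a
  have h7 : ∀ y, ¬ I Q y → (Quotient.mk'' (Q, c) : orbitRel.Quotient G (P × L)) ≠
      Quotient.mk'' (Q, y) := by
    intro y hy e
    obtain ⟨g, hg⟩ := Quotient.exact' e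
    have h8 : g • Q = Q := congrArg Prod.fst hg
    have h9 : g • y = c := congrArg Prod.snd hg
    exact hy ((hI g _ _).1 (by rw [h8, h9]; exact hc))
  obtain ⟨x, hx⟩ := (Nat.card_eq_two_iff' (Quotient.mk'' (Q, c) :
    orbitRel.Quotient G (P × L))).1 h6.symm
  obtain ⟨g, hg⟩ := Quotient.exact' ((hx.2 _ (h7 b hb).symm).trans (hx.2 _ (h7 a ha).symm).symm)
  exact hn g (congrArg Prod.fst hg) (congrArg Prod.snd hg)

variable [FaithfulSMul G P]

theorem persp_even (hn : Even n) : ∃ g : G, g ≠ 1 ∧ ∃ c, g ∈ Ax G I c := by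
  obtain ⟨A⟩ := Z.ne
  have hk := Z.two
  obtain ⟨S, hS⟩ := Core.exists_isSylowOf 2 (stabilizer G A)
  have h1 : {X | X ≠ A}.ncard = n ^ 2 + n := by
    have := Set.ncard_add_ncard_compl {A}
    rw [Set.ncard_singleton, Nat.card_eq_fintype_card, Z.card] at this
    have e : {X | X ≠ A} = {A}ᶜ := by ext; simp
    rw [e]; omega
  have h3 : ∀ j, 2 ^ j ∣ n ^ 2 + n → ∀ X, X ≠ A → 2 ^ j ∣ (stabilizer G X).relIndex S := by
    intro j hj X hX
    refine dvd_relIndex_of_coprime hS.le ?_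
      (Nat.Coprime.pow_left _ ((Nat.Prime.coprime_iff_not_dvd Nat.prime_two).2 hS.not_dvd))
    rw [relIndex_of_tr (Y := {X | X ≠ A}) (fun g hg y hy e => hy ?_) (fun a ha b hb => ?_) hX, h1]
    · exact hj
    · rw [← show g • A = A from hg] at e; exact smul_left_cancel g e
    · obtain ⟨g, h3, h4⟩ := (is_two_pretransitive_iff.1 h2) ha hb
      exact ⟨g, h4, h3⟩
  have h4 : S ≠ ⊥ := by
    rintro rfl
    obtain ⟨l⟩ := Z.dual.ne
    obtain ⟨X, -, hX, -⟩ := Z.third l A A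
    have := h3 1 (by rw [pow_one, pow_two]; exact dvd_add (hn.two_dvd.mul_left n) hn.two_dvd) X hX
    simp at this
  obtain ⟨t, h5, h6, h7⟩ := exists_comm_fixed hS.isPGroup hS.isPGroup
    (fun u hu v hv => S.mul_mem (S.mul_mem hu hv) (S.inv_mem hu)) h4
  obtain ⟨z, ⟨i, rfl⟩, h8, -, h9⟩ := exists_norm_sq (K := ⊥)
    (hS.isPGroup.to_le (Subgroup.zpowers_le.2 h5))
    (bot_lt_iff_ne_bot.2 (by simpa using h6))
  have h10 : ∀ u ∈ S, u * t ^ i = t ^ i * u := fun u hu => (show Commute u t from h7 u hu).zpow_right i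
  have h11 : t ^ i • A = A := hS.le (S.zpow_mem h5 i)
  rw [Subgroup.mem_bot] at h8 h9
  simp only at h8 h9
  generalize t ^ i = z at *
  refine ⟨z, h8, Z.baer_ax hI h9 fun hc => ?_⟩
  have q : ∀ x : P, x ∈ fixedPoints (Subgroup.zpowers z) P ↔ z • x = x := fun x => by
    rw [mem_fp, Subgroup.zpowers_le]; rfl
  have q' : ∀ x : L, x ∈ fixedPoints (Subgroup.zpowers z) L ↔ z • x = x := fun x => by
    rw [mem_fp, Subgroup.zpowers_le]; rfl
  obtain ⟨m, Z'⟩ := Z.sub_pl hI (K := Subgroup.zpowers z) (by simpa only [q, q'] using hc)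
  rcases Z.baer_order hI h9 Z' Subtype.val Subtype.val Subtype.val_injective (fun _ _ => Iff.rfl)
    (fun X => by rw [Subtype.range_coe, q]) (fun X => by rw [Subtype.range_coe, q']; exact id)
    with ⟨h12, -⟩ | rfl
  · exact h8 (eq_of_smul_eq_smul (α := P) fun X => by rw [one_smul, h12])
  have h12 : {X | z • X = X ∧ X ≠ A}.ncard = m ^ 2 + m := by
    have h12 := Set.ncard_diff_singleton_add_one ((q A).2 h11)
    have h13 : (fixedPoints (Subgroup.zpowers z) P).ncard = m ^ 2 + m + 1 := by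
      rw [← Z'.card, ← Nat.card_eq_fintype_card]; rfl
    have e : {X | z • X = X ∧ X ≠ A} = fixedPoints (Subgroup.zpowers z) P \ {A} := by
      ext X; simp only [Set.mem_setOf_eq, Set.mem_diff, q, Set.mem_singleton_iff]
    rw [e]; omega
  have hm := Z'.two
  obtain ⟨b, r, hr, e⟩ := Nat.exists_eq_two_pow_mul_odd (show m ≠ 0 by omega)
  have h13 : Even m := (Nat.even_pow.1 hn).1
  have h14 : 2 ^ (b + b) ∣ m ^ 2 + m := by
    rw [← h12]
    refine dvd_ncard (A := S) (fun g hg y hy => ?_) fun X hX => h3 _ ?_ X hX.2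
    · refine ⟨?_, fun e => hy.2 ?_⟩
      · rw [← mul_smul, ← h10 g hg, mul_smul, hy.1]
      · rw [← show g • A = A from hS.le hg] at e; exact smul_left_cancel g e
    · refine Dvd.intro (r ^ 2 * (m ^ 2 + 1)) ?_
      rw [e]; ring
  rw [show m ^ 2 + m = (m + 1) * m by ring] at h14
  have h15 := (Nat.Coprime.pow_left _ (Nat.coprime_two_left.2 h13.add_one)).dvd_of_dvd_mul_left h14
  rw [e, pow_add] at h15
  have h16 := Nat.dvd_of_mul_dvd_mul_left (by positivity) h15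
  rcases b with _ | b
  · rw [e] at h13
    exact Nat.not_even_iff_odd.2 hr (by simpa using h13)
  · exact Nat.not_even_iff_odd.2 hr (even_iff_two_dvd.2 ((dvd_pow_self 2 (by omega)).trans h16))

theorem persp_pp (hn : IsPrimePow n) : ∃ g : G, g ≠ 1 ∧ ∃ c, g ∈ Ax G I c := by
  obtain ⟨p, r, hp, hr, e⟩ := (isPrimePow_nat_iff n).1 hn
  haveI := Fact.mk hp
  have hk := Z.two
  have hI' : ∀ (g : G) (l : L) (p : P), I (g • p) (g • l) ↔ I p l := fun g p b => hI g b p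
  obtain ⟨l⟩ := Z.dual.ne
  obtain ⟨A⟩ := Z.ne
  obtain ⟨A, hA, -⟩ := Z.third l A A
  obtain ⟨Q, hQ, hQA, -⟩ := Z.third l A A
  have hcop : ∀ {W H : Subgroup G}, Core.IsSylowOf p W H → n.Coprime (W.relIndex H) :=
    fun h => e ▸ Nat.Coprime.pow_left _ ((Nat.Prime.coprime_iff_not_dvd hp).2 h.not_dvd)
  have h1 : InvOn (stabilizer G Q) {y | ¬ I Q y} := fun g hg y hy e =>
    hy ((hI g _ _).1 (by rw [show g • Q = Q from hg]; exact e))
  have h3 : TrOn (stabilizer G l ⊓ stabilizer G Q) {y | ¬ I Q y} := by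
    refine tr_of_coprime inf_le_right h1 (Z.anti_tr hI h2 Q) ?_
    rw [Subgroup.inf_relIndex_right, relIndex_of_tr (Y := {y | I Q y})
      (fun g hg y hy => (show g • Q = Q from hg) ▸ (hI g _ _).2 hy) (fun a ha b hb => ?_) hQ,
      Z.dual.ncard_on, Z.dual.ncard_off]
    · simp
    · obtain ⟨X, h3, h4, -⟩ := Z.third a Q Q
      obtain ⟨Y, h5, h6, -⟩ := Z.third b Q Q
      obtain ⟨g, h7, h8⟩ := (is_two_pretransitive_iff.1 h2) h4 h6
      exact ⟨g, h8, Z.leq h6 (h7 ▸ (hI g _ _).2 h3) (h8 ▸ (hI g _ _).2 ha) h5 hb⟩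
  have h4 : ∀ g ∈ stabilizer G A ⊓ stabilizer G Q, g • l = l := fun g hg =>
    Z.fix_join hI hQA hQ hA hg.2 hg.1
  have h5 : TrOn (stabilizer G A ⊓ stabilizer G Q) {y | I A y ∧ y ≠ l} := by
    have h5 : ∀ y, I A y → y ≠ l → ¬ I Q y := fun y h5 h6 h7 => h6 (Z.leq hQA h7 h5 hQ hA)
    rintro a ⟨h6, h7⟩ b ⟨h8, h9⟩
    obtain ⟨g, ⟨h10, h11⟩, rfl⟩ := h3 a (h5 a h6 h7) b (h5 b h8 h9)
    exact ⟨g, ⟨Z.peq h9 ((hI g _ _).2 h6) h8 ((show g • l = l from h10) ▸ (hI g _ _).2 hA) hA,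
      h11⟩, rfl⟩
  obtain ⟨W, hW⟩ := Core.exists_isSylowOf p (stabilizer G A ⊓ stabilizer G Q)
  have h6 : InvOn (stabilizer G A ⊓ stabilizer G Q) {y | I A y ∧ y ≠ l} :=
    Z.dual.invOn_pts hI' (fun g hg => hg.1) h4
  have h7 := Z.dual.ncard_on' (a := A) (A := l) hA
  obtain ⟨w, hw, h8⟩ := jordan (fun g hg => h6 g (hW.le hg))
    (tr_of_coprime hW.le h6 h5 (by rw [h7]; exact hcop hW)) (by rw [h7]; exact hk)
  obtain ⟨U, hU, hWU⟩ := Core.exists_isSylowOf_ge (K := stabilizer G l ⊓ stabilizer G A)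
    hW.isPGroup (fun g hg => ⟨h4 g (hW.le hg), (hW.le hg).1⟩)
  have h9 : TrOn U {X | I X l ∧ X ≠ A} := by
    refine tr_of_coprime hU.le (Z.invOn_pts hI (fun g hg => hg.1) (fun g hg => hg.2)) ?_
      (by rw [Z.ncard_on' hA]; exact hcop hU)
    rintro X ⟨h9, h10⟩ Y ⟨h11, h12⟩
    obtain ⟨g, h13, h14⟩ := (is_two_pretransitive_iff.1 h2) h10 h12
    exact ⟨g, ⟨Z.leq h12 (h13 ▸ (hI g _ _).2 h9) (h14 ▸ (hI g _ _).2 hA) h11 hA, h14⟩, h13⟩
  have h10 : U ≠ ⊥ := by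
    rintro rfl
    obtain ⟨X, h10, h11, h12⟩ := Z.third l A Q
    obtain ⟨g, rfl, h13⟩ := h9 Q ⟨hQ, hQA⟩ X ⟨h10, h11⟩
    exact h12 (h13.symm.trans (one_smul _ _))
  obtain ⟨u, h11, h12, h13⟩ := exists_comm_fixed hU.isPGroup hU.isPGroup
    (fun u hu v hv => U.mul_mem (U.mul_mem hu hv) (U.inv_mem hu)) h10
  obtain ⟨y, h14, h15⟩ : ∃ y, y ≠ l ∧ w • y = y := by
    have h14 : 1 < (univ.filter fun X : P => w • X = X).card :=
      Finset.one_lt_card.2 ⟨Q, by simpa using (hW.le hw).2, A, by simpa using (hW.le hw).1, hQA⟩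
    rw [Z.sd.card_fixed hI] at h14
    obtain ⟨y, h15, h16⟩ := Finset.exists_mem_ne h14 l
    exact ⟨y, h16, by simpa using h15⟩
  obtain ⟨Y, h16, h17⟩ := Z.meet h14
  have h18 : Y ≠ A := fun e => h8 y ⟨e ▸ h16, h14⟩ h15
  have h19 : u • l = l := (hU.le h11).1
  have h20 : u • Y = Y := by
    by_contra hne
    have h20 : u • y ≠ l := fun e => h14 (smul_left_cancel u (e.trans h19.symm))
    have h21 : I (u • Y) l := h19 ▸ (hI u _ _).2 h17
    have h22 : y ≠ u • y := fun e => hne (Z.peq h14 (e ▸ (hI u _ _).2 h16) h16 h21 h17)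
    obtain ⟨X, h23, h24⟩ := Z.meet h22
    have h25 : ¬ I X l := fun e => hne ((Z.peq h20 ((hI u _ _).2 h16) h24 h21 e).trans
      (Z.peq h14 h23 h16 e h17))
    have h26 : w • X = X := Z.fix_meet hI h22 h23 h24 h15 (by
      rw [← mul_smul, h13 w (hWU hw), mul_smul, h15])
    have h27 : A ≠ X := fun e => h25 (e ▸ hA)
    obtain ⟨x, h28, h29⟩ := Z.join h27
    exact h8 x ⟨h28, fun e => h25 (e ▸ h29)⟩ (Z.fix_join hI h27 h28 h29 (hW.le hw).1 h26)
  refine ⟨u, h12, l, fun X hX => ?_⟩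
  by_cases e : X = A
  · rw [e]; exact (hU.le h11).2
  · obtain ⟨g, hg, rfl⟩ := h9 Y ⟨h17, h18⟩ X ⟨hX, e⟩
    rw [← mul_smul, ← h13 g hg, mul_smul, h20]

theorem persp : ∃ g : G, g ≠ 1 ∧ ∃ c, g ∈ Ax G I c := by
  rcases Nat.even_or_odd n with h | h
  · exact Z.persp_even hI h2 h
  · exact Z.persp_pp hI h2 (pp_odd hI Z h2 (Z.two_lines hI h2) h)

theorem coord : ∃ (F : Type) (_ : Field F) (_ : Fintype F) (m : ℕ) (φ : P ≃ ℙ F (Fin m → F)),
    3 ≤ m ∧ ∀ a b c l, a ≠ b → I a l → I b l →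
      (I c l ↔ (φ c).submodule ≤ (φ a).submodule ⊔ (φ b).submodule) := by
  have hI' : ∀ (g : G) (l : L) (p : P), I (g • p) (g • l) ↔ I p l := fun g p b => hI g b p
  haveI := Z.sd.faithful hI
  have hk := Z.two
  obtain ⟨g, h1, c, h3⟩ := Z.persp hI h2
  obtain ⟨x, hx⟩ := Z.exists_ce hI h3
  obtain ⟨A, h4, h5, h6, h7⟩ := Z.sd.dual.ito hI' h2 (by omega) Z.hl
    (by rw [← Z.sd.card, Z.card]; nlinarith) (b := x) (fun e => h1 (by
      have : g ∈ (⊥ : Subgroup G) := e ▸ hx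
      exact this))
  obtain ⟨a, ha⟩ := (Subgroup.ne_bot_iff_exists_ne_one).1 h5
  obtain ⟨p, _, S, hS⟩ := exists_fam h2 x A (fun g hg => Z.ce_fix hI (h4 hg)) h7 h6
    ⟨a, a.2, fun e => ha (Subtype.ext e), Z.sd.dual.exists_fixed hI' (by omega) (h4 a.2)⟩
  haveI : IsPretransitive G P := isPretransitive_of_is_two_pretransitive
  have h8 : ∀ y, ∀ u ∈ S.N y, u ∈ Ce G I y := by
    intro y u hu
    obtain ⟨t, rfl⟩ := exists_smul_eq G x y
    have h8 := S.conj t⁻¹ hu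
    rw [inv_smul_smul] at h8
    have h9 := Ax_conj hI' (h4 (hS h8)) t
    convert h9 using 1; group
  have h9 : ∀ y, ∀ u ∈ S.N y, u ≠ 1 → ∃ d, El I u y d := by
    intro y u hu h9
    obtain ⟨d, hd⟩ := Z.exists_ax hI (h8 y u hu)
    refine ⟨d, h8 y u hu, hd, ?_, h9⟩
    by_contra hn
    obtain ⟨X, h10, -⟩ := Z.third d y y
    have h11 : y ≠ X := fun e => hn (e ▸ h10)
    obtain ⟨e, h12, h13⟩ := Z.join h11
    obtain ⟨Y, h14, h15, h16⟩ := Z.third e y X
    obtain ⟨t, h17, h18⟩ := S.two h11 h15.symm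
    have h19 := Ax_conj hI (Ax_conj hI hd t) u
    have h20 : u * (t * u * t⁻¹) * u⁻¹ = t * u * t⁻¹ := by
      rw [S.comm hu (S.conj' h17 hu), mul_inv_cancel_right]
    rw [h20] at h19
    have h21 := Z.ax_eq hI h19 (Ax_conj hI hd t) (fun e => h9 (by simpa using e))
    rcases Z.fixL hI (h8 y u hu) hd h9 h21 with h22 | h22
    · exact hn ((hI t _ _).1 (h17.symm ▸ h22))
    · have h23 : I Y d := h22 ▸ h18 ▸ (hI t _ _).2 h10
      exact hn (Z.leq h16 h14 h13 h23 h10 ▸ h12)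
  obtain ⟨F, _, _, m, φ, h10, h11, -⟩ := S.toPS.main
  refine ⟨F, inferInstance, inferInstance, m, φ, h10, fun a b c l hab ha hb => ?_⟩
  rw [← h11 a b c hab]
  have h12 : ∀ u ∈ S.U a b, u ≠ 1 → El I u a l := by
    intro u hu h12
    obtain ⟨d, hd⟩ := h9 a u hu.1 h12
    exact Z.leq hab hd.on (Z.el_fixP hI hd hu.2) ha hb ▸ hd
  constructor
  · intro hc u hu
    by_cases e : u = 1
    · rw [e, one_smul]
    · exact (h12 u hu e).ax c hc
  · intro hc
    obtain ⟨u, hu, h13⟩ := S.s0 hab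
    exact Z.el_fixP hI (h12 u hu h13) (hc u hu)

end Pl

end Cfsg.Agent.PG
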