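import Mathlib

/-! Groups with a normal Sylow subgroup with cyclic quotient. -/

set_option autoImplicit false

open Subgroup

namespace Cfsg.Agent.PG.PbC

variable {G : Type*} [Group G]

/-- a central cyclic Sylow subgroup with cyclic quotient -/
theorem cyc_of_central [Finite G] {p : ℕ} [Fact p.Prime] (S : Sylow p G) [(S : Subgroup G).Normal]
    (hS : IsCyclic (S : Subgroup G)) (hq : IsCyclic (G ⧸ (S : Subgroup G)))
    (hz : ∀ s ∈ (S : Subgroup G), ∀ g, s * g = g * s) : IsCyclic G := by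
  obtain ⟨a, ha⟩ := hS.exists_generator
  obtain ⟨q, hq⟩ := hq.exists_generator
  obtain ⟨g, rfl⟩ := QuotientGroup.mk_surjective q
  have h1 : orderOf (a : G) = Nat.card (S : Subgroup G) := by
    rw [Subgroup.orderOf_coe]; exact orderOf_eq_card_of_forall_mem_zpowers ha
  have h2 : orderOf (g : G ⧸ (S : Subgroup G)) = (S : Subgroup G).index :=
    orderOf_eq_card_of_forall_mem_zpowers hq
  have h3 : (S : Subgroup G).index ∣ orderOf g := by
    rw [← h2]; exact orderOf_map_dvd (QuotientGroup.mk' _) g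
  have h0 : orderOf g ≠ 0 := (orderOf_pos g).ne'
  have h4 : orderOf (g ^ (orderOf g / (S : Subgroup G).index)) = (S : Subgroup G).index :=
    orderOf_pow_orderOf_div h0 h3
  have hc : Commute (a : G) (g ^ (orderOf g / (S : Subgroup G).index)) := hz a a.2 _
  refine isCyclic_of_orderOf_eq_card ((a : G) * g ^ (orderOf g / (S : Subgroup G).index)) ?_
  rw [hc.orderOf_mul_eq_mul_orderOf_of_coprime, h1, h4, card_mul_index]
  rw [h1, h4]; exact S.card_coprime_index

/-- `Q ⊔ ⟨x⟩` is p-by-cyclic -/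
theorem pbc [Finite G] {p : ℕ} [Fact p.Prime] {Q : Subgroup G} (hQ : IsPGroup p Q) {x : G}
    (hx : x ∈ normalizer (Q : Set G)) :
    (∀ S : Sylow p ↥(Q ⊔ zpowers x), (S : Subgroup ↥(Q ⊔ zpowers x)).Normal) ∧
    (∀ (S : Sylow p ↥(Q ⊔ zpowers x)) [(S : Subgroup ↥(Q ⊔ zpowers x)).Normal],
      IsCyclic (↥(Q ⊔ zpowers x) ⧸ (S : Subgroup ↥(Q ⊔ zpowers x)))) := by
  set H := Q ⊔ zpowers x with hH
  have hN : H ≤ normalizer (Q : Set G) := sup_le le_normalizer (zpowers_le.2 hx)
  haveI hn : (Q.subgroupOf H).Normal := normal_subgroupOf_of_le_normalizer hN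
  have hQ' : IsPGroup p (Q.subgroupOf H) := hQ.of_equiv (subgroupOfEquivOfLe le_sup_left).symm
  have hxH : x ∈ H := (le_sup_right : zpowers x ≤ H) (mem_zpowers x)
  have hle : ∀ S : Sylow p H, Q.subgroupOf H ≤ S := fun S => by
    have := (hQ'.to_sup_of_normal_left S.isPGroup')
    have h2 := S.is_maximal' this le_sup_right
    rw [← h2]; exact le_sup_left
  have gen : ∀ h : H, ∃ k : ℤ, ((⟨x, hxH⟩ : H) ^ k)⁻¹ * h ∈ Q.subgroupOf H := by
    rintro ⟨h, hh⟩
    have : (h : G) ∈ ((zpowers x ⊔ Q : Subgroup G) : Set G) := by rw [sup_comm]; exact hh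
    rw [Subgroup.coe_mul_of_left_le_normalizer_right _ _ (zpowers_le.2 hx)] at this
    obtain ⟨a, ⟨k, rfl⟩, b, hb, rfl⟩ := this
    refine ⟨k, ?_⟩
    simpa [mem_subgroupOf] using hb
  have cyc : ∀ (T : Subgroup H) [T.Normal], Q.subgroupOf H ≤ T → IsCyclic (H ⧸ T) := by
    intro T _ hT
    refine ⟨⟨((⟨x, hxH⟩ : H) : H ⧸ T), fun q => ?_⟩⟩
    obtain ⟨h, rfl⟩ := QuotientGroup.mk_surjective q
    obtain ⟨k, hk⟩ := gen h
    refine ⟨k, ?_⟩
    show ((⟨x, hxH⟩ : H) : H ⧸ T) ^ k = _
    rw [← QuotientGroup.mk_zpow, QuotientGroup.eq]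
    exact hT hk
  refine ⟨fun S => ?_, fun S _ => cyc _ (hle S)⟩
  haveI := cyc _ le_rfl
  refine ⟨fun s hs g => ?_⟩
  have : (s⁻¹ * (g * s * g⁻¹)) ∈ Q.subgroupOf H := by
    rw [← QuotientGroup.eq]
    letI : CommGroup (H ⧸ Q.subgroupOf H) := IsCyclic.commGroup
    simp only [QuotientGroup.mk_mul, QuotientGroup.mk_inv]
    rw [mul_right_comm, mul_inv_cancel, one_mul]
  simpa using (S : Subgroup H).mul_mem hs (hle S this)

/-- elements of order dividing `p` in a cyclic subgroup -/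
theorem mem_zpowers_of_cyc [Finite G] {S : Subgroup G} (hS : IsCyclic S) {a b : G} (ha : a ∈ S)
    (hb : b ∈ S) (h : b ^ orderOf a = 1) : b ∈ zpowers a := by
  classical
  haveI := Fintype.ofFinite S
  have h0 : 0 < orderOf a := orderOf_pos a
  have hle := IsCyclic.card_pow_eq_one_le (α := S) h0
  set A : Finset S := Finset.univ.filter (fun s => (s : G) ∈ zpowers a)
  have hA : A ⊆ Finset.univ.filter (fun s : S => s ^ orderOf a = 1) := by
    intro s hs
    simp only [A, Finset.mem_filter, Finset.mem_univ, true_and] at hs ⊢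
    obtain ⟨k, hk⟩ := hs
    apply Subtype.ext
    simp only [SubgroupClass.coe_pow, OneMemClass.coe_one]
    rw [← hk, ← zpow_natCast, ← zpow_mul, mul_comm, zpow_mul, zpow_natCast, pow_orderOf_eq_one,
      one_zpow]
  have hc : A.card = orderOf a := by
    rw [← Nat.card_zpowers, ← Nat.card_eq_finsetCard]
    refine Nat.card_congr ⟨fun s => ⟨s.1.1, (Finset.mem_filter.1 s.2).2⟩,
      fun s => ⟨⟨s.1, zpowers_le.2 ha s.2⟩, by simpa [A] using s.2⟩, fun _ => rfl, fun _ => rfl⟩
  have := Finset.eq_of_subset_of_card_le hA (by rw [hc]; exact hle)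
  have hb' : (⟨b, hb⟩ : S) ∈ A := by
    rw [this]; simp only [Finset.mem_filter, Finset.mem_univ, true_and]
    exact Subtype.ext (by simpa using h)
  simpa [A] using hb'

/-- dihedral groups: structure relative to odd order elements -/
theorem dih_odd {n : ℕ} (e : G ≃* DihedralGroup n) {q x : G} {m : ℕ} (hm : Odd m) (hq : q ^ m = 1)
    (hx : x * q ≠ q * x) : x * x = 1 ∧ ∀ y : G, ∀ k, Odd k → y ^ k = 1 → x * y * x⁻¹ = y⁻¹ := by
  have rot : ∀ y : G, ∀ k, Odd k → y ^ k = 1 → ∃ i, e y = DihedralGroup.r i := by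
    intro y k hk hy
    rcases h : e y with i | i
    · exact ⟨i, rfl⟩
    · exfalso
      have h1 : (e y) ^ k = 1 := by rw [← map_pow, hy, map_one]
      have := orderOf_dvd_of_pow_eq_one h1
      rw [h, DihedralGroup.orderOf_sr] at this
      exact (Nat.not_even_iff_odd.2 hk) (even_iff_two_dvd.2 this)
  obtain ⟨i, hi⟩ := rot q m hm hq
  rcases h : e x with j | j
  · exfalso; apply hx; apply e.injective
    rw [map_mul, map_mul, h, hi, DihedralGroup.r_mul_r, DihedralGroup.r_mul_r, add_comm]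
  · refine ⟨e.injective (by rw [map_mul, h, map_one, DihedralGroup.sr_mul_self]), ?_⟩
    intro y k hk hy
    obtain ⟨l, hl⟩ := rot y k hk hy
    apply e.injective
    rw [map_mul, map_mul, map_inv, map_inv, h, hl]
    simp

/-- embed a subgroup so that a given Sylow subgroup lands in `P` -/
theorem exists_emb [Finite G] {p : ℕ} [Fact p.Prime] (P : Sylow p G) (H : Subgroup G)
    (S : Sylow p H) : ∃ f : H →* G, Function.Injective f ∧ ∀ s ∈ (S : Subgroup H), f s ∈ (P : Subgroup G) := by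
  obtain ⟨T, hT⟩ := (S.isPGroup'.map H.subtype).exists_le_sylow
  obtain ⟨g, hg⟩ := MulAction.exists_smul_eq G T P
  refine ⟨(MulAut.conj g).toMonoidHom.comp H.subtype,
    (MulAut.conj g).injective.comp H.subtype_injective, fun s hs => ?_⟩
  rw [← hg, Sylow.coe_subgroup_smul]
  exact smul_mem_pointwise_smul _ _ _ (hT ⟨s, hs, rfl⟩)

theorem cyc_of_emb {H : Type*} [Group H] {P : Subgroup G} (hP : IsCyclic P) (f : H →* G)
    (hf : Function.Injective f) {S : Subgroup H} (h : ∀ s ∈ S, f s ∈ P) : IsCyclic S := by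
  let φ : S →* P := (f.comp S.subtype).codRestrict P (fun s => h s s.2)
  exact isCyclic_of_injective φ (fun a b hab => Subtype.ext (hf (congrArg Subtype.val hab)))

end Cfsg.Agent.PG.PbC
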